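import Cfsg.Agent.Lib.Helper19.PSL2Spec

set_option autoImplicit false
set_option linter.style.haveILetI false
set_option linter.unusedSectionVars false

/-! One-dimensional affine groups `E ⋊ ⟨g⟩` and their element orders. -/

namespace Cfsg.Agent.Lib.Helper19

/-- the group `E ⋊ ⟨g⟩`. -/
@[ext] structure Ax (E : Type*) [Field E] (g : Eˣ) where
  lin : Subgroup.zpowers g
  tr : E

namespace Ax

variable {E : Type*} [Field E] {g : Eˣ}

instance instMul : Mul (Ax E g) :=
  ⟨fun x y => ⟨x.lin * y.lin, x.tr + ((x.lin : Eˣ) : E) * y.tr⟩⟩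

instance instOne : One (Ax E g) := ⟨⟨1, 0⟩⟩

instance instInv : Inv (Ax E g) :=
  ⟨fun x => ⟨x.lin⁻¹, -((((x.lin⁻¹ : Subgroup.zpowers g) : Eˣ) : E) * x.tr)⟩⟩

@[simp] theorem mul_lin (x y : Ax E g) : (x * y).lin = x.lin * y.lin := rfl
@[simp] theorem mul_tr (x y : Ax E g) : (x * y).tr = x.tr + ((x.lin : Eˣ) : E) * y.tr := rfl
@[simp] theorem one_lin : (1 : Ax E g).lin = 1 := rfl
@[simp] theorem one_tr : (1 : Ax E g).tr = 0 := rfl
@[simp] theorem inv_lin (x : Ax E g) : (x⁻¹).lin = x.lin⁻¹ := rfl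
@[simp] theorem inv_tr (x : Ax E g) :
    (x⁻¹).tr = -((((x.lin⁻¹ : Subgroup.zpowers g) : Eˣ) : E) * x.tr) := rfl

instance instGroup : Group (Ax E g) :=
  Group.ofLeftAxioms
    (fun a b c => by
      ext1
      · simp [mul_assoc]
      · simp [mul_add, mul_assoc, add_assoc])
    (fun a => by
      ext1
      · simp
      · simp)
    (fun a => by
      ext1
      · simp
      · simp)

/-- projection to the linear part. -/
def linHom : Ax E g →* Subgroup.zpowers g where
  toFun := lin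
  map_one' := rfl
  map_mul' _ _ := rfl

/-- the complement. -/
def inl : Subgroup.zpowers g →* Ax E g where
  toFun u := ⟨u, 0⟩
  map_one' := rfl
  map_mul' u v := by
    ext1
    · rfl
    · simp

/-- the translations. -/
def trans : Multiplicative E →* Ax E g where
  toFun v := ⟨1, Multiplicative.toAdd v⟩
  map_one' := rfl
  map_mul' u v := by
    ext1
    · simp
    · simp

theorem inl_injective : Function.Injective (inl : Subgroup.zpowers g →* Ax E g) := by
  intro A B h
  exact congrArg lin h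

theorem pow_lin (x : Ax E g) (n : ℕ) : (x ^ n).lin = x.lin ^ n := map_pow linHom x n

instance instFinite [Finite E] : Finite (Ax E g) :=
  Finite.of_injective (fun x : Ax E g => (x.lin, x.tr)) (by
    intro x y h
    simp only [Prod.mk.injEq] at h
    exact Ax.ext h.1 h.2)

instance instSolvable : Group.IsSolvable (Ax E g) :=
  Group.isSolvable_of_ker_le_range (trans : Multiplicative E →* Ax E g) linHom (by
    intro x hx
    have h1 : x.lin = 1 := hx
    exact ⟨Multiplicative.ofAdd x.tr, Ax.ext h1.symm rfl⟩)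

theorem pow_eq_one_of_lin_ne (x : Ax E g) (hx : x.lin ≠ 1) (n : ℕ) (hn : x.lin ^ n = 1) :
    x ^ n = 1 := by
  have hl : (x ^ n).lin = 1 := by rw [pow_lin, hn]
  have hc : x * x ^ n = x ^ n * x := (Commute.self_pow x n).eq
  have h2 := congrArg Ax.tr hc
  simp only [mul_tr, hl, OneMemClass.coe_one, Units.val_one, one_mul] at h2
  have h3 : (((x.lin : Eˣ) : E) - 1) * (x ^ n).tr = 0 := by linear_combination h2
  rcases mul_eq_zero.mp h3 with h | h
  · exfalso
    apply hx
    apply Subtype.ext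
    apply Units.ext
    simpa using sub_eq_zero.mp h
  · exact Ax.ext hl h

theorem spectrum [Finite E] (p : ℕ) [Fact p.Prime] [CharP E p] :
    Set.range (orderOf : Ax E g → ℕ) = {m : ℕ | m ∣ p ∨ m ∣ orderOf g} := by
  ext m
  constructor
  · rintro ⟨x, rfl⟩
    by_cases hx : x.lin = 1
    · left
      apply orderOf_dvd_of_pow_eq_one
      have h1 : x = trans (Multiplicative.ofAdd x.tr) := Ax.ext hx rfl
      rw [h1, ← map_pow, ← ofAdd_nsmul, nsmul_eq_mul, CharP.cast_eq_zero E p, zero_mul]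
      rfl
    · right
      have h1 : orderOf x ∣ orderOf x.lin :=
        orderOf_dvd_of_pow_eq_one (pow_eq_one_of_lin_ne x hx _ (pow_orderOf_eq_one _))
      have h2 : orderOf x.lin ∣ orderOf g := by
        have h3 := orderOf_dvd_natCard x.lin
        rwa [Nat.card_zpowers] at h3
      exact h1.trans h2
  · have aux : ∀ y : Ax E g, m ∣ orderOf y → m ∈ Set.range (orderOf : Ax E g → ℕ) := by
      intro y hy
      exact ⟨y ^ (orderOf y / m), orderOf_pow_orderOf_div (orderOf_pos y).ne' hy⟩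
    rintro (h | h)
    · apply aux (trans (Multiplicative.ofAdd (1 : E)))
      have h1 : orderOf (trans (Multiplicative.ofAdd (1 : E)) : Ax E g) = p := by
        apply orderOf_eq_prime
        · rw [← map_pow, ← ofAdd_nsmul, nsmul_eq_mul, CharP.cast_eq_zero E p, zero_mul]
          rfl
        · intro hc
          have := congrArg Ax.tr hc
          simp [trans] at this
      rw [h1]
      exact h
    · apply aux (inl ⟨g, Subgroup.mem_zpowers g⟩)
      rw [orderOf_injective _ inl_injective, Subgroup.orderOf_mk]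
      exact h

end Ax

theorem range_orderOf_prod (X Y : Type*) [Monoid X] [Monoid Y] :
    Set.range (orderOf : X × Y → ℕ) =
      {m | ∃ a ∈ Set.range (orderOf : X → ℕ), ∃ b ∈ Set.range (orderOf : Y → ℕ), m = Nat.lcm a b} := by
  ext m
  constructor
  · rintro ⟨⟨x, y⟩, rfl⟩
    exact ⟨_, ⟨x, rfl⟩, _, ⟨y, rfl⟩, Prod.orderOf _⟩
  · rintro ⟨_, ⟨x, rfl⟩, _, ⟨y, rfl⟩, rfl⟩
    exact ⟨(x, y), Prod.orderOf _⟩

theorem exists_unit_orderOf (E : Type*) [Field E] [Finite E] (a : ℕ) (ha : a ∣ Nat.card E - 1) :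
    ∃ g : Eˣ, orderOf g = a := by
  obtain ⟨g, hg⟩ := IsCyclic.exists_generator (α := Eˣ)
  have hgo : orderOf g = Nat.card Eˣ := orderOf_eq_card_of_forall_mem_zpowers hg
  rw [Nat.card_units] at hgo
  exact ⟨g ^ (orderOf g / a), orderOf_pow_orderOf_div (orderOf_pos g).ne' (hgo ▸ ha)⟩

/-- a solvable group with the spectrum of `PSL(2,q) × PSL(2,q)`. -/
theorem exists_solvable_psl2_sq (F : Type*) [Field F] [Finite F] (hq4 : 4 ≤ Nat.card F) :
    ∃ (H : Type) (_ : Group H) (_ : Finite H), Group.IsSolvable H ∧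
      Set.range (orderOf : H → ℕ) = Set.range (orderOf : Matrix.ProjectiveSpecialLinearGroup (Fin 2) F ×
        Matrix.ProjectiveSpecialLinearGroup (Fin 2) F → ℕ) := by
  obtain ⟨p, hp⟩ := CharP.exists F
  haveI : Fact p.Prime := ⟨CharP.char_is_prime F p⟩
  haveI : CharP (FiniteField.Extension F p 2) p :=
    charP_of_injective_algebraMap (algebraMap F (FiniteField.Extension F p 2)).injective p
  have hd1 : Nat.gcd 2 (Nat.card F - 1) ∣ Nat.card F - 1 := Nat.gcd_dvd_right _ _
  have hd2 : Nat.gcd 2 (Nat.card F - 1) ∣ Nat.card F + 1 := by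
    have e : Nat.card F + 1 = (Nat.card F - 1) + 2 := by omega
    rw [e]
    exact dvd_add hd1 (Nat.gcd_dvd_left _ _)
  obtain ⟨g1, hg1⟩ := exists_unit_orderOf F ((Nat.card F - 1) / Nat.gcd 2 (Nat.card F - 1))
    (Nat.div_dvd_of_dvd hd1)
  obtain ⟨g2, hg2⟩ := exists_unit_orderOf (FiniteField.Extension F p 2)
    ((Nat.card F + 1) / Nat.gcd 2 (Nat.card F - 1)) (by
      rw [FiniteField.natCard_extension]
      have hfac : Nat.card F ^ 2 - 1 = (Nat.card F - 1) * (Nat.card F + 1) := by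
        obtain ⟨k, hk⟩ : ∃ k, Nat.card F = k + 1 := ⟨Nat.card F - 1, by omega⟩
        rw [hk]
        simp only [Nat.add_sub_cancel]
        have : (k + 1) ^ 2 = k * (k + 1 + 1) + 1 := by ring
        rw [this, Nat.add_sub_cancel]
      rw [hfac]
      exact (Nat.div_dvd_of_dvd hd2).trans (dvd_mul_left _ _))
  obtain ⟨H, i1, i2, ⟨e⟩⟩ := exists_type_zero (Ax F g1 × Ax (FiniteField.Extension F p 2) g2)
  refine ⟨H, i1, i2, ?_, ?_⟩
  · exact Group.isSolvable_of_surjective (f := e.toMonoidHom) e.surjective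
  · have h1 : Set.range (orderOf : H → ℕ) =
        Set.range (orderOf : Ax F g1 × Ax (FiniteField.Extension F p 2) g2 → ℕ) := by
      ext m
      constructor
      · rintro ⟨x, rfl⟩
        exact ⟨e.symm x, by rw [MulEquiv.orderOf_eq]⟩
      · rintro ⟨x, rfl⟩
        exact ⟨e x, by rw [MulEquiv.orderOf_eq]⟩
    rw [h1, range_orderOf_prod, range_orderOf_prod, Ax.spectrum p, Ax.spectrum p,
      psl2_spectrum p hq4, hg1, hg2]
    ext m
    simp only [Set.mem_ofPred_eq]
    constructor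
    · rintro ⟨a, ha, b, hb, rfl⟩
      refine ⟨a, ?_, b, ?_, rfl⟩
      · rcases ha with h | h
        · exact Or.inl h
        · exact Or.inr (Or.inl h)
      · rcases hb with h | h
        · exact Or.inl h
        · exact Or.inr (Or.inr h)
    · rintro ⟨a, ha, b, hb, rfl⟩
      rcases ha with ha | ha | ha <;> rcases hb with hb | hb | hb
      · exact ⟨Nat.lcm a b, Or.inl (Nat.lcm_dvd ha hb), 1, Or.inl (one_dvd _), by simp⟩
      · exact ⟨b, Or.inr hb, a, Or.inl ha, Nat.lcm_comm _ _⟩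
      · exact ⟨a, Or.inl ha, b, Or.inr hb, rfl⟩
      · exact ⟨a, Or.inr ha, b, Or.inl hb, rfl⟩
      · exact ⟨Nat.lcm a b, Or.inr (Nat.lcm_dvd ha hb), 1, Or.inl (one_dvd _), by simp⟩
      · exact ⟨a, Or.inr ha, b, Or.inr hb, rfl⟩
      · exact ⟨b, Or.inl hb, a, Or.inr ha, Nat.lcm_comm _ _⟩
      · exact ⟨b, Or.inr hb, a, Or.inr ha, Nat.lcm_comm _ _⟩
      · exact ⟨1, Or.inl (one_dvd _), Nat.lcm a b, Or.inr (Nat.lcm_dvd ha hb), by simp⟩

end Cfsg.Agent.Lib.Helper19
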