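import Mathlib

/-!
# Laws, part A: a free subgroup of `SL₂(R[X])` by ping-pong
-/

set_option autoImplicit false
set_option linter.style.haveILetI false
set_option linter.unusedSimpArgs false
set_option linter.unusedSectionVars false
open scoped Pointwise
open Polynomial Matrix

namespace Cfsg.Agent.Lib.Helper19.Law

universe u

variable {R : Type u} [CommRing R] [IsDomain R]

theorem pp1 {p q c c' : R[X]} (hq : q ≠ 0) (h1 : degree (p - c * q) ≤ degree q)
    (h2 : degree (p - c' * q) ≤ degree q) : degree (c - c') ≤ 0 := by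
  have e : (c - c') * q = (p - c' * q) - (p - c * q) := by ring
  have h3 : degree ((c - c') * q) ≤ degree q := by
    rw [e]
    exact (degree_sub_le _ _).trans (max_le h2 h1)
  rw [degree_mul] at h3
  by_cases hc : c - c' = 0
  · rw [hc]; simp
  · rw [degree_eq_natDegree hc, degree_eq_natDegree hq] at h3
    rw [degree_eq_natDegree hc]
    have h4 : (c - c').natDegree + q.natDegree ≤ q.natDegree := by exact_mod_cast h3
    have h5 : (c - c').natDegree = 0 := by omega
    rw [h5]; simp

theorem pp2 {p q d d' : R[X]} (h1 : degree (q + d * p) < degree p)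
    (h2 : degree (q + d' * p) < degree p) : d = d' := by
  by_contra hne
  have hd : d - d' ≠ 0 := sub_ne_zero.mpr hne
  have hp : p ≠ 0 := by
    rintro rfl
    simp at h1
  have e : (d - d') * p = (q + d * p) - (q + d' * p) := by ring
  have h3 : degree ((d - d') * p) < degree p := by
    rw [e]
    exact (degree_sub_le _ _).trans_lt (max_lt h1 h2)
  rw [degree_mul, degree_eq_natDegree hd, degree_eq_natDegree hp] at h3
  have h4 : (d - d').natDegree + p.natDegree < p.natDegree := by exact_mod_cast h3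
  omega

theorem pp3 {p q c d : R[X]} (hq : q ≠ 0) (h1 : degree (p - c * q) ≤ degree q) (hc : 0 < degree c)
    (h2 : degree (q + d * p) < degree p) (hd : d ≠ 0) : False := by
  have hp : p ≠ 0 := by
    rintro rfl
    simp at h2
  have hc0 : c ≠ 0 := by
    rintro rfl
    simp at hc
  -- degree q < degree p
  have h3 : degree q < degree (c * q) := by
    rw [degree_mul, degree_eq_natDegree hc0, degree_eq_natDegree hq]
    rw [degree_eq_natDegree hc0] at hc
    have : 0 < c.natDegree := by exact_mod_cast hc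
    have h : q.natDegree < c.natDegree + q.natDegree := by omega
    exact_mod_cast h
  have h4 : degree p = degree (c * q) := by
    have e : p = (p - c * q) + c * q := by ring
    conv_lhs => rw [e]
    exact degree_add_eq_right_of_degree_lt (h1.trans_lt h3)
  have h5 : degree q < degree p := by rw [h4]; exact h3
  -- degree p ≤ degree q
  have h6 : degree p ≤ degree (d * p) := by
    rw [degree_mul, degree_eq_natDegree hd, degree_eq_natDegree hp]
    have h : p.natDegree ≤ d.natDegree + p.natDegree := by omega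
    exact_mod_cast h
  have h7 : degree q = degree (d * p) := by
    have e : q = (q + d * p) + (-(d * p)) := by ring
    conv_lhs => rw [e]
    rw [degree_add_eq_right_of_degree_lt (by rw [degree_neg]; exact h2.trans_le h6), degree_neg]
  rw [h7] at h5
  exact absurd h5 (not_lt.mpr h6)

/-- the matrix of the generators -/
def a2m {S : Type*} [CommRing S] (c d : S) : Matrix (Fin 2) (Fin 2) S := !![1 + c * d, c; d, 1]

theorem det_a2m {S : Type*} [CommRing S] (c d : S) : (a2m c d).det = 1 := by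
  simp [a2m, Matrix.det_fin_two]

/-- the generators -/
def a2g {S : Type*} [CommRing S] (c d : S) : SpecialLinearGroup (Fin 2) S := ⟨a2m c d, det_a2m c d⟩

/-- the free generators -/
noncomputable def a2 (R : Type*) [CommRing R] (i : ℕ) : SpecialLinearGroup (Fin 2) R[X] :=
  a2g (X ^ (i + 1)) (X ^ (i + 1))

theorem col_ne {S : Type*} [CommRing S] [Nontrivial S] (M : SpecialLinearGroup (Fin 2) S)
    (h0 : M 0 0 = 0) (h1 : M 1 0 = 0) : False := by
  have := M.det_coe
  rw [Matrix.det_fin_two, h0, h1] at this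
  simp at this

theorem a2g_mul_00 {S : Type*} [CommRing S] (c d : S) (M : SpecialLinearGroup (Fin 2) S) :
    (a2g c d * M) 0 0 = (1 + c * d) * M 0 0 + c * M 1 0 := by
  show (a2m c d * (M : Matrix (Fin 2) (Fin 2) S)) 0 0 = _
  simp [a2m, Matrix.mul_apply, Fin.sum_univ_two]

theorem a2g_mul_10 {S : Type*} [CommRing S] (c d : S) (M : SpecialLinearGroup (Fin 2) S) :
    (a2g c d * M) 1 0 = d * M 0 0 + M 1 0 := by
  show (a2m c d * (M : Matrix (Fin 2) (Fin 2) S)) 1 0 = _
  simp [a2m, Matrix.mul_apply, Fin.sum_univ_two]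

theorem a2g_inv_mul_00 {S : Type*} [CommRing S] (c d : S) (M : SpecialLinearGroup (Fin 2) S) :
    ((a2g c d)⁻¹ * M) 0 0 = M 0 0 - c * M 1 0 := by
  rw [Matrix.SpecialLinearGroup.SL2_inv_expl]
  show (!![(a2g c d) 1 1, -(a2g c d) 0 1; -(a2g c d) 1 0, (a2g c d) 0 0] *
    (M : Matrix (Fin 2) (Fin 2) S)) 0 0 = _
  simp [a2g, a2m, Matrix.mul_apply, Fin.sum_univ_two]
  ring

theorem a2g_inv_mul_10 {S : Type*} [CommRing S] (c d : S) (M : SpecialLinearGroup (Fin 2) S) :
    ((a2g c d)⁻¹ * M) 1 0 = - d * M 0 0 + (1 + c * d) * M 1 0 := by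
  rw [Matrix.SpecialLinearGroup.SL2_inv_expl]
  show (!![(a2g c d) 1 1, -(a2g c d) 0 1; -(a2g c d) 1 0, (a2g c d) 0 0] *
    (M : Matrix (Fin 2) (Fin 2) S)) 1 0 = _
  simp [a2g, a2m, Matrix.mul_apply, Fin.sum_univ_two]

theorem degree_pow_sub {i j : ℕ} (hij : i ≠ j) :
    ¬ degree ((X : R[X]) ^ (i + 1) - X ^ (j + 1)) ≤ 0 := by
  rcases lt_or_gt_of_ne hij with h | h
  · rw [degree_sub_eq_right_of_degree_lt (by
      rw [degree_X_pow, degree_X_pow]; exact_mod_cast (by omega : i + 1 < j + 1)), degree_X_pow]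
    intro h0
    have : j + 1 ≤ 0 := by exact_mod_cast h0
    omega
  · rw [degree_sub_eq_left_of_degree_lt (by
      rw [degree_X_pow, degree_X_pow]; exact_mod_cast (by omega : j + 1 < i + 1)), degree_X_pow]
    intro h0
    have : i + 1 ≤ 0 := by exact_mod_cast h0
    omega

theorem a2_injective_aux :
    Function.Injective (FreeGroup.lift (fun i : ULift.{u} ℕ => a2 R i.down)) := by
  let XX : ULift.{u} ℕ → Set (SpecialLinearGroup (Fin 2) R[X]) := fun i =>
    {M | degree (M 0 0 - X ^ (i.down + 1) * M 1 0) ≤ degree (M 1 0) ∧ M 1 0 ≠ 0}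
  let YY : ULift.{u} ℕ → Set (SpecialLinearGroup (Fin 2) R[X]) := fun i =>
    {M | degree (M 1 0 + X ^ (i.down + 1) * M 0 0) < degree (M 0 0)}
  apply FreeGroup.injective_lift_of_ping_pong _ XX YY
  · intro i
    refine ⟨a2 R i.down, ?_⟩
    show degree ((a2 R i.down) 0 0 - X ^ (i.down + 1) * (a2 R i.down) 1 0) ≤ degree ((a2 R i.down) 1 0)
      ∧ (a2 R i.down) 1 0 ≠ 0
    have e0 : (a2 R i.down) 0 0 = 1 + X ^ (i.down + 1) * X ^ (i.down + 1) := rfl
    have e1 : (a2 R i.down) 1 0 = X ^ (i.down + 1) := rfl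
    rw [e0, e1]
    refine ⟨?_, pow_ne_zero _ X_ne_zero⟩
    rw [add_sub_cancel_right, degree_one, degree_X_pow]
    exact_mod_cast Nat.zero_le _
  · intro i j hij
    rw [Function.onFun, Set.disjoint_left]
    rintro M ⟨h1, h2⟩ ⟨h3, -⟩
    have hij' : i.down ≠ j.down := fun h => hij (ULift.ext _ _ h)
    exact degree_pow_sub hij' (pp1 h2 h1 h3)
  · intro i j hij
    rw [Function.onFun, Set.disjoint_left]
    intro M h1 h2
    have hij' : i.down ≠ j.down := fun h => hij (ULift.ext _ _ h)
    have h3 : (X : R[X]) ^ (i.down + 1) = X ^ (j.down + 1) := pp2 h1 h2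
    apply degree_pow_sub (R := R) hij'
    rw [h3, sub_self]
    simp
  · intro i j
    rw [Set.disjoint_left]
    rintro M ⟨h1, h2⟩ h3
    exact pp3 h2 h1 (by rw [degree_X_pow]; exact_mod_cast Nat.succ_pos _) h3 (pow_ne_zero _ X_ne_zero)
  · intro i
    rintro _ ⟨M, hM, rfl⟩
    have hM' : ¬ degree (M 1 0 + X ^ (i.down + 1) * M 0 0) < degree (M 0 0) := hM
    show degree ((a2 R i.down * M) 0 0 - X ^ (i.down + 1) * (a2 R i.down * M) 1 0)
      ≤ degree ((a2 R i.down * M) 1 0) ∧ (a2 R i.down * M) 1 0 ≠ 0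
    rw [a2, a2g_mul_00, a2g_mul_10]
    have e : (1 + X ^ (i.down + 1) * X ^ (i.down + 1)) * M 0 0 + X ^ (i.down + 1) * M 1 0 -
        X ^ (i.down + 1) * (X ^ (i.down + 1) * M 0 0 + M 1 0) = M 0 0 := by ring
    rw [e, add_comm (X ^ (i.down + 1) * M 0 0)]
    refine ⟨not_lt.mp hM', ?_⟩
    intro h0
    rw [h0] at hM'
    have h00 : M 0 0 = 0 := by
      by_contra hne
      exact hM' (by rw [degree_zero]; exact bot_lt_iff_ne_bot.mpr (degree_ne_bot.mpr hne))
    rw [h00, mul_zero, add_zero] at h0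
    exact col_ne M h00 h0
  · intro i
    rintro _ ⟨M, hM, rfl⟩
    have hM' : ¬ (degree (M 0 0 - X ^ (i.down + 1) * M 1 0) ≤ degree (M 1 0) ∧ M 1 0 ≠ 0) := hM
    show degree (((a2 R i.down)⁻¹ * M) 1 0 + X ^ (i.down + 1) * ((a2 R i.down)⁻¹ * M) 0 0)
      < degree (((a2 R i.down)⁻¹ * M) 0 0)
    rw [a2, a2g_inv_mul_00, a2g_inv_mul_10]
    have e : -X ^ (i.down + 1) * M 0 0 + (1 + X ^ (i.down + 1) * X ^ (i.down + 1)) * M 1 0 +
        X ^ (i.down + 1) * (M 0 0 - X ^ (i.down + 1) * M 1 0) = M 1 0 := by ring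
    rw [e]
    by_cases h0 : M 1 0 = 0
    · rw [h0, mul_zero, sub_zero, degree_zero]
      apply bot_lt_iff_ne_bot.mpr
      apply degree_ne_bot.mpr
      intro h00
      exact col_ne M h00 h0
    · by_contra hcon
      exact hM' ⟨not_lt.mp hcon, h0⟩

theorem a2_injective : Function.Injective (FreeGroup.lift (a2 R)) := by
  have h : FreeGroup.lift (a2 R) = (FreeGroup.lift (fun i : ULift.{u} ℕ => a2 R i.down)).comp
      (FreeGroup.freeGroupCongr Equiv.ulift.symm).toMonoidHom := by
    ext i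
    simp
  rw [h]
  exact a2_injective_aux.comp (FreeGroup.freeGroupCongr Equiv.ulift.symm).injective

end Cfsg.Agent.Lib.Helper19.Law
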