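import Cfsg.Agent.Lib.Helper19.LawA

/-!
# Laws, part B: degree bounds, evaluation, and `PSL₂`
-/

set_option autoImplicit false
set_option linter.style.haveILetI false
set_option linter.unusedSimpArgs false
set_option linter.unusedSectionVars false
open scoped Pointwise
open Polynomial Matrix

namespace Cfsg.Agent.Lib.Helper19.Law

universe u

/-- all entries have degree at most `k` -/
def Deg {R : Type*} [CommRing R] {n : ℕ} (M : Matrix (Fin n) (Fin n) R[X]) (k : ℕ) : Prop :=
  ∀ i j, natDegree (M i j) ≤ k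

theorem Deg.mul {R : Type*} [CommRing R] {n : ℕ} {M N : Matrix (Fin n) (Fin n) R[X]} {k l : ℕ}
    (hM : Deg M k) (hN : Deg N l) : Deg (M * N) (k + l) := by
  intro i j
  rw [Matrix.mul_apply]
  apply natDegree_sum_le_of_forall_le
  intro x _
  exact natDegree_mul_le_of_le (hM i x) (hN x j)

theorem Deg.one {R : Type*} [CommRing R] {n : ℕ} : Deg (1 : Matrix (Fin n) (Fin n) R[X]) 0 := by
  intro i j
  rw [Matrix.one_apply]
  split_ifs <;> simp

theorem Deg.mono {R : Type*} [CommRing R] {n : ℕ} {M : Matrix (Fin n) (Fin n) R[X]} {k l : ℕ}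
    (hM : Deg M k) (h : k ≤ l) : Deg M l := fun i j => (hM i j).trans h

theorem exists_eval_ne {F : Type*} [Field F] [Fintype F] {e : F[X]} (he : e ≠ 0)
    (hd : natDegree e < Fintype.card F) : ∃ y, eval y e ≠ 0 := by
  by_contra hcon
  push Not at hcon
  exact he (Polynomial.eq_zero_of_natDegree_lt_card_of_eval_eq_zero' e Finset.univ
    (fun i _ => hcon i) (by rw [Finset.card_univ]; exact hd))

theorem deg_a2 (R : Type*) [CommRing R] (i : ℕ) :
    Deg ((a2 R i : SpecialLinearGroup (Fin 2) R[X]) : Matrix (Fin 2) (Fin 2) R[X]) (2 * (i + 1)) := by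
  intro r s
  have h1 : natDegree ((X : R[X]) ^ (i + 1)) ≤ i + 1 := natDegree_X_pow_le _
  have h2 : natDegree (1 + (X : R[X]) ^ (i + 1) * X ^ (i + 1)) ≤ 2 * (i + 1) := by
    apply (natDegree_add_le _ _).trans
    rw [natDegree_one]
    apply max_le (Nat.zero_le _)
    exact (natDegree_mul_le_of_le h1 h1).trans (by omega)
  fin_cases r <;> fin_cases s
  · exact h2
  · exact h1.trans (by omega)
  · exact h1.trans (by omega)
  · show natDegree (1 : R[X]) ≤ _
    simp

theorem deg_a2_inv (R : Type*) [CommRing R] (i : ℕ) :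
    Deg (((a2 R i)⁻¹ : SpecialLinearGroup (Fin 2) R[X]) : Matrix (Fin 2) (Fin 2) R[X])
      (2 * (i + 1)) := by
  have h := deg_a2 R i
  rw [Matrix.SpecialLinearGroup.SL2_inv_expl]
  intro r s
  fin_cases r <;> fin_cases s
  · exact h 1 1
  · show natDegree (-(a2 R i) 0 1) ≤ _
    rw [natDegree_neg]; exact h 0 1
  · show natDegree (-(a2 R i) 1 0) ≤ _
    rw [natDegree_neg]; exact h 1 0
  · exact h 0 0

theorem deg_lift (g : FreeGroup ℕ) : ∃ S : ℕ, ∀ (R : Type u) [CommRing R],
    Deg ((FreeGroup.lift (a2 R) g : SpecialLinearGroup (Fin 2) R[X]) : Matrix (Fin 2) (Fin 2) R[X]) S := by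
  induction g using FreeGroup.induction_on with
  | C1 => exact ⟨0, fun R _ => by rw [map_one]; exact Deg.one⟩
  | of i => exact ⟨2 * (i + 1), fun R _ => by
      show Deg ((FreeGroup.lift (a2 R) (FreeGroup.of i) : SpecialLinearGroup (Fin 2) R[X]) :
        Matrix (Fin 2) (Fin 2) R[X]) _
      rw [FreeGroup.lift_apply_of]; exact deg_a2 R i⟩
  | inv_of i _ => exact ⟨2 * (i + 1), fun R _ => by
      show Deg ((FreeGroup.lift (a2 R) (FreeGroup.of i)⁻¹ : SpecialLinearGroup (Fin 2) R[X]) :
        Matrix (Fin 2) (Fin 2) R[X]) _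
      rw [map_inv, FreeGroup.lift_apply_of]; exact deg_a2_inv R i⟩
  | mul x y hx hy =>
    obtain ⟨S1, h1⟩ := hx
    obtain ⟨S2, h2⟩ := hy
    exact ⟨S1 + S2, fun R _ => by
      rw [map_mul, Matrix.SpecialLinearGroup.coe_mul]; exact (h1 R).mul (h2 R)⟩

theorem lift_comp {G H : Type*} [Group G] [Group H] (φ : G →* H) (a : ℕ → G) (g : FreeGroup ℕ) :
    FreeGroup.lift (fun i => φ (a i)) g = φ (FreeGroup.lift a g) := by
  have : FreeGroup.lift (fun i => φ (a i)) = φ.comp (FreeGroup.lift a) := by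
    ext i
    simp
  rw [this]
  rfl

theorem psl2_law (w : FreeGroup ℕ) (hw : w ≠ 1) :
    ∃ N : ℕ, ∀ (F : Type u) [Field F] [Fintype F], N ≤ Fintype.card F →
      ∃ f : ℕ → Matrix.ProjectiveSpecialLinearGroup (Fin 2) F, FreeGroup.lift f w ≠ 1 := by
  obtain ⟨S, hS⟩ := deg_lift.{u} w
  refine ⟨S + 1, ?_⟩
  intro F _ _ hN
  set M := FreeGroup.lift (a2 F) w with hM
  have hdeg := hS F
  rw [← hM] at hdeg
  -- a nonzero polynomial witnessing non-scalarity
  have key : ∃ y : F, eval y (M 0 1) ≠ 0 ∨ eval y (M 1 0) ≠ 0 ∨ eval y (M 0 0) ≠ eval y (M 1 1) := by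
    by_cases h01 : M 0 1 = 0
    · by_cases h10 : M 1 0 = 0
      · by_cases hd : M 0 0 = M 1 1
        · exfalso
          have hdet := M.det_coe
          rw [Matrix.det_fin_two, h01, h10, ← hd, mul_zero, sub_zero] at hdet
          have hMM : M * M = 1 := by
            apply Subtype.ext
            rw [Matrix.SpecialLinearGroup.coe_mul]
            ext i j
            fin_cases i <;> fin_cases j
            · simp [Matrix.mul_apply, Fin.sum_univ_two, h01, h10, hdet]
            · simp [Matrix.mul_apply, Fin.sum_univ_two, h01, h10, hdet]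
            · simp [Matrix.mul_apply, Fin.sum_univ_two, h01, h10, hdet]
            · simp [Matrix.mul_apply, Fin.sum_univ_two, h01, h10, ← hd, hdet]
          have h2 : FreeGroup.lift (a2 F) (w * w) = FreeGroup.lift (a2 F) 1 := by
            rw [map_mul, map_one]; exact hMM
          have h3 := a2_injective h2
          rw [← sq] at h3
          exact hw ((pow_eq_one_iff_left (two_ne_zero)).mp h3)
        · have hne : M 0 0 - M 1 1 ≠ 0 := sub_ne_zero.mpr hd
          obtain ⟨y, hy⟩ := exists_eval_ne hne (by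
            have := (natDegree_sub_le (M 0 0) (M 1 1)).trans (max_le (hdeg 0 0) (hdeg 1 1))
            omega)
          refine ⟨y, Or.inr (Or.inr ?_)⟩
          rw [eval_sub] at hy
          exact sub_ne_zero.mp hy
      · obtain ⟨y, hy⟩ := exists_eval_ne h10 (by have := hdeg 1 0; omega)
        exact ⟨y, Or.inr (Or.inl hy)⟩
    · obtain ⟨y, hy⟩ := exists_eval_ne h01 (by have := hdeg 0 1; omega)
      exact ⟨y, Or.inl hy⟩
  obtain ⟨y, hy⟩ := key
  let φ : SpecialLinearGroup (Fin 2) F[X] →* Matrix.ProjectiveSpecialLinearGroup (Fin 2) F :=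
    (QuotientGroup.mk' _).comp (Matrix.SpecialLinearGroup.map (evalRingHom y))
  refine ⟨fun i => φ (a2 F i), ?_⟩
  rw [lift_comp, ← hM]
  intro h1
  have h2 : Matrix.SpecialLinearGroup.map (evalRingHom y) M ∈
      Subgroup.center (SpecialLinearGroup (Fin 2) F) := (QuotientGroup.eq_one_iff _).mp h1
  obtain ⟨r, -, hr⟩ := Matrix.SpecialLinearGroup.mem_center_iff.mp h2
  have e : ∀ i j, (Matrix.scalar (Fin 2) r) i j = eval y (M i j) := by
    intro i j
    rw [hr]
    rfl
  rcases hy with hy | hy | hy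
  · apply hy; rw [← e]; simp
  · apply hy; rw [← e]; simp
  · apply hy; rw [← e, ← e]; simp

end Cfsg.Agent.Lib.Helper19.Law
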