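import Cfsg.Agent.Lib.Helper19.LawB

/-!
# Laws, part C: alternating groups
-/

set_option autoImplicit false
set_option linter.style.haveILetI false
set_option linter.unusedSimpArgs false
set_option linter.unusedSectionVars false
open scoped Pointwise
open Polynomial Matrix

namespace Cfsg.Agent.Lib.Helper19.Law

theorem embed_alt (H : Type) [Group H] [Finite H] (n : ℕ) (hn : 2 * Nat.card H ≤ n) :
    ∃ ψ : H →* alternatingGroup (Fin n), Function.Injective ψ := by
  classical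
  haveI : Fintype H := Fintype.ofFinite H
  let ψ0 : H →* Equiv.Perm (H ⊕ H) :=
    (Equiv.Perm.sumCongrHom H H).comp ((MulAction.toPermHom H H).prod (MulAction.toPermHom H H))
  have h0 : Function.Injective ψ0 := by
    intro a b hab
    have := congrArg (fun σ : Equiv.Perm (H ⊕ H) => σ (Sum.inl 1)) hab
    simpa [ψ0] using this
  obtain ⟨ι⟩ : Nonempty (H ⊕ H ↪ Fin n) := by
    apply Function.Embedding.nonempty_of_card_le
    rw [Fintype.card_sum, Fintype.card_fin, ← Nat.card_eq_fintype_card]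
    omega
  let ψ1 : H →* Equiv.Perm (Fin n) := (Equiv.Perm.viaEmbeddingHom ι).comp ψ0
  have h1 : Function.Injective ψ1 := (Equiv.Perm.viaEmbeddingHom_injective ι).comp h0
  have hs : ∀ g, ψ1 g ∈ alternatingGroup (Fin n) := by
    intro g
    rw [Equiv.Perm.mem_alternatingGroup]
    show Equiv.Perm.sign (Equiv.Perm.viaEmbedding (ψ0 g) ι) = 1
    unfold Equiv.Perm.viaEmbedding
    have : Equiv.Perm.sign (ψ0 g) = 1 := by
      show Equiv.Perm.sign (Equiv.Perm.sumCongr (MulAction.toPermHom H H g) (MulAction.toPermHom H H g)) = 1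
      rw [Equiv.Perm.sign_sumCongr, Int.units_mul_self]
    rw [← this]
    convert Equiv.Perm.sign_extendDomain (ψ0 g) (Equiv.ofInjective ι.1 ι.2)
  refine ⟨ψ1.codRestrict _ hs, ?_⟩
  intro a b hab
  exact h1 (congrArg Subtype.val hab)

theorem alt_law (w : FreeGroup ℕ) (hw : w ≠ 1) :
    ∃ N : ℕ, ∀ n : ℕ, N ≤ n → ∃ f : ℕ → alternatingGroup (Fin n), FreeGroup.lift f w ≠ 1 := by
  obtain ⟨N0, hN0⟩ := psl2_law.{0} w hw
  obtain ⟨p, hp, hpp⟩ := Nat.exists_infinite_primes N0
  haveI : Fact p.Prime := ⟨hpp⟩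
  obtain ⟨f0, hf0⟩ := hN0 (ZMod p) (by rw [ZMod.card]; exact hp)
  refine ⟨2 * Nat.card (Matrix.ProjectiveSpecialLinearGroup (Fin 2) (ZMod p)), ?_⟩
  intro n hn
  obtain ⟨ψ, hψ⟩ := embed_alt _ n hn
  refine ⟨fun i => ψ (f0 i), ?_⟩
  rw [lift_comp]
  intro h
  exact hf0 (hψ (h.trans (map_one ψ).symm))

end Cfsg.Agent.Lib.Helper19.Law
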