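import Cfsg.Agent.Lib.Helper19.LawB

/-!
# Laws, part D: generic `4 × 4` matrices for the Suzuki groups
-/

set_option autoImplicit false
set_option linter.style.haveILetI false
set_option linter.unusedSimpArgs false
set_option linter.unusedSectionVars false
open scoped Pointwise
open Polynomial Matrix

namespace Cfsg.Agent.Lib.Helper19.Law

variable {S : Type*} [CommRing S]

/-- upper unipotent -/
def Um (b b' : S) : Matrix (Fin 4) (Fin 4) S := !![1, 0, b, b'; 0, 1, 0, b; 0, 0, 1, 0; 0, 0, 0, 1]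

/-- lower unipotent -/
def Lm (b b' : S) : Matrix (Fin 4) (Fin 4) S := !![1, 0, 0, 0; 0, 1, 0, 0; b, 0, 1, 0; b', b, 0, 1]

theorem det_Um (b b' : S) : (Um b b').det = 1 := by
  simp [Um, Matrix.det_succ_row_zero, Fin.sum_univ_succ, Fin.succAbove]

theorem det_Lm (b b' : S) : (Lm b b').det = 1 := by
  simp [Lm, Matrix.det_succ_row_zero, Fin.sum_univ_succ, Fin.succAbove]

/-- upper unipotent element -/
def uG (b b' : S) : SpecialLinearGroup (Fin 4) S := ⟨Um b b', det_Um b b'⟩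

/-- lower unipotent element -/
def lG (b b' : S) : SpecialLinearGroup (Fin 4) S := ⟨Lm b b', det_Lm b b'⟩

theorem uG_mul_self [CharP S 2] (b b' : S) : uG b b' * uG b b' = 1 := by
  apply Subtype.ext
  show Um b b' * Um b b' = 1
  ext i j
  fin_cases i <;> fin_cases j <;>
    simp [Um, Matrix.mul_apply, Fin.sum_univ_four, CharTwo.add_self_eq_zero]

theorem lG_mul_self [CharP S 2] (b b' : S) : lG b b' * lG b b' = 1 := by
  apply Subtype.ext
  show Lm b b' * Lm b b' = 1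
  ext i j
  fin_cases i <;> fin_cases j <;>
    simp [Lm, Matrix.mul_apply, Fin.sum_univ_four, CharTwo.add_self_eq_zero]

/-- the generic generators -/
def a4g (z x : S) (i : ℕ) : SpecialLinearGroup (Fin 4) S :=
  uG (z ^ (i + 1)) (x ^ (i + 1)) * lG (z ^ (i + 1)) (x ^ (i + 1))

theorem a4g_inv [CharP S 2] (z x : S) (i : ℕ) :
    (a4g z x i)⁻¹ = lG (z ^ (i + 1)) (x ^ (i + 1)) * uG (z ^ (i + 1)) (x ^ (i + 1)) := by
  apply inv_eq_of_mul_eq_one_right
  rw [a4g, mul_assoc, ← mul_assoc (lG _ _), lG_mul_self, one_mul, uG_mul_self]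

theorem map_uG {S' : Type*} [CommRing S'] (φ : S →+* S') (b b' : S) :
    Matrix.SpecialLinearGroup.map φ (uG b b') = uG (φ b) (φ b') := by
  apply Subtype.ext
  ext i j
  show φ (Um b b' i j) = Um (φ b) (φ b') i j
  fin_cases i <;> fin_cases j <;> simp [Um]

theorem map_lG {S' : Type*} [CommRing S'] (φ : S →+* S') (b b' : S) :
    Matrix.SpecialLinearGroup.map φ (lG b b') = lG (φ b) (φ b') := by
  apply Subtype.ext
  ext i j
  show φ (Lm b b' i j) = Lm (φ b) (φ b') i j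
  fin_cases i <;> fin_cases j <;> simp [Lm]

theorem map_a4g {S' : Type*} [CommRing S'] (φ : S →+* S') (z x : S) (i : ℕ) :
    Matrix.SpecialLinearGroup.map φ (a4g z x i) = a4g (φ z) (φ x) i := by
  rw [a4g, map_mul, map_uG, map_lG, map_pow, map_pow, a4g]

theorem map_lift_a4g {S' : Type*} [CommRing S'] (φ : S →+* S') (z x : S) (g : FreeGroup ℕ) :
    Matrix.SpecialLinearGroup.map φ (FreeGroup.lift (a4g z x) g) =
      FreeGroup.lift (a4g (φ z) (φ x)) g := by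
  rw [← lift_comp]
  congr 2
  funext i
  exact map_a4g φ z x i

/-- the outer block of the `4 × 4` matrix is the `2 × 2` matrix -/
def Rel (M4 : Matrix (Fin 4) (Fin 4) S) (M2 : Matrix (Fin 2) (Fin 2) S) : Prop :=
  M4 0 0 = M2 0 0 ∧ M4 0 3 = M2 0 1 ∧ M4 3 0 = M2 1 0 ∧ M4 3 3 = M2 1 1 ∧
    M4 0 1 = 0 ∧ M4 0 2 = 0 ∧ M4 3 1 = 0 ∧ M4 3 2 = 0

theorem Rel.one : Rel (1 : Matrix (Fin 4) (Fin 4) S) 1 := by
  refine ⟨?_, ?_, ?_, ?_, ?_, ?_, ?_, ?_⟩ <;> simp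

theorem Rel.mul {M4 N4 : Matrix (Fin 4) (Fin 4) S} {M2 N2 : Matrix (Fin 2) (Fin 2) S}
    (hM : Rel M4 M2) (hN : Rel N4 N2) : Rel (M4 * N4) (M2 * N2) := by
  obtain ⟨m1, m2, m3, m4, m5, m6, m7, m8⟩ := hM
  obtain ⟨n1, n2, n3, n4, n5, n6, n7, n8⟩ := hN
  refine ⟨?_, ?_, ?_, ?_, ?_, ?_, ?_, ?_⟩ <;>
    simp [Matrix.mul_apply, Fin.sum_univ_four, Fin.sum_univ_two, m1, m2, m3, m4, m5, m6, m7, m8,
      n1, n2, n3, n4, n5, n6, n7, n8]

theorem rel_U (c : S) : Rel (Um 0 c) !![1, c; 0, 1] := by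
  refine ⟨?_, ?_, ?_, ?_, ?_, ?_, ?_, ?_⟩ <;> simp [Um]

theorem rel_L (c : S) : Rel (Lm 0 c) !![1, 0; c, 1] := by
  refine ⟨?_, ?_, ?_, ?_, ?_, ?_, ?_, ?_⟩ <;> simp [Lm]

theorem rel_gen (x : S) (i : ℕ) :
    Rel ((a4g 0 x i : SpecialLinearGroup (Fin 4) S) : Matrix (Fin 4) (Fin 4) S)
      ((a2g (x ^ (i + 1)) (x ^ (i + 1)) : SpecialLinearGroup (Fin 2) S) : Matrix (Fin 2) (Fin 2) S) := by
  have h := (rel_U (x ^ (i + 1))).mul (rel_L (x ^ (i + 1)))
  have e : (!![1, x ^ (i + 1); 0, 1] * !![1, 0; x ^ (i + 1), 1] : Matrix (Fin 2) (Fin 2) S) =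
      a2m (x ^ (i + 1)) (x ^ (i + 1)) := by
    ext r s
    fin_cases r <;> fin_cases s <;> simp [a2m, Matrix.mul_apply, Fin.sum_univ_two]
  rw [e] at h
  have e2 : ((a4g 0 x i : SpecialLinearGroup (Fin 4) S) : Matrix (Fin 4) (Fin 4) S) =
      Um 0 (x ^ (i + 1)) * Lm 0 (x ^ (i + 1)) := by
    show Um (0 ^ (i + 1)) (x ^ (i + 1)) * Lm (0 ^ (i + 1)) (x ^ (i + 1)) = _
    rw [zero_pow (Nat.succ_ne_zero i)]
  rw [e2]
  exact h

theorem rel_gen_inv [CharP S 2] (x : S) (i : ℕ) :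
    Rel (((a4g 0 x i)⁻¹ : SpecialLinearGroup (Fin 4) S) : Matrix (Fin 4) (Fin 4) S)
      (((a2g (x ^ (i + 1)) (x ^ (i + 1)))⁻¹ : SpecialLinearGroup (Fin 2) S) :
        Matrix (Fin 2) (Fin 2) S) := by
  have h := (rel_L (x ^ (i + 1))).mul (rel_U (x ^ (i + 1)))
  have e : (!![1, 0; x ^ (i + 1), 1] * !![1, x ^ (i + 1); 0, 1] : Matrix (Fin 2) (Fin 2) S) =
      (((a2g (x ^ (i + 1)) (x ^ (i + 1)))⁻¹ : SpecialLinearGroup (Fin 2) S) :
        Matrix (Fin 2) (Fin 2) S) := by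
    rw [Matrix.SpecialLinearGroup.SL2_inv_expl]
    ext r s
    fin_cases r <;> fin_cases s <;>
      simp [a2g, a2m, Matrix.mul_apply, Fin.sum_univ_two, CharTwo.neg_eq, add_comm]
  rw [e] at h
  have e2 : (((a4g 0 x i)⁻¹ : SpecialLinearGroup (Fin 4) S) : Matrix (Fin 4) (Fin 4) S) =
      Lm 0 (x ^ (i + 1)) * Um 0 (x ^ (i + 1)) := by
    rw [a4g_inv]
    show Lm (0 ^ (i + 1)) (x ^ (i + 1)) * Um (0 ^ (i + 1)) (x ^ (i + 1)) = _
    rw [zero_pow (Nat.succ_ne_zero i)]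
  rw [e2]
  exact h

theorem rel_lift (g : FreeGroup ℕ) :
    Rel ((FreeGroup.lift (a4g (0 : (ZMod 2)[X]) X) g : SpecialLinearGroup (Fin 4) (ZMod 2)[X]) :
        Matrix (Fin 4) (Fin 4) (ZMod 2)[X])
      ((FreeGroup.lift (a2 (ZMod 2)) g : SpecialLinearGroup (Fin 2) (ZMod 2)[X]) :
        Matrix (Fin 2) (Fin 2) (ZMod 2)[X]) := by
  induction g using FreeGroup.induction_on with
  | C1 => rw [map_one, map_one]; exact Rel.one
  | of i => rw [FreeGroup.lift_apply_of, FreeGroup.lift_apply_of]; exact rel_gen X i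
  | inv_of i _ =>
    rw [map_inv, map_inv, FreeGroup.lift_apply_of, FreeGroup.lift_apply_of]; exact rel_gen_inv X i
  | mul x y hx hy =>
    rw [map_mul, map_mul, Matrix.SpecialLinearGroup.coe_mul, Matrix.SpecialLinearGroup.coe_mul]
    exact hx.mul hy

theorem lift_a4g_zero_ne {w : FreeGroup ℕ} (hw : w ≠ 1) :
    FreeGroup.lift (a4g (0 : (ZMod 2)[X]) X) w ≠ 1 := by
  intro h
  have hr := rel_lift w
  rw [h] at hr
  obtain ⟨m1, m2, m3, m4, -⟩ := hr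
  apply hw
  apply a2_injective (R := ZMod 2)
  rw [map_one]
  apply Subtype.ext
  apply Matrix.ext
  intro i j
  fin_cases i <;> fin_cases j
  · simpa using m1.symm
  · simpa using m2.symm
  · simpa using m3.symm
  · simpa using m4.symm

end Cfsg.Agent.Lib.Helper19.Law
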