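import Cfsg.Agent.Lib.Helper19.LawD
import Cfsg.Agent.Lib.Helper19.SuzL

/-!
# Laws, part E: the Suzuki groups
-/

set_option autoImplicit false
set_option linter.style.haveILetI false
set_option linter.unusedSimpArgs false
set_option linter.unusedSectionVars false
open scoped Pointwise
open Polynomial Matrix

namespace Cfsg.Agent.Lib.Helper19.Law

theorem deg_Um {R : Type*} [CommRing R] {b b' : R[X]} {k : ℕ} (hb : natDegree b ≤ k)
    (hb' : natDegree b' ≤ k) : Deg (Um b b') k := by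
  intro i j
  fin_cases i <;> fin_cases j <;> simp [Um, hb, hb']

theorem deg_Lm {R : Type*} [CommRing R] {b b' : R[X]} {k : ℕ} (hb : natDegree b ≤ k)
    (hb' : natDegree b' ≤ k) : Deg (Lm b b') k := by
  intro i j
  fin_cases i <;> fin_cases j <;> simp [Lm, hb, hb']

theorem deg_lift4 (g : FreeGroup ℕ) : ∃ S : ℕ, ∀ (h : ℕ) (z : (ZMod 2)[X]), 1 ≤ h → natDegree z ≤ h →
    Deg ((FreeGroup.lift (a4g z X) g : SpecialLinearGroup (Fin 4) (ZMod 2)[X]) :
      Matrix (Fin 4) (Fin 4) (ZMod 2)[X]) (S * h) := by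
  have hz : ∀ (i h : ℕ) (z : (ZMod 2)[X]), natDegree z ≤ h → natDegree (z ^ (i + 1)) ≤ (i + 1) * h :=
    fun i h z hzh => natDegree_pow_le_of_le (i + 1) hzh
  have hx : ∀ (i h : ℕ), 1 ≤ h → natDegree ((X : (ZMod 2)[X]) ^ (i + 1)) ≤ (i + 1) * h :=
    fun i h hh => (natDegree_X_pow_le _).trans (Nat.le_mul_of_pos_right _ hh)
  induction g using FreeGroup.induction_on with
  | C1 => exact ⟨0, fun h z _ _ => by rw [map_one, zero_mul]; exact Deg.one⟩
  | of i =>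
    refine ⟨2 * (i + 1), fun h z hh hzh => ?_⟩
    rw [FreeGroup.lift_apply_of]
    have := (deg_Um (hz i h z hzh) (hx i h hh)).mul (deg_Lm (hz i h z hzh) (hx i h hh))
    exact this.mono (by ring_nf; rfl)
  | inv_of i _ =>
    refine ⟨2 * (i + 1), fun h z hh hzh => ?_⟩
    rw [map_inv, FreeGroup.lift_apply_of, a4g_inv]
    have := (deg_Lm (hz i h z hzh) (hx i h hh)).mul (deg_Um (hz i h z hzh) (hx i h hh))
    exact this.mono (by ring_nf; rfl)
  | mul x y hx' hy' =>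
    obtain ⟨S1, h1⟩ := hx'
    obtain ⟨S2, h2⟩ := hy'
    refine ⟨S1 + S2, fun h z hh hzh => ?_⟩
    rw [map_mul, Matrix.SpecialLinearGroup.coe_mul, add_mul]
    exact (h1 h z hh hzh).mul (h2 h z hh hzh)

theorem cong_lift (h : ℕ) (g : FreeGroup ℕ) (i j : Fin 4) :
    (X : (ZMod 2)[X]) ^ h ∣ (FreeGroup.lift (a4g ((X : (ZMod 2)[X]) ^ h) X) g) i j -
      (FreeGroup.lift (a4g (0 : (ZMod 2)[X]) X) g) i j := by
  let π := Ideal.Quotient.mk (Ideal.span {(X : (ZMod 2)[X]) ^ h})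
  have h0 : π (X ^ h) = π 0 := by
    rw [map_zero]
    exact Ideal.Quotient.eq_zero_iff_mem.mpr (Ideal.mem_span_singleton_self _)
  have h1 : Matrix.SpecialLinearGroup.map π (FreeGroup.lift (a4g ((X : (ZMod 2)[X]) ^ h) X) g) =
      Matrix.SpecialLinearGroup.map π (FreeGroup.lift (a4g (0 : (ZMod 2)[X]) X) g) := by
    rw [map_lift_a4g, map_lift_a4g, h0]
  have h2 : π ((FreeGroup.lift (a4g ((X : (ZMod 2)[X]) ^ h) X) g) i j) =
      π ((FreeGroup.lift (a4g (0 : (ZMod 2)[X]) X) g) i j) :=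
    congrArg (fun M : SpecialLinearGroup (Fin 4) _ => M i j) h1
  rw [Ideal.Quotient.eq, Ideal.mem_span_singleton] at h2
  exact h2

open Cfsg.Agent.Lib.Helper19.Suz in
theorem a4g_mem {F : Type*} [Field F] [Fintype F] [CharP F 2] (m : ℕ) [Hyp F m] (y : F) (i : ℕ) :
    a4g (y ^ 2 ^ m) y i ∈ Cfsg.Sz F m := by
  have hs : sg F m ((y ^ 2 ^ m) ^ (i + 1)) = y ^ (i + 1) := by
    rw [sg_apply, ← pow_mul, ← pow_mul]
    have : 2 ^ m * ((i + 1) * 2 ^ (m + 1)) = Fintype.card F * (i + 1) := by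
      rw [Hyp.hF (F := F) (m := m)]; ring
    rw [this, pow_mul, FiniteField.pow_card]
  have hu : uG ((y ^ 2 ^ m) ^ (i + 1)) (y ^ (i + 1)) = T (sg F m) 0 ((y ^ 2 ^ m) ^ (i + 1)) := by
    apply Subtype.ext
    show Um _ _ = Tm _ _ _
    rw [← hs]
    ext r s
    fin_cases r <;> fin_cases s <;> simp [Um, Tm]
  have hl : lG ((y ^ 2 ^ m) ^ (i + 1)) (y ^ (i + 1)) =
      W * T (sg F m) 0 ((y ^ 2 ^ m) ^ (i + 1)) * W := by
    rw [← hu]
    apply Subtype.ext
    show Lm _ _ = Wm * Um _ _ * Wm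
    ext r s
    fin_cases r <;> fin_cases s <;> simp [Um, Lm, Wm, Matrix.mul_apply, Fin.sum_univ_four]
  rw [a4g, hl, hu]
  exact mul_mem (T_mem _ _) (mul_mem (mul_mem W_mem (T_mem _ _)) W_mem)

open Cfsg.Agent.Lib.Helper19.Suz in
theorem sz_law (w : FreeGroup ℕ) (hw : w ≠ 1) :
    ∃ N : ℕ, ∀ (F : Type*) [Field F] [Fintype F] (m : ℕ), 1 ≤ m → N ≤ m →
      Fintype.card F = 2 ^ (2 * m + 1) →
      ∃ f : ℕ → ↥(Cfsg.Lie.Sz F (2 ^ (m + 1))), FreeGroup.lift f w ≠ 1 := by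
  obtain ⟨S, hS⟩ := deg_lift4 w
  refine ⟨S + 1, ?_⟩
  intro F _ _ m hm hN hF
  haveI : Hyp F m := ⟨hm, hF⟩
  haveI : CharP F 2 := Hyp.charP (F := F) (m := m)
  have hh : S < 2 ^ m := lt_of_lt_of_le (by omega) (Nat.lt_two_pow_self (n := m)).le
  have hh1 : 1 ≤ 2 ^ m := Nat.one_le_two_pow
  set M0 := FreeGroup.lift (a4g (0 : (ZMod 2)[X]) X) w with hM0
  set Mh := FreeGroup.lift (a4g ((X : (ZMod 2)[X]) ^ 2 ^ m) X) w with hMh
  have hne : M0 ≠ 1 := lift_a4g_zero_ne hw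
  obtain ⟨i, j, hij⟩ : ∃ i j, M0 i j ≠ (1 : Matrix (Fin 4) (Fin 4) (ZMod 2)[X]) i j := by
    by_contra hcon
    push Not at hcon
    apply hne
    apply Subtype.ext
    apply Matrix.ext
    exact hcon
  have hd0 : natDegree (M0 i j - (1 : Matrix (Fin 4) (Fin 4) (ZMod 2)[X]) i j) ≤ S := by
    have h1 := hS 1 0 le_rfl (by simp) i j
    rw [mul_one] at h1
    exact (natDegree_sub_le _ _).trans (max_le h1 ((Deg.one i j).trans (Nat.zero_le _)))
  have hdh : natDegree (Mh i j - (1 : Matrix (Fin 4) (Fin 4) (ZMod 2)[X]) i j) ≤ S * 2 ^ m := by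
    have h1 := hS (2 ^ m) (X ^ 2 ^ m) hh1 (natDegree_X_pow_le _) i j
    exact (natDegree_sub_le _ _).trans (max_le h1 ((Deg.one i j).trans (Nat.zero_le _)))
  have hne_h : Mh i j - (1 : Matrix (Fin 4) (Fin 4) (ZMod 2)[X]) i j ≠ 0 := by
    intro h0
    have hc := cong_lift (2 ^ m) w i j
    rw [← hM0, ← hMh] at hc
    have e : Mh i j - M0 i j = -(M0 i j - (1 : Matrix (Fin 4) (Fin 4) (ZMod 2)[X]) i j) := by
      rw [sub_eq_zero.mp h0]; ring
    rw [e, dvd_neg] at hc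
    have := natDegree_le_of_dvd hc (sub_ne_zero.mpr hij)
    rw [natDegree_X_pow] at this
    omega
  let c2 : ZMod 2 →+* F := ZMod.castHom (dvd_refl 2) F
  obtain ⟨y, hy⟩ := exists_eval_ne (F := F)
    (e := (Mh i j - (1 : Matrix (Fin 4) (Fin 4) (ZMod 2)[X]) i j).map c2)
    ((Polynomial.map_ne_zero_iff c2.injective).mpr hne_h) (by
      apply lt_of_le_of_lt natDegree_map_le
      apply lt_of_le_of_lt hdh
      rw [hF]
      calc S * 2 ^ m < 2 ^ m * 2 ^ m := Nat.mul_lt_mul_of_pos_right hh (by positivity)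
        _ ≤ 2 ^ (2 * m + 1) := by
          rw [← pow_add]; exact Nat.pow_le_pow_right (by norm_num) (by omega))
  rw [eval_map] at hy
  let φ : (ZMod 2)[X] →+* F := eval₂RingHom c2 y
  have hφX : φ X = y := eval₂_X _ _
  have hy' : φ (Mh i j) ≠ (1 : Matrix (Fin 4) (Fin 4) F) i j := by
    intro h0
    apply hy
    show φ (Mh i j - (1 : Matrix (Fin 4) (Fin 4) (ZMod 2)[X]) i j) = 0
    rw [map_sub, h0, Matrix.one_apply, Matrix.one_apply]
    split_ifs <;> simp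
  -- the substitution
  let f0 : ℕ → Cfsg.Sz F m := fun k => ⟨a4g (y ^ 2 ^ m) y k, a4g_mem m y k⟩
  have h1 : ((FreeGroup.lift f0 w : Cfsg.Sz F m) : SpecialLinearGroup (Fin 4) F) =
      Matrix.SpecialLinearGroup.map φ Mh := by
    rw [hMh, map_lift_a4g, map_pow, hφX]
    exact (lift_comp (Cfsg.Sz F m).subtype f0 w).symm
  have h2 : FreeGroup.lift f0 w ≠ 1 := by
    intro h0
    rw [h0] at h1
    apply hy'
    have := congrArg (fun M : SpecialLinearGroup (Fin 4) F => M i j) h1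
    exact this.symm
  refine ⟨fun k => lieEquiv (F := F) m (f0 k), ?_⟩
  have h3 := lift_comp (lieEquiv (F := F) m).toMonoidHom f0 w
  intro h0
  apply h2
  apply (lieEquiv (F := F) m).injective
  rw [map_one]
  exact h3.symm.trans h0

end Cfsg.Agent.Lib.Helper19.Law
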