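import Cfsg.Agent.Lib.Helper19.LawC

/-!
# Laws, part F: the `Bad` predicate, embeddings into special linear groups
-/

set_option autoImplicit false
set_option linter.style.haveILetI false
set_option linter.unusedSimpArgs false
set_option linter.unusedSectionVars false
open scoped Pointwise
open Polynomial Matrix

namespace Cfsg.Agent.Lib.Helper19.Law

/-- some value of the word is not central -/
def Bad (w : FreeGroup ℕ) (H : Type*) [Group H] : Prop :=
  ∃ f : ℕ → H, FreeGroup.lift f w ∉ Subgroup.center H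

theorem Bad.of_injective {H Γ : Type*} [Group H] [Group Γ] {w : FreeGroup ℕ} (φ : H →* Γ)
    (hφ : Function.Injective φ) (h : Bad w H) : Bad w Γ := by
  obtain ⟨f, hf⟩ := h
  refine ⟨fun i => φ (f i), ?_⟩
  rw [lift_comp]
  intro hc
  apply hf
  rw [Subgroup.mem_center_iff] at hc ⊢
  intro g
  apply hφ
  rw [map_mul, map_mul]
  exact hc (φ g)

theorem Bad.not_law {Γ : Type*} [Group Γ] {w : FreeGroup ℕ} (h : Bad w Γ) {G : Type*} [Group G]
    (e : G ≃* Γ ⧸ Subgroup.center Γ) : ¬ ∀ f : ℕ → G, FreeGroup.lift f w = 1 := by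
  obtain ⟨f, hf⟩ := h
  intro hl
  have h1 := hl (fun i => (e.symm.toMonoidHom.comp (QuotientGroup.mk' _)) (f i))
  rw [lift_comp] at h1
  have h2 : (QuotientGroup.mk' (Subgroup.center Γ)) (FreeGroup.lift f w) = 1 := by
    apply e.symm.injective
    rw [map_one]
    exact h1
  exact hf ((QuotientGroup.eq_one_iff _).1 h2)

theorem Bad.not_law' {Γ : Type*} [Group Γ] {w : FreeGroup ℕ} (h : Bad w Γ) {G : Type*} [Group G]
    (e : G ≃* Γ) : ¬ ∀ f : ℕ → G, FreeGroup.lift f w = 1 := by
  obtain ⟨f, hf⟩ := h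
  intro hl
  have h1 := hl (fun i => e.symm.toMonoidHom (f i))
  rw [lift_comp] at h1
  have h2 : FreeGroup.lift f w = 1 := by
    apply e.symm.injective
    rw [map_one]
    exact h1
  exact hf (h2 ▸ Subgroup.one_mem _)

theorem Bad.of_quot {Γ : Type*} [Group Γ] {w : FreeGroup ℕ}
    (h : ∃ f : ℕ → Γ ⧸ Subgroup.center Γ, FreeGroup.lift f w ≠ 1) : Bad w Γ := by
  obtain ⟨f, hf⟩ := h
  refine ⟨fun i => (f i).out, ?_⟩
  intro hc
  apply hf
  have h1 : f = fun i => (QuotientGroup.mk' (Subgroup.center Γ)) ((f i).out) := by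
    funext i
    simp
  rw [h1, lift_comp]
  exact (QuotientGroup.eq_one_iff _).2 hc

section Emb

variable {ι κ R : Type*} [Fintype ι] [Fintype κ] [DecidableEq ι] [DecidableEq κ] [CommRing R]

/-- `A ↦ 1 + E (A - 1) E'` -/
def embM (E : Matrix κ ι R) (E' : Matrix ι κ R) (h : E' * E = 1) :
    Matrix ι ι R →* Matrix κ κ R where
  toFun A := 1 + E * (A - 1) * E'
  map_one' := by simp
  map_mul' A B := by
    have h1 : (E * (A - 1) * E') * (E * (B - 1) * E') = E * ((A - 1) * (B - 1)) * E' := by
      calc (E * (A - 1) * E') * (E * (B - 1) * E') = E * (A - 1) * (E' * E) * (B - 1) * E' := by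
            simp only [Matrix.mul_assoc]
        _ = _ := by rw [h, Matrix.mul_one]; simp only [Matrix.mul_assoc]
    have h2 : A * B - 1 = (A - 1) + (B - 1) + (A - 1) * (B - 1) := by noncomm_ring
    rw [h2, Matrix.mul_add, Matrix.mul_add, Matrix.add_mul, Matrix.add_mul, ← h1]
    noncomm_ring

theorem embM_apply (E : Matrix κ ι R) (E' : Matrix ι κ R) (h : E' * E = 1) (A : Matrix ι ι R) :
    embM E E' h A = 1 + E * (A - 1) * E' := rfl

theorem det_embM (E : Matrix κ ι R) (E' : Matrix ι κ R) (h : E' * E = 1) (A : Matrix ι ι R) :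
    (embM E E' h A).det = A.det := by
  rw [embM_apply, Matrix.det_one_add_mul_comm, ← Matrix.mul_assoc, h, Matrix.one_mul]
  congr 1
  abel

theorem embM_key (E : Matrix κ ι R) (E' : Matrix ι κ R) (h : E' * E = 1) (A : Matrix ι ι R) :
    E' * embM E E' h A * E = A := by
  rw [embM_apply, Matrix.mul_add, Matrix.add_mul, Matrix.mul_one, h]
  have : E' * (E * (A - 1) * E') * E = (E' * E) * (A - 1) * (E' * E) := by
    simp only [Matrix.mul_assoc]
  rw [this, h, Matrix.one_mul, Matrix.mul_one]
  abel

theorem embM_injective (E : Matrix κ ι R) (E' : Matrix ι κ R) (h : E' * E = 1) :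
    Function.Injective (embM E E' h) := by
  intro A B hAB
  rw [← embM_key E E' h A, hAB, embM_key]

/-- the induced map on special linear groups -/
def embSL (E : Matrix κ ι R) (E' : Matrix ι κ R) (h : E' * E = 1) :
    Matrix.SpecialLinearGroup ι R →* Matrix.SpecialLinearGroup κ R where
  toFun A := ⟨embM E E' h A.1, by rw [det_embM]; exact A.2⟩
  map_one' := Subtype.ext (map_one _)
  map_mul' A B := Subtype.ext (map_mul _ _ _)

theorem embSL_injective (E : Matrix κ ι R) (E' : Matrix ι κ R) (h : E' * E = 1) :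
    Function.Injective (embSL E E' h) := by
  intro A B hAB
  exact Subtype.ext (embM_injective E E' h (congrArg Subtype.val hAB))

/-- the coordinate inclusion matrix -/
def Jm (R : Type*) [CommRing R] (j : ι → κ) : Matrix κ ι R :=
  Matrix.of fun a b => if a = j b then 1 else 0

theorem Jm_mul (j : ι → κ) (hj : Function.Injective j) : (Jm R j)ᵀ * Jm R j = 1 := by
  ext b b'
  simp [Matrix.mul_apply, Jm, Matrix.one_apply, hj.eq_iff, eq_comm]

theorem Jm_map {S : Type*} [CommRing S] (σ : R →+* S) (j : ι → κ) : (Jm R j).map σ = Jm S j := by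
  ext a b
  simp only [Jm, Matrix.map_apply, Matrix.of_apply]
  split_ifs <;> simp

end Emb

section Perm

variable {n : ℕ} {R : Type*} [CommRing R]

/-- permutation matrices as a homomorphism -/
def permM (n : ℕ) (R : Type*) [CommRing R] : Equiv.Perm (Fin n) →* Matrix (Fin n) (Fin n) R where
  toFun σ := (σ⁻¹).permMatrix R
  map_one' := by simp
  map_mul' σ τ := by rw [_root_.mul_inv_rev, Matrix.permMatrix_mul]

theorem permM_mulVec (σ : Equiv.Perm (Fin n)) (v : Fin n → R) :
    permM n R σ *ᵥ v = v ∘ (σ⁻¹ : Equiv.Perm (Fin n)) := Matrix.permMatrix_mulVec _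

theorem permM_injective [Nontrivial R] : Function.Injective (permM n R) := by
  intro σ τ h
  have h1 : ∀ i, (σ⁻¹ : Equiv.Perm (Fin n)) i = (τ⁻¹ : Equiv.Perm (Fin n)) i := by
    intro i
    have h2 := congrFun (congrArg (fun M => M *ᵥ (Pi.single ((σ⁻¹ : Equiv.Perm (Fin n)) i) (1 : R))) h) i
    simp only [permM_mulVec, Function.comp_apply, Pi.single_eq_same] at h2
    by_contra hne
    rw [Pi.single_eq_of_ne (Ne.symm hne)] at h2
    exact one_ne_zero h2
  exact inv_injective (Equiv.ext h1)

/-- even permutation matrices -/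
def altSL (n : ℕ) (R : Type*) [CommRing R] :
    alternatingGroup (Fin n) →* Matrix.SpecialLinearGroup (Fin n) R where
  toFun σ := ⟨permM n R σ.1, by
    show ((σ.1⁻¹ : Equiv.Perm (Fin n)).permMatrix R).det = 1
    rw [Matrix.det_permutation, Equiv.Perm.sign_inv, Equiv.Perm.mem_alternatingGroup.1 σ.2]
    simp⟩
  map_one' := Subtype.ext (map_one _)
  map_mul' A B := Subtype.ext (map_mul (permM n R) _ _)

theorem altSL_injective [Nontrivial R] : Function.Injective (altSL n R) := by
  intro σ τ h
  exact Subtype.ext (permM_injective (congrArg Subtype.val h))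

end Perm

end Cfsg.Agent.Lib.Helper19.Law
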