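import Cfsg.Agent.Lib.Helper19.LawF
import Cfsg.Agent.S0248
import Cfsg.Prelude.Def_Classical

/-!
# Laws, part G: embeddings of `SL_m` into symplectic and orthogonal groups
-/

set_option autoImplicit false
set_option linter.style.haveILetI false
set_option linter.unusedSimpArgs false
set_option linter.unusedSectionVars false
open scoped Pointwise
open Polynomial Matrix

namespace Cfsg.Agent.Lib.Helper19.Law

section Iso

variable {H : Type*} [Group H] {ι : Type} [Fintype ι] [DecidableEq ι] {F : Type*} [Field F]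

/-- a matrix representation preserving `Q` maps to the isometry group -/
def toIso (Q : (ι → F) → F) (μ : H →* Matrix ι ι F) (hQ : ∀ h v, Q (μ h *ᵥ v) = Q v) :
    H →* Cfsg.isometryGroup F Q :=
  (MonoidHom.toHomUnits μ).codRestrict _ (fun h u _ => hQ h u)

theorem toIso_injective (Q : (ι → F) → F) (μ : H →* Matrix ι ι F) (hQ : ∀ h v, Q (μ h *ᵥ v) = Q v)
    (hμ : Function.Injective μ) : Function.Injective (toIso Q μ hQ) := by
  intro a b hab
  apply hμ
  exact congrArg (fun x : Cfsg.isometryGroup F Q => ((x : Matrix.GeneralLinearGroup ι F) : Matrix ι ι F)) hab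

theorem map_mem_comm {G K : Type*} [Group G] [Group K] (f : G →* K) (hG : commutator G = ⊤) (g : G) :
    f g ∈ commutator K := by
  have h1 : f g ∈ (commutator G).map f := Subgroup.mem_map_of_mem f (by rw [hG]; trivial)
  rw [commutator_def, Subgroup.map_commutator] at h1
  exact Subgroup.commutator_mono le_top le_top h1

/-- for perfect `H` the image lies in `Ω` -/
def toOmega (Q : (ι → F) → F) (μ : H →* Matrix ι ι F) (hQ : ∀ h v, Q (μ h *ᵥ v) = Q v)
    (hH : commutator H = ⊤) : H →* Cfsg.Omega F Q :=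
  (toIso Q μ hQ).codRestrict _ (fun h => map_mem_comm _ hH h)

theorem toOmega_injective (Q : (ι → F) → F) (μ : H →* Matrix ι ι F)
    (hQ : ∀ h v, Q (μ h *ᵥ v) = Q v) (hH : commutator H = ⊤)
    (hμ : Function.Injective μ) : Function.Injective (toOmega Q μ hQ hH) := by
  intro a b hab
  exact toIso_injective Q μ hQ hμ (congrArg Subtype.val hab)

end Iso

section Blocks

variable {κ μ : Type*} [Fintype κ] [DecidableEq κ] [Fintype μ] [DecidableEq μ] {F : Type*} [Field F]

theorem fb_inl (A : Matrix κ κ F) (D : Matrix μ μ F) (v : κ ⊕ μ → F) :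
    (Matrix.fromBlocks A 0 0 D *ᵥ v) ∘ Sum.inl = A *ᵥ (v ∘ Sum.inl) := by
  conv_lhs => rw [← Sum.elim_comp_inl_inr v, Matrix.fromBlocks_mulVec]
  simp

theorem fb_inr (A : Matrix κ κ F) (D : Matrix μ μ F) (v : κ ⊕ μ → F) :
    (Matrix.fromBlocks A 0 0 D *ᵥ v) ∘ Sum.inr = D *ᵥ (v ∘ Sum.inr) := by
  conv_lhs => rw [← Sum.elim_comp_inl_inr v, Matrix.fromBlocks_mulVec]
  simp

end Blocks

variable {F : Type*} [Field F] {m : ℕ}

/-- `A ↦ diag(A, A⁻ᵀ)` -/
def plusM (m : ℕ) (F : Type*) [Field F] :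
    Matrix.SpecialLinearGroup (Fin m) F →* Matrix (Fin m ⊕ Fin m) (Fin m ⊕ Fin m) F where
  toFun A := Matrix.fromBlocks A.1 0 0 (A⁻¹).1ᵀ
  map_one' := by simp
  map_mul' A B := by
    simp [Matrix.fromBlocks_multiply, _root_.mul_inv_rev, Matrix.transpose_mul]

theorem plusM_apply (A : Matrix.SpecialLinearGroup (Fin m) F) :
    plusM m F A = Matrix.fromBlocks A.1 0 0 (A⁻¹).1ᵀ := rfl

theorem plusM_injective : Function.Injective (plusM m F) := by
  intro A B h
  rw [plusM_apply, plusM_apply, Matrix.fromBlocks_inj] at h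
  exact Subtype.ext h.1

theorem inv_mul_coe (A : Matrix.SpecialLinearGroup (Fin m) F) : (A⁻¹).1 * A.1 = 1 := by
  rw [← Matrix.SpecialLinearGroup.coe_mul, inv_mul_cancel]; rfl

theorem mul_inv_coe (A : Matrix.SpecialLinearGroup (Fin m) F) : A.1 * (A⁻¹).1 = 1 := by
  rw [← Matrix.SpecialLinearGroup.coe_mul, mul_inv_cancel]; rfl

theorem plus_inv (A : Matrix.SpecialLinearGroup (Fin m) F) (v : Fin m ⊕ Fin m → F) :
    Cfsg.quadFormPlus m F (plusM m F A *ᵥ v) = Cfsg.quadFormPlus m F v := by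
  show ((plusM m F A *ᵥ v) ∘ Sum.inl) ⬝ᵥ ((plusM m F A *ᵥ v) ∘ Sum.inr) = (v ∘ Sum.inl) ⬝ᵥ (v ∘ Sum.inr)
  rw [plusM_apply, fb_inl, fb_inr, Matrix.dotProduct_mulVec, Matrix.vecMul_transpose,
    Matrix.mulVec_mulVec, inv_mul_coe, Matrix.one_mulVec]

/-- into the symplectic group -/
def spHom (m : ℕ) (F : Type*) [Field F] :
    Matrix.SpecialLinearGroup (Fin m) F →* Matrix.symplecticGroup (Fin m) F :=
  (plusM m F).codRestrict _ (fun A => by
    rw [SymplecticGroup.mem_iff, plusM_apply, Matrix.J, Matrix.fromBlocks_transpose,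
      Matrix.fromBlocks_multiply, Matrix.fromBlocks_multiply]
    have h1 := mul_inv_coe A
    simp only [Matrix.zero_mul, Matrix.mul_zero, add_zero, zero_add, Matrix.mul_one, Matrix.mul_neg,
      Matrix.transpose_transpose, Matrix.neg_mul, h1, ← Matrix.transpose_mul, Matrix.transpose_one,
      Matrix.transpose_zero, neg_zero])

theorem spHom_injective : Function.Injective (spHom m F) := by
  intro a b hab
  exact plusM_injective (congrArg Subtype.val hab)

/-- odd-dimensional version -/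
def oddM (m : ℕ) (F : Type*) [Field F] :
    Matrix.SpecialLinearGroup (Fin m) F →*
      Matrix (Unit ⊕ (Fin m ⊕ Fin m)) (Unit ⊕ (Fin m ⊕ Fin m)) F where
  toFun A := Matrix.fromBlocks 1 0 0 (plusM m F A)
  map_one' := by simp
  map_mul' A B := by
    simp [Matrix.fromBlocks_multiply]

theorem oddM_injective : Function.Injective (oddM m F) := by
  intro A B h
  have h1 : Matrix.fromBlocks (1 : Matrix Unit Unit F) 0 0 (plusM m F A) =
    Matrix.fromBlocks 1 0 0 (plusM m F B) := h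
  rw [Matrix.fromBlocks_inj] at h1
  exact plusM_injective h1.2.2.2

theorem odd_inv (A : Matrix.SpecialLinearGroup (Fin m) F) (v : Unit ⊕ (Fin m ⊕ Fin m) → F) :
    Cfsg.quadFormOdd m F (oddM m F A *ᵥ v) = Cfsg.quadFormOdd m F v := by
  show (((oddM m F A *ᵥ v) ∘ Sum.inl) ()) ^ 2 + Cfsg.quadFormPlus m F ((oddM m F A *ᵥ v) ∘ Sum.inr) =
    ((v ∘ Sum.inl) ()) ^ 2 + Cfsg.quadFormPlus m F (v ∘ Sum.inr)
  have h1 : oddM m F A = Matrix.fromBlocks 1 0 0 (plusM m F A) := rfl
  rw [h1, fb_inl, fb_inr, plus_inv, Matrix.one_mulVec]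

/-- minus-type version -/
def minusM (m : ℕ) (F : Type*) [Field F] :
    Matrix.SpecialLinearGroup (Fin m) F →*
      Matrix ((Fin m ⊕ Fin m) ⊕ Fin 2) ((Fin m ⊕ Fin m) ⊕ Fin 2) F where
  toFun A := Matrix.fromBlocks (plusM m F A) 0 0 1
  map_one' := by simp
  map_mul' A B := by
    simp [Matrix.fromBlocks_multiply]

theorem minusM_injective : Function.Injective (minusM m F) := by
  intro A B h
  have h1 : Matrix.fromBlocks (plusM m F A) 0 0 (1 : Matrix (Fin 2) (Fin 2) F) =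
    Matrix.fromBlocks (plusM m F B) 0 0 1 := h
  rw [Matrix.fromBlocks_inj] at h1
  exact plusM_injective h1.1

theorem minus_inv (a b : F) (A : Matrix.SpecialLinearGroup (Fin m) F)
    (v : (Fin m ⊕ Fin m) ⊕ Fin 2 → F) :
    Cfsg.quadFormMinus m F a b (minusM m F A *ᵥ v) = Cfsg.quadFormMinus m F a b v := by
  show Cfsg.quadFormPlus m F ((minusM m F A *ᵥ v) ∘ Sum.inl) +
      ((((minusM m F A *ᵥ v) ∘ Sum.inr) 0) ^ 2 +
        a * (((minusM m F A *ᵥ v) ∘ Sum.inr) 0) * (((minusM m F A *ᵥ v) ∘ Sum.inr) 1) +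
        b * (((minusM m F A *ᵥ v) ∘ Sum.inr) 1) ^ 2) =
    Cfsg.quadFormPlus m F (v ∘ Sum.inl) +
      (((v ∘ Sum.inr) 0) ^ 2 + a * ((v ∘ Sum.inr) 0) * ((v ∘ Sum.inr) 1) + b * ((v ∘ Sum.inr) 1) ^ 2)
  have h1 : minusM m F A = Matrix.fromBlocks (plusM m F A) 0 0 1 := rfl
  rw [h1, fb_inl, fb_inr, plus_inv, Matrix.one_mulVec]

theorem Bad.sp {w : FreeGroup ℕ} (h : Bad w (Matrix.SpecialLinearGroup (Fin m) F)) :
    Bad w (Matrix.symplecticGroup (Fin m) F) :=
  h.of_injective (spHom m F) spHom_injective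

theorem Bad.plus {w : FreeGroup ℕ} (hm : 3 ≤ m) (h : Bad w (Matrix.SpecialLinearGroup (Fin m) F)) :
    Bad w (Cfsg.Omega F (Cfsg.quadFormPlus m F)) :=
  h.of_injective (toOmega _ (plusM m F) plus_inv (Cfsg.Agent.S0248.result m hm))
    (toOmega_injective _ _ _ _ plusM_injective)

theorem Bad.odd {w : FreeGroup ℕ} (hm : 3 ≤ m) (h : Bad w (Matrix.SpecialLinearGroup (Fin m) F)) :
    Bad w (Cfsg.Omega F (Cfsg.quadFormOdd m F)) :=
  h.of_injective (toOmega _ (oddM m F) odd_inv (Cfsg.Agent.S0248.result m hm))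
    (toOmega_injective _ _ _ _ oddM_injective)

theorem Bad.minus {w : FreeGroup ℕ} (a b : F) (hm : 3 ≤ m)
    (h : Bad w (Matrix.SpecialLinearGroup (Fin m) F)) :
    Bad w (Cfsg.Omega F (Cfsg.quadFormMinus m F a b)) :=
  h.of_injective (toOmega _ (minusM m F) (minus_inv a b) (Cfsg.Agent.S0248.result m hm))
    (toOmega_injective _ _ _ _ minusM_injective)

end Cfsg.Agent.Lib.Helper19.Law
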