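import Cfsg.Agent.Lib.Helper19.LawF
import Cfsg.Agent.Lib.Helper14.SU2

/-!
# Laws, part H: embeddings into unitary groups
-/

set_option autoImplicit false
set_option linter.style.haveILetI false
set_option linter.unusedSimpArgs false
set_option linter.unusedSectionVars false
open scoped Pointwise
open Polynomial Matrix

namespace Cfsg.Agent.Lib.Helper19.Law

variable {F : Type*} [Field F] [Fintype F] {q n : ℕ}

theorem preserves_of_gram (hF : Fintype.card F = q ^ 2) (A : Matrix (Fin n) (Fin n) F)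
    (h : Aᵀ * A.map (fun x => x ^ q) = 1) (u v : Fin n → F) :
    Cfsg.hermForm n F q (A *ᵥ u) (A *ᵥ v) = Cfsg.hermForm n F q u v := by
  obtain ⟨σ, hσ⟩ := Cfsg.Agent.Lib.Helper14.exists_frob hF
  have h0 : ∀ x y : Fin n → F, Cfsg.hermForm n F q x y = x ⬝ᵥ (σ ∘ y) := by
    intro x y
    unfold Cfsg.hermForm dotProduct
    refine Finset.sum_congr rfl fun i _ => ?_
    rw [Function.comp_apply, hσ]
  have h1 : σ ∘ (A *ᵥ v) = (A.map σ) *ᵥ (σ ∘ v) := by
    funext i
    exact RingHom.map_mulVec σ A v i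
  have h2 : A.map (fun x => x ^ q) = A.map σ := by
    ext i j
    simp [hσ]
  rw [h2] at h
  rw [h0, h0, h1, ← Matrix.vecMul_transpose, ← Matrix.dotProduct_mulVec, Matrix.mulVec_mulVec, h,
    Matrix.one_mulVec]

theorem embM_transpose {ι κ R : Type*} [Fintype ι] [Fintype κ] [DecidableEq ι] [DecidableEq κ]
    [CommRing R] (E : Matrix κ ι R) (h : Eᵀ * E = 1) (A : Matrix ι ι R) :
    (embM E Eᵀ h A)ᵀ = embM E Eᵀ h Aᵀ := by
  rw [embM_apply, embM_apply]
  simp [Matrix.transpose_mul, Matrix.transpose_add, Matrix.transpose_sub, Matrix.mul_assoc]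

theorem embM_map {ι κ R : Type*} [Fintype ι] [Fintype κ] [DecidableEq ι] [DecidableEq κ]
    [CommRing R] (σ : R →+* R) (j : ι → κ) (hj : Function.Injective j) (A : Matrix ι ι R) :
    (embM (Jm R j) (Jm R j)ᵀ (Jm_mul j hj) A).map σ =
      embM (Jm R j) (Jm R j)ᵀ (Jm_mul j hj) (A.map σ) := by
  rw [embM_apply, embM_apply, Matrix.map_add _ (map_add σ), Matrix.map_mul, Matrix.map_mul,
    Matrix.map_sub _ (map_sub σ), Matrix.map_one _ (map_zero σ) (map_one σ),
    Matrix.map_one _ (map_zero σ) (map_one σ), Matrix.transpose_map, Jm_map]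

/-- `SU_2 → SU_n` -/
def suEmb (hF : Fintype.card F = q ^ 2) (hn : 2 ≤ n) : Cfsg.SU 2 F q →* Cfsg.SU n F q :=
  ((embSL (Jm F (Fin.castLE hn)) (Jm F (Fin.castLE hn))ᵀ
    (Jm_mul _ (Fin.castLE_injective hn))).comp (Cfsg.SU 2 F q).subtype).codRestrict _ (fun g => by
    obtain ⟨σ, hσ⟩ := Cfsg.Agent.Lib.Helper14.exists_frob hF
    have hm : ∀ {k : ℕ} (B : Matrix (Fin k) (Fin k) F), B.map (fun x => x ^ q) = B.map σ := by
      intro k B
      ext i j
      simp [hσ]
    have hg := Cfsg.Agent.Lib.Helper14.transpose_mul_map_eq_one hF g.1.1 g.2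
    apply preserves_of_gram hF
    show (embM (Jm F (Fin.castLE hn)) (Jm F (Fin.castLE hn))ᵀ
      (Jm_mul _ (Fin.castLE_injective hn)) g.1.1)ᵀ * (embM (Jm F (Fin.castLE hn)) (Jm F (Fin.castLE hn))ᵀ
      (Jm_mul _ (Fin.castLE_injective hn)) g.1.1).map (fun x => x ^ q) = 1
    rw [hm, embM_transpose, embM_map σ _ (Fin.castLE_injective hn), ← map_mul, ← hm, hg, map_one])

theorem suEmb_injective (hF : Fintype.card F = q ^ 2) (hn : 2 ≤ n) :
    Function.Injective (suEmb (F := F) hF hn) := by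
  intro a b hab
  exact Subtype.ext (embSL_injective _ _ _ (congrArg Subtype.val hab))

omit [Fintype F] in
/-- `Alt_n → SU_n` -/
def altSU (n : ℕ) (F : Type*) [Field F] (q : ℕ) : alternatingGroup (Fin n) →* Cfsg.SU n F q :=
  (altSL n F).codRestrict _ (fun σ u v => by
    show Cfsg.hermForm n F q (permM n F σ.1 *ᵥ u) (permM n F σ.1 *ᵥ v) = Cfsg.hermForm n F q u v
    rw [permM_mulVec, permM_mulVec]
    unfold Cfsg.hermForm
    exact Equiv.sum_comp (σ.1⁻¹ : Equiv.Perm (Fin n)) (fun i => u i * v i ^ q))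

omit [Fintype F] in
theorem altSU_injective : Function.Injective (altSU n F q) := by
  intro a b hab
  exact altSL_injective (congrArg Subtype.val hab)

theorem exists_field (hF : Fintype.card F = q ^ 2) :
    ∃ (K : Type) (_ : Field K) (_ : Fintype K), Fintype.card K = q := by
  have h1 : IsPrimePow (q ^ 2) := hF ▸ FiniteField.isPrimePow_card F
  have h2 : IsPrimePow q := (isPrimePow_pow_iff (by norm_num)).1 h1
  obtain ⟨i⟩ : Nonempty (Field (Fin q)) := Fintype.nonempty_field_iff.2 (by simpa using h2)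
  exact ⟨Fin q, i, inferInstance, by simp⟩

theorem Bad.su_of_sl {w : FreeGroup ℕ} (hF : Fintype.card F = q ^ 2) (hn : 2 ≤ n)
    {K : Type*} [Field K] [Fintype K] (hK : Fintype.card K = q)
    (h : Bad w (Matrix.SpecialLinearGroup (Fin 2) K)) : Bad w (Cfsg.SU n F q) := by
  obtain ⟨e⟩ := Cfsg.Agent.Lib.Helper14.su_two_equiv_sl_two hF hK
  exact (h.of_injective e.symm.toMonoidHom e.symm.injective).of_injective (suEmb hF hn)
    (suEmb_injective hF hn)

omit [Fintype F] in
theorem Bad.su_of_alt {w : FreeGroup ℕ} (h : Bad w (alternatingGroup (Fin n))) :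
    Bad w (Cfsg.SU n F q) :=
  h.of_injective (altSU n F q) altSU_injective

end Cfsg.Agent.Lib.Helper19.Law
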