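import Cfsg.Agent.Lib.Helper19.RepA

/-!
# Complex representations of Suzuki groups, part B: the lower bound for the degree
-/

set_option autoImplicit false
set_option linter.style.haveILetI false
set_option linter.unusedSimpArgs false
set_option linter.unusedSectionVars false
open scoped Pointwise
open Matrix Polynomial

namespace Cfsg.Agent.Lib.Helper19.Suz

variable {F : Type*} [Field F] [Fintype F] [CharP F 2] (m : ℕ) [Hyp F m]
variable {V : Type*} [AddCommGroup V] [Module ℂ V] [FiniteDimensional ℂ V]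
variable (ρ : Representation ℂ (Cfsg.Sz F m) V)

/-- the eigenspace of the centre of the Sylow subgroup for the character `ψ` -/
def Wsp (ψ : AddChar F ℂ) : Submodule ℂ V where
  carrier := {v | ∀ b, ρ (tG m 0 b) v = ψ b • v}
  add_mem' := by
    intro x y hx hy b
    rw [map_add, hx b, hy b, smul_add]
  zero_mem' := by
    intro b
    simp
  smul_mem' := by
    intro c x hx b
    rw [map_smul, hx b, smul_comm]

theorem mem_Wsp (ψ : AddChar F ℂ) (v : V) : v ∈ Wsp m ρ ψ ↔ ∀ b, ρ (tG m 0 b) v = ψ b • v := Iff.rfl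

theorem Wsp_inv (ψ : AddChar F ℂ) (a b : F) {v : V} (hv : v ∈ Wsp m ρ ψ) :
    ρ (tG m a b) v ∈ Wsp m ρ ψ := by
  intro c
  have e : tG m 0 c * tG m a b = tG m a b * tG m 0 c := by
    rw [tG_mul, tG_mul]
    congr 1
    · rw [add_comm]
    · simp [add_comm]
  rw [← Module.End.mul_apply, ← map_mul, e, map_mul, Module.End.mul_apply, hv c, map_smul]

/-- the action of the Sylow subgroup on the eigenspace -/
def rW (ψ : AddChar F ℂ) (a b : F) : Module.End ℂ (Wsp m ρ ψ) :=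
  (ρ (tG m a b)).restrict (fun _ hv => Wsp_inv m ρ ψ a b hv)

theorem rW_mul (ψ : AddChar F ℂ) (a b c d : F) :
    rW m ρ ψ a b * rW m ρ ψ c d = rW m ρ ψ (a + c) (b + d + sg F m a * c) := by
  ext v
  show ρ (tG m a b) (ρ (tG m c d) v.1) = ρ (tG m (a + c) (b + d + sg F m a * c)) v.1
  rw [← tG_mul, map_mul, Module.End.mul_apply]

theorem rW_zero (ψ : AddChar F ℂ) (e : F) : rW m ρ ψ 0 e = ψ e • 1 := by
  ext v
  exact v.2 e

theorem trace_rW_eq_zero (ψ : AddChar F ℂ) {a : F} (ha : ¬ BadA m ψ a) (b : F) :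
    LinearMap.trace ℂ _ (rW m ρ ψ a b) = 0 := by
  unfold BadA at ha
  push Not at ha
  obtain ⟨c, hc⟩ := ha
  have h1 : rW m ρ ψ c (sg F m c * c) * rW m ρ ψ c 0 = 1 := by
    rw [rW_mul]
    have e1 : c + c = 0 := CharTwo.add_self_eq_zero c
    have e2 : sg F m c * c + 0 + sg F m c * c = 0 := by
      rw [add_zero, CharTwo.add_self_eq_zero]
    rw [e1, e2, rW_zero, AddChar.map_zero_eq_one, one_smul]
  have h2 : rW m ρ ψ c 0 * rW m ρ ψ a b * rW m ρ ψ c (sg F m c * c) =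
      ψ (sg F m a * c + sg F m c * a) • rW m ρ ψ a b := by
    have h3 : ψ (sg F m a * c + sg F m c * a) • rW m ρ ψ a b =
        rW m ρ ψ 0 (sg F m a * c + sg F m c * a) * rW m ρ ψ a b := by
      rw [rW_zero, smul_mul_assoc, one_mul]
    rw [h3, rW_mul, rW_mul, rW_mul]
    congr 1
    · grind
    · simp only [map_add, map_zero]
      grind
  have h4 := LinearMap.trace_mul_cycle ℂ (rW m ρ ψ c 0) (rW m ρ ψ a b) (rW m ρ ψ c (sg F m c * c))
  rw [h2, h1, one_mul, map_smul, smul_eq_mul] at h4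
  have h5 : (ψ (sg F m a * c + sg F m c * a) - 1) * LinearMap.trace ℂ _ (rW m ρ ψ a b) = 0 := by
    rw [sub_mul, one_mul, h4, sub_self]
  exact (mul_eq_zero.1 h5).resolve_left (sub_ne_zero.2 hc)

theorem pow_le_finrank_Wsp (ψ : AddChar F ℂ) (hψ : ψ ≠ 1) (hW : Wsp m ρ ψ ≠ ⊥) :
    2 ^ m ≤ Module.finrank ℂ (Wsp m ρ ψ) := by
  classical
  obtain ⟨S, hS, hgood⟩ := exists_family m ψ hψ
  haveI : Nontrivial (Wsp m ρ ψ) := Submodule.nontrivial_iff_ne_bot.2 hW
  have hd : (Module.finrank ℂ (Wsp m ρ ψ) : ℂ) ≠ 0 :=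
    Nat.cast_ne_zero.2 (Module.finrank_pos).ne'
  have hli : LinearIndependent ℂ (fun a : S => rW m ρ ψ a.1 0) := by
    rw [Fintype.linearIndependent_iff]
    intro g hg a0
    have h1 := congrArg
      (fun X => LinearMap.trace ℂ _ (rW m ρ ψ a0.1 (sg F m a0.1 * a0.1) * X)) hg
    simp only [Finset.mul_sum, mul_smul_comm, map_sum, map_smul, mul_zero, map_zero, rW_mul] at h1
    rw [Finset.sum_eq_single a0] at h1
    · have e1 : a0.1 + a0.1 = 0 := CharTwo.add_self_eq_zero _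
      have e2 : sg F m a0.1 * a0.1 + 0 + sg F m a0.1 * a0.1 = 0 := by
        rw [add_zero, CharTwo.add_self_eq_zero]
      rw [e1, e2, rW_zero, AddChar.map_zero_eq_one, one_smul, LinearMap.trace_one,
        smul_eq_mul] at h1
      exact (mul_eq_zero.1 h1).resolve_right hd
    · intro a _ hne
      rw [trace_rW_eq_zero m ρ ψ (hgood _ a0.2 _ a.2 (fun h => hne (Subtype.ext h.symm))),
        smul_zero]
    · intro h
      exact absurd (Finset.mem_univ _) h
  have h2 := hli.fintype_card_le_finrank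
  rw [Module.finrank_linearMap, Fintype.card_coe] at h2
  by_contra hlt
  push Not at hlt
  have h3 := Nat.mul_lt_mul'' hlt hlt
  rw [← pow_add, ← two_mul] at h3
  omega

theorem t0_mul_d (b : F) (u : Fˣ) :
    tG m 0 b * dG m u = dG m u * tG m 0 (((u⁻¹ : Fˣ) : F) ^ 2 * sg F m ((u⁻¹ : Fˣ) : F) * b) := by
  rw [← conj_d_t0, dG_inv, inv_inv, ← mul_assoc, ← mul_assoc, dG_mul, mul_inv_cancel, dG_one,
    one_mul]

theorem copies (ψ : AddChar F ℂ) (hψ : ψ ≠ 1) :
    (Fintype.card F - 1) * Module.finrank ℂ (Wsp m ρ ψ) ≤ Module.finrank ℂ V := by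
  classical
  let lam : Fˣ → F := fun u => ((u⁻¹ : Fˣ) : F) ^ 2 * sg F m ((u⁻¹ : Fˣ) : F)
  have hlam : ∀ u u' : Fˣ, lam u + lam u' = 0 → u = u' := by
    intro u u' h
    have h1 : lam u = lam u' := CharTwo.add_eq_zero.1 h
    have h2 := lam_inj m h1
    exact inv_injective (Units.ext h2)
  let Φ : (Fˣ → Wsp m ρ ψ) →ₗ[ℂ] V :=
    ∑ u : Fˣ, (ρ (dG m u)) ∘ₗ (Wsp m ρ ψ).subtype ∘ₗ LinearMap.proj u
  have hΦ : ∀ f, Φ f = ∑ u : Fˣ, ρ (dG m u) (f u).1 := by
    intro f
    simp [Φ, LinearMap.sum_apply]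
  have key : ∀ (b : F) (u : Fˣ) (w : Wsp m ρ ψ),
      ρ (tG m 0 b) (ρ (dG m u) w.1) = ψ (lam u * b) • ρ (dG m u) w.1 := by
    intro b u w
    rw [← Module.End.mul_apply, ← map_mul, t0_mul_d, map_mul, Module.End.mul_apply, w.2 _,
      map_smul]
  have hinj : Function.Injective Φ := by
    rw [injective_iff_map_eq_zero]
    intro f hf
    funext u0
    have h1 : ∑ b : F, ψ (lam u0 * b) • ρ (tG m 0 b) (Φ f) = 0 := by
      rw [hf]; simp
    have h2 : ∑ b : F, ψ (lam u0 * b) • ρ (tG m 0 b) (Φ f) =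
        ∑ u : Fˣ, (∑ b : F, ψ ((lam u0 + lam u) * b)) • ρ (dG m u) (f u).1 := by
      simp only [hΦ, map_sum, key, Finset.smul_sum, Finset.sum_smul]
      rw [Finset.sum_comm]
      refine Finset.sum_congr rfl fun u _ => Finset.sum_congr rfl fun b _ => ?_
      rw [smul_smul, add_mul, AddChar.map_add_eq_mul]
    rw [h2] at h1
    simp only [chi_sum_mul ψ hψ] at h1
    rw [Finset.sum_eq_single u0] at h1
    · rw [if_pos (CharTwo.add_self_eq_zero _)] at h1
      have hq : (Fintype.card F : ℂ) ≠ 0 := Nat.cast_ne_zero.2 Fintype.card_ne_zero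
      have h3 := (smul_eq_zero.1 h1).resolve_left hq
      have h4 : ρ (dG m u0)⁻¹ (ρ (dG m u0) (f u0).1) = 0 := by rw [h3, map_zero]
      rw [← Module.End.mul_apply, ← map_mul, inv_mul_cancel, map_one, Module.End.one_apply] at h4
      exact Subtype.ext h4
    · intro u _ hne
      rw [if_neg (fun h => hne (hlam _ _ h).symm), zero_smul]
    · intro h
      exact absurd (Finset.mem_univ _) h
  have h5 := LinearMap.finrank_le_finrank_of_injective hinj
  rw [Module.finrank_pi_fintype, Finset.sum_const, Finset.card_univ, Fintype.card_units,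
    smul_eq_mul] at h5
  exact h5

theorem exists_chi (h : ρ (tG m 0 1) ≠ 1) : ∃ ψ : AddChar F ℂ, ψ ≠ 1 ∧ Wsp m ρ ψ ≠ ⊥ := by
  classical
  let Pr : AddChar F ℂ → V → V := fun ψ v => ∑ b, ψ b • ρ (tG m 0 b) v
  have P1 : ∀ ψ v, Pr ψ v ∈ Wsp m ρ ψ := by
    intro ψ v c
    show ρ (tG m 0 c) (∑ b, ψ b • ρ (tG m 0 b) v) = ψ c • ∑ b, ψ b • ρ (tG m 0 b) v
    rw [map_sum, Finset.smul_sum]
    refine Fintype.sum_equiv (Equiv.addLeft c) _ _ (fun b => ?_)
    show ρ (tG m 0 c) (ψ b • ρ (tG m 0 b) v) = ψ c • ψ (c + b) • ρ (tG m 0 (c + b)) v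
    rw [map_smul, ← Module.End.mul_apply, ← map_mul, tG_zero_mul, smul_smul,
      AddChar.map_add_eq_mul, ← mul_assoc, chi_sq, one_mul]
  have P2 : ∀ v, ∑ ψ : AddChar F ℂ, Pr ψ v = (Fintype.card F : ℂ) • v := by
    intro v
    show ∑ ψ : AddChar F ℂ, ∑ b, ψ b • ρ (tG m 0 b) v = _
    rw [Finset.sum_comm]
    simp only [← Finset.sum_smul, AddChar.sum_apply_eq_ite]
    rw [Finset.sum_eq_single 0]
    · rw [if_pos rfl, tG_zero, map_one, Module.End.one_apply]
    · intro b _ hb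
      rw [if_neg hb, zero_smul]
    · intro h
      exact absurd (Finset.mem_univ _) h
  by_contra hcon
  push Not at hcon
  apply h
  ext v
  have h1 : Pr 1 v = (Fintype.card F : ℂ) • v := by
    rw [← P2 v, Finset.sum_eq_single 1]
    · intro ψ _ hψ
      have := P1 ψ v
      rw [hcon ψ hψ, Submodule.mem_bot] at this
      exact this
    · intro h
      exact absurd (Finset.mem_univ _) h
  have h2 := P1 1 v 1
  rw [h1, map_smul] at h2
  have hq : (Fintype.card F : ℂ) ≠ 0 := Nat.cast_ne_zero.2 Fintype.card_ne_zero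
  have h3 : (Fintype.card F : ℂ) • ρ (tG m 0 1) v = (Fintype.card F : ℂ) • v := by
    rw [h2]; simp
  exact smul_right_injective V hq h3

theorem rep_main (h : ρ (tG m 0 1) ≠ 1) :
    2 ^ m * (Fintype.card F - 1) ≤ Module.finrank ℂ V := by
  obtain ⟨ψ, hψ, hW⟩ := exists_chi m ρ h
  calc 2 ^ m * (Fintype.card F - 1) ≤ Module.finrank ℂ (Wsp m ρ ψ) * (Fintype.card F - 1) :=
        Nat.mul_le_mul_right _ (pow_le_finrank_Wsp m ρ ψ hψ hW)
    _ = (Fintype.card F - 1) * Module.finrank ℂ (Wsp m ρ ψ) := mul_comm _ _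
    _ ≤ _ := copies m ρ ψ hψ

end Cfsg.Agent.Lib.Helper19.Suz
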