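import Cfsg.Agent.Lib.Helper19.SubD

/-!
# Solubilizers in Suzuki groups, part A: the solvability criterion
-/

set_option autoImplicit false
set_option linter.style.haveILetI false
set_option linter.unusedSimpArgs false
set_option linter.unusedSectionVars false
open scoped Pointwise
open Matrix Polynomial

namespace Cfsg.Agent.Lib.Helper19.Suz

theorem solvable_normalizer_of_cyclic {G : Type*} [Group G] (U : Subgroup G) [IsCyclic U]
    (hC : ∀ a ∈ Subgroup.centralizer (U : Set G), ∀ b ∈ Subgroup.centralizer (U : Set G),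
      a * b = b * a) :
    Group.IsSolvable (Subgroup.normalizer (U : Set G)) := by
  haveI : Group.IsSolvable (MulAut U) :=
    Group.isSolvable_of_isSolvable_injective (f := (IsCyclic.mulAutMulEquiv U).toMonoidHom)
      (MulEquiv.injective _)
  haveI : Group.IsSolvable U.normalizerMonoidHom.ker := by
    apply Group.isSolvable_of_comm
    rintro ⟨a, ha⟩ ⟨b, hb⟩
    rw [Subgroup.normalizerMonoidHom_ker] at ha hb
    apply Subtype.ext
    apply Subtype.ext
    exact hC _ ha _ hb
  exact Group.isSolvable_of_ker_le_range U.normalizerMonoidHom.ker.subtype U.normalizerMonoidHom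
    (by simp)

theorem solvable_of_le {G : Type*} [Group G] {M N : Subgroup G} (h : M ≤ N)
    [Group.IsSolvable N] : Group.IsSolvable M :=
  Group.isSolvable_of_isSolvable_injective (f := Subgroup.inclusion h)
    (Subgroup.inclusion_injective h)

variable {F : Type*} [Field F] [Fintype F] [CharP F 2] (m : ℕ) [Hyp F m]

theorem ss_comm {u : Cfsg.Sz F m} (h4 : u ^ 4 ≠ 1) {a b : Cfsg.Sz F m} (ha : a ∈ Cen m u)
    (hb : b ∈ Cen m u) : a * b = b * a := by
  haveI := (ss_props m h4).1
  letI : CommGroup (Cen m u) := IsCyclic.commGroup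
  exact congrArg Subtype.val (mul_comm (⟨a, ha⟩ : Cen m u) ⟨b, hb⟩)

theorem solvable_Nor {u : Cfsg.Sz F m} (h4 : u ^ 4 ≠ 1) : Group.IsSolvable (Nor u) := by
  haveI := (ss_props m h4).1
  apply solvable_normalizer_of_cyclic (Cen m u)
  have hle : Subgroup.centralizer ((Cen m u : Subgroup (Cfsg.Sz F m)) : Set (Cfsg.Sz F m)) ≤ Cen m u :=
    Subgroup.centralizer_le (by
      intro x hx
      rw [Set.mem_singleton_iff.1 hx]
      exact self_mem_Cen u)
  intro a ha b hb
  exact ss_comm m h4 (hle ha) (hle hb)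

theorem solvable_Bor : Group.IsSolvable (Bor (F := F) m) := by
  haveI : Fact (Nat.Prime 2) := ⟨Nat.prime_two⟩
  haveI hn : ((Q (F := F) m).subgroupOf (Bor (F := F) m)).Normal :=
    Subgroup.normal_subgroupOf_of_le_normalizer (by rw [normalizer_Q])
  rw [Group.isSolvable_iff_subgroup_quotient ((Q (F := F) m).subgroupOf (Bor (F := F) m))]
  constructor
  · have hp : IsPGroup 2 ((Q (F := F) m).subgroupOf (Bor (F := F) m)) := by
      rintro ⟨⟨g, hgB⟩, hg⟩
      obtain ⟨a, b, hab⟩ : g ∈ Q (F := F) m := hg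
      refine ⟨2, ?_⟩
      apply Subtype.ext
      apply Subtype.ext
      show g ^ (2 ^ 2) = 1
      rw [hab]
      exact tG_pow_four m a b
    haveI := hp.isNilpotent
    infer_instance
  · apply Group.isSolvable_of_comm
    intro a b
    induction a using QuotientGroup.induction_on with
    | H a =>
      induction b using QuotientGroup.induction_on with
      | H b =>
        rw [← QuotientGroup.mk_mul, ← QuotientGroup.mk_mul, QuotientGroup.eq]
        obtain ⟨a1, a2, u, ha⟩ := (mem_Bor m).1 a.2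
        obtain ⟨b1, b2, v, hb⟩ := (mem_Bor m).1 b.2
        have hA : IsTD m a.1 u := ⟨a1, a2, ha⟩
        have hB : IsTD m b.1 v := ⟨b1, b2, hb⟩
        have h1 := ((hA.mul m hB).inv m).mul m (hB.mul m hA)
        rw [mul_comm v u, inv_mul_cancel] at h1
        exact h1.one m

theorem solvable_of_fix {M : Subgroup (Cfsg.Sz F m)} {p : PP F} (hp : p ∈ Cfsg.suzukiOvoid F m)
    (h : ∀ g ∈ M, g • p = p) : Group.IsSolvable M := by
  haveI := solvable_Bor (F := F) m
  obtain ⟨k, hk⟩ := exists_smul_eq_Pinf m hp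
  let f : M →* Bor (F := F) m :=
    { toFun := fun g => ⟨k * g.1 * k⁻¹, by
        rw [MulAction.mem_stabilizer_iff, mul_smul, mul_smul, ← hk, inv_smul_smul, h g.1 g.2]⟩
      map_one' := by
        apply Subtype.ext
        show k * 1 * k⁻¹ = 1
        group
      map_mul' := by
        intro a b
        apply Subtype.ext
        show k * (a.1 * b.1) * k⁻¹ = (k * a.1 * k⁻¹) * (k * b.1 * k⁻¹)
        group }
  apply Group.isSolvable_of_isSolvable_injective (f := f)
  intro a b hab
  have h1 : k * a.1 * k⁻¹ = k * b.1 * k⁻¹ := congrArg Subtype.val hab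
  exact Subtype.ext (mul_left_cancel (mul_right_cancel h1))

theorem cop_pm : Nat.Coprime (Fintype.card F + 2 ^ (m + 1) + 1) (Fintype.card F - 2 ^ (m + 1) + 1) := by
  have hq : Fintype.card F = 2 ^ (2 * m + 1) := Hyp.hF
  have hlt : 2 ^ (m + 1) ≤ Fintype.card F := by
    rw [hq]; exact Nat.pow_le_pow_right (by norm_num) (by omega)
  apply Nat.coprime_of_dvd
  intro r hr h1 h2
  have h3 : r ∣ (Fintype.card F + 2 ^ (m + 1) + 1) - (Fintype.card F - 2 ^ (m + 1) + 1) :=
    Nat.dvd_sub h1 h2
  have e : (Fintype.card F + 2 ^ (m + 1) + 1) - (Fintype.card F - 2 ^ (m + 1) + 1) = 2 ^ (m + 2) := by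
    rw [pow_succ 2 (m + 1)]; omega
  rw [e] at h3
  have h4 : r = 2 := (Nat.prime_dvd_prime_iff_eq hr Nat.prime_two).1 (hr.dvd_of_dvd_pow h3)
  subst h4
  have h5 : 2 ∣ Fintype.card F := by rw [hq, pow_succ]; exact Dvd.intro_left _ rfl
  have h6 : 2 ∣ 2 ^ (m + 1) := by rw [pow_succ]; exact Dvd.intro_left _ rfl
  omega

/-- the three torus orders -/
def TorOrd (F : Type*) [Fintype F] (m : ℕ) : Set ℕ :=
  {Fintype.card F - 1, Fintype.card F + 2 ^ (m + 1) + 1, Fintype.card F - 2 ^ (m + 1) + 1}

theorem torOrd_odd {n : ℕ} (h : n ∈ TorOrd F m) : ¬ 2 ∣ n := by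
  have h0 : ¬ 2 ∣ Fintype.card F ^ 2 + 1 := not_two_dvd (F := F) m
  rw [← tor_mul (F := F) m] at h0
  rcases h with rfl | rfl | rfl
  · exact odd_pred (F := F) m
  · exact fun h => h0 (Dvd.dvd.mul_right h _)
  · exact fun h => h0 (Dvd.dvd.mul_left h _)

theorem torOrd_eq {a b : ℕ} (ha : a ∈ TorOrd F m) (hb : b ∈ TorOrd F m) (h1 : a ≠ 1)
    (hdvd : a ∣ b) : a = b := by
  by_contra hne
  have hc : Nat.Coprime a b := by
    have c1 := cop_a (F := F) m
    rw [← tor_mul (F := F) m] at c1
    have c2 := Nat.Coprime.coprime_mul_right_right c1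
    have c3 := Nat.Coprime.coprime_mul_left_right c1
    have c4 := cop_pm (F := F) m
    rcases ha with rfl | rfl | rfl <;> rcases hb with rfl | rfl | rfl
    · exact absurd rfl hne
    · exact c2
    · exact c3
    · exact c2.symm
    · exact absurd rfl hne
    · exact c4
    · exact c3.symm
    · exact c4.symm
    · exact absurd rfl hne
  exact h1 (Nat.Coprime.eq_one_of_dvd hc hdvd)

theorem loc_iff (M : Subgroup (Cfsg.Sz F m)) : Loc m M ↔
    (∃ p ∈ Cfsg.suzukiOvoid F m, ∀ g ∈ M, g • p = p) ∨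
    (∃ u : Cfsg.Sz F m, u ^ 4 ≠ 1 ∧ M ≤ Nor u) := by
  constructor
  · rintro (⟨P, hP⟩ | ⟨U, hU, hc, hle⟩)
    · left
      obtain ⟨k, hk⟩ := exists_conj_QS m P
      refine ⟨k • Pinf, smul_mem_ovoid m k (Pinf_mem m), fun g hg => ?_⟩
      have h1 := hP hg
      rw [hk, ← Subgroup.map_equiv_normalizer_eq, normalizer_Q] at h1
      obtain ⟨b, hb, hbg⟩ := h1
      have hbg' : k * b * k⁻¹ = g := hbg
      rw [← hbg', mul_smul, mul_smul, inv_smul_smul, MulAction.mem_stabilizer_iff.1 hb]
    · right
      obtain ⟨⟨u, huU⟩, hu⟩ := hU.exists_generator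
      have hord : orderOf u = Nat.card U := by
        rw [← Subgroup.orderOf_mk u huU]
        exact orderOf_eq_card_of_forall_mem_zpowers hu
      have hodd := torOrd_odd m hc
      have hU1 : Nat.card U ≠ 1 := by
        have hq8 : 8 ≤ Fintype.card F := card_ge (F := F) m
        have hlt : 2 ^ (m + 1) + 2 < Fintype.card F := sigma_lt
        generalize 2 ^ (m + 1) = r at hc hlt
        rcases hc with e | e | e <;> rw [e] <;> omega
      have h4 : u ^ 4 ≠ 1 := by
        intro h4
        have h5 : orderOf u ∣ 2 ^ 2 := orderOf_dvd_of_pow_eq_one h4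
        rw [hord] at h5
        obtain ⟨j, -, hj⟩ := (Nat.dvd_prime_pow Nat.prime_two).1 h5
        rcases j with _ | j
        · exact hU1 (by simpa using hj)
        · exact hodd (by rw [hj, pow_succ]; exact Dvd.intro_left _ rfl)
      refine ⟨u, h4, ?_⟩
      have hUle : U ≤ Cen m u := le_cen_of_cyclic huU
      have hcard : Nat.card U = Nat.card (Cen m u) :=
        torOrd_eq m hc (ss_props m h4).2.1 hU1 (Subgroup.card_dvd_of_le hUle)
      have hUeq : U = Cen m u := Subgroup.eq_of_le_of_card_ge hUle hcard.ge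
      rw [hUeq] at hle
      exact hle
  · rintro (⟨p, hp, h⟩ | ⟨u, h4, hle⟩)
    · exact loc_of_fix m hp h
    · exact Or.inr ⟨Cen m u, (ss_props m h4).1, (ss_props m h4).2.1, hle⟩

theorem not_solvable_top : ¬ Group.IsSolvable (Cfsg.Sz F m) := by
  haveI := isSimple (F := F) m
  rw [← IsSimpleGroup.comm_iff_isSolvable]
  intro h
  have h1 := h (tG m 1 0) (dG m (Classical.choose (exists_unit_ne_one (F := F) m)))
  have hu := Classical.choose_spec (exists_unit_ne_one (F := F) m)
  set u := Classical.choose (exists_unit_ne_one (F := F) m)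
  rw [dG_mul_tG] at h1
  have h2 := (td_inj m h1).1
  apply hu
  apply Units.ext
  apply sg_eq_one m
  rw [mul_one] at h2
  exact h2.symm

theorem solvable_iff (hp : (2 * m + 1).Prime) (M : Subgroup (Cfsg.Sz F m)) :
    Group.IsSolvable M ↔ (∃ p ∈ Cfsg.suzukiOvoid F m, ∀ g ∈ M, g • p = p) ∨
    (∃ u : Cfsg.Sz F m, u ^ 4 ≠ 1 ∧ M ≤ Nor u) := by
  constructor
  · intro hs
    rw [← loc_iff]
    have hM : M ≠ ⊤ := by
      rintro rfl
      apply not_solvable_top (F := F) m
      exact Group.isSolvable_of_surjective (f := (⊤ : Subgroup (Cfsg.Sz F m)).subtype)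
        (fun g => ⟨⟨g, Subgroup.mem_top g⟩, rfl⟩)
    rcases subgroup_main hM with h | ⟨K, _, _, k, h1, h2, -, h4, -⟩
    · exact h
    · exfalso
      rcases (Nat.dvd_prime hp).1 h4 with h5 | h5 <;> omega
  · rintro (⟨p, hp, h⟩ | ⟨u, h4, hle⟩)
    · exact solvable_of_fix m hp h
    · haveI := solvable_Nor m h4
      exact solvable_of_le hle

/-- common fixed point -/
def CF (x y : Cfsg.Sz F m) : Prop := ∃ p ∈ Cfsg.suzukiOvoid F m, x • p = p ∧ y • p = p

/-- common torus normaliser -/
def CT (x y : Cfsg.Sz F m) : Prop := ∃ u : Cfsg.Sz F m, u ^ 4 ≠ 1 ∧ x ∈ Nor u ∧ y ∈ Nor u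

theorem sol_iff (hp : (2 * m + 1).Prime) (x y : Cfsg.Sz F m) :
    Group.IsSolvable (Subgroup.closure ({x, y} : Set (Cfsg.Sz F m))) ↔ CF m x y ∨ CT m x y := by
  rw [solvable_iff m hp]
  apply or_congr
  · constructor
    · rintro ⟨p, hp, h⟩
      exact ⟨p, hp, h x (Subgroup.subset_closure (by simp)), h y (Subgroup.subset_closure (by simp))⟩
    · rintro ⟨p, hp, hx, hy⟩
      refine ⟨p, hp, ?_⟩
      have hle : Subgroup.closure ({x, y} : Set (Cfsg.Sz F m)) ≤
          MulAction.stabilizer (Cfsg.Sz F m) p := by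
        rw [Subgroup.closure_le]
        rintro g (rfl | rfl)
        · exact hx
        · exact hy
      exact fun g hg => hle hg
  · constructor
    · rintro ⟨u, h4, h⟩
      exact ⟨u, h4, h (Subgroup.subset_closure (by simp)), h (Subgroup.subset_closure (by simp))⟩
    · rintro ⟨u, h4, hx, hy⟩
      refine ⟨u, h4, ?_⟩
      rw [Subgroup.closure_le]
      rintro g (rfl | rfl)
      · exact hx
      · exact hy

/-- transfer of the solubilizer along an isomorphism -/
theorem card_sol_congr {G H : Type*} [Group G] [Group H] (e : G ≃* H) (x : G) :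
    Nat.card {y : H // Group.IsSolvable (Subgroup.closure ({e x, y} : Set H))} =
    Nat.card {y : G // Group.IsSolvable (Subgroup.closure ({x, y} : Set G))} := by
  symm
  apply Nat.card_congr
  refine Equiv.subtypeEquiv e.toEquiv ?_
  intro y
  have h1 : Subgroup.closure ({e x, e y} : Set H) =
      (Subgroup.closure ({x, y} : Set G)).map e.toMonoidHom := by
    rw [MonoidHom.map_closure]
    congr 1
    simp [Set.image_pair]
  show _ ↔ Group.IsSolvable (Subgroup.closure ({e x, e y} : Set H))
  rw [h1]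
  let e2 := (Subgroup.closure ({x, y} : Set G)).equivMapOfInjective e.toMonoidHom e.injective
  constructor
  · intro h
    exact Group.isSolvable_of_isSolvable_injective (f := e2.symm.toMonoidHom) e2.symm.injective
  · intro h
    exact Group.isSolvable_of_isSolvable_injective (f := e2.toMonoidHom) e2.injective

end Cfsg.Agent.Lib.Helper19.Suz
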