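import Cfsg.Agent.Lib.Helper19.SolA

/-!
# Solubilizers in Suzuki groups, part B: involutions in torus normalisers
-/

set_option autoImplicit false
set_option linter.style.haveILetI false
set_option linter.unusedSimpArgs false
set_option linter.unusedSectionVars false
open scoped Pointwise
open Matrix Polynomial

namespace Cfsg.Agent.Lib.Helper19.Suz

variable {F : Type*} [Field F] [Fintype F] [CharP F 2] {m : ℕ} [Hyp F m]

theorem cen_odd {u : Cfsg.Sz F m} (h4 : u ^ 4 ≠ 1) : ¬ 2 ∣ Nat.card (Cen m u) :=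
  torOrd_odd m (ss_props m h4).2.1

theorem cen_pow_ne {u c : Cfsg.Sz F m} (h4 : u ^ 4 ≠ 1) (hc : c ∈ Cen m u) (hc1 : c ≠ 1) :
    c ^ 4 ≠ 1 := by
  intro h
  have h' : c ^ (2 ^ 2) = 1 := h
  exact hc1 (eq_one_of_coprime_pow (cop_of_odd (cen_odd h4) 2) h' (pow_card_of_mem hc))

theorem nor_conj_mem {u h c : Cfsg.Sz F m} (hh : h ∈ Nor u) (hc : c ∈ Cen m u) :
    h * c * h⁻¹ ∈ Cen m u :=
  (Subgroup.mem_normalizer_iff.1 hh c).1 hc

theorem cen_le_nor (u : Cfsg.Sz F m) : Cen m u ≤ Nor u := Subgroup.le_normalizer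

theorem nor_eq_of_cen_eq {u c : Cfsg.Sz F m} (h : Cen m c = Cen m u) : Nor c = Nor u := by
  unfold Nor
  rw [h]

theorem conj_mem_Nor {k s c : Cfsg.Sz F m} (hs : s ∈ Nor c) : k * s * k⁻¹ ∈ Nor (k * c * k⁻¹) := by
  unfold Nor
  rw [Cen_conj, ← Subgroup.map_equiv_normalizer_eq]
  exact ⟨s, hs, rfl⟩

theorem invol_inverts {u z : Cfsg.Sz F m} (h4 : u ^ 4 ≠ 1) (hz : z ∈ Nor u) (hz1 : z ≠ 1)
    (hzz : z * z = 1) {c : Cfsg.Sz F m} (hc : c ∈ Cen m u) : z * c * z⁻¹ = c⁻¹ := by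
  have hc' := nor_conj_mem hz hc
  by_contra hne
  have hw1 : c * (z * c * z⁻¹) ≠ 1 := fun h => hne (eq_inv_of_mul_eq_one_right h)
  have hw : c * (z * c * z⁻¹) ∈ Cen m u := mul_mem hc hc'
  have hzi : z⁻¹ = z := inv_eq_of_mul_eq_one_left hzz
  have hcomm : Commute z (c * (z * c * z⁻¹)) := by
    show z * (c * (z * c * z⁻¹)) = c * (z * c * z⁻¹) * z
    have e1 : z * (c * (z * c * z⁻¹)) = (z * c * z⁻¹) * (z * z) * c * z⁻¹ := by group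
    rw [e1, hzz, mul_one, ss_comm m h4 hc' hc, hzi]
  have hzC : z ∈ Cen m (c * (z * c * z⁻¹)) := mem_Cen.2 hcomm
  rw [(ss_props m h4).2.2 _ hw hw1] at hzC
  have h2 : z ^ (2 ^ 1) = 1 := by rw [pow_one, sq]; exact hzz
  exact hz1 (eq_one_of_coprime_pow (cop_of_odd (cen_odd h4) 1) h2 (pow_card_of_mem hzC))

theorem prod_invol_mem {u z0 z1 : Cfsg.Sz F m} (h4 : u ^ 4 ≠ 1) (h0 : z0 ∈ Nor u) (h01 : z0 ≠ 1)
    (h00 : z0 * z0 = 1) (h1 : z1 ∈ Nor u) (h11 : z1 ≠ 1) (h1s : z1 * z1 = 1) :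
    z0 * z1 ∈ Cen m u := by
  rw [mem_Cen]
  have a := invol_inverts h4 h1 h11 h1s (self_mem_Cen u)
  have b := invol_inverts h4 h0 h01 h00 (inv_mem (self_mem_Cen u))
  show z0 * z1 * u = u * (z0 * z1)
  calc z0 * z1 * u = z0 * (z1 * u * z1⁻¹) * z0⁻¹ * (z0 * z1) := by group
    _ = u * (z0 * z1) := by rw [a, b, inv_inv]

theorem torus_unique {u u' z0 z1 : Cfsg.Sz F m} (h4 : u ^ 4 ≠ 1) (h4' : u' ^ 4 ≠ 1)
    (h01 : z0 ≠ 1) (h00 : z0 * z0 = 1) (h11 : z1 ≠ 1) (h1s : z1 * z1 = 1)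
    (h0 : z0 ∈ Nor u) (h1 : z1 ∈ Nor u) (h0' : z0 ∈ Nor u') (h1' : z1 ∈ Nor u') (hne : z0 ≠ z1) :
    Cen m u = Cen m u' := by
  have hw1 : z0 * z1 ≠ 1 := by
    intro h
    apply hne
    rw [eq_inv_of_mul_eq_one_left h, inv_eq_of_mul_eq_one_left h1s]
  rw [← (ss_props m h4).2.2 _ (prod_invol_mem h4 h0 h01 h00 h1 h11 h1s) hw1,
    (ss_props m h4').2.2 _ (prod_invol_mem h4' h0' h01 h00 h1' h11 h1s) hw1]

theorem conj_invol {u z0 z1 : Cfsg.Sz F m} (h4 : u ^ 4 ≠ 1) (h0 : z0 ∈ Nor u) (h01 : z0 ≠ 1)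
    (h00 : z0 * z0 = 1) (h1 : z1 ∈ Nor u) (h11 : z1 ≠ 1) (h1s : z1 * z1 = 1) :
    ∃ c ∈ Cen m u, c * z0 * c⁻¹ = z1 := by
  have hw : z1 * z0 ∈ Cen m u := prod_invol_mem h4 h1 h11 h1s h0 h01 h00
  obtain ⟨j, -, h2⟩ := dihedral h00 h1s (cen_odd h4) (pow_card_of_mem hw)
  refine ⟨(z1 * z0) ^ j, pow_mem hw j, ?_⟩
  refine Eq.trans ?_ h2
  group

theorem isTD_unique {g : Cfsg.Sz F m} {u v : Fˣ} (h1 : IsTD m g u) (h2 : IsTD m g v) : u = v := by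
  obtain ⟨a, b, e1⟩ := h1
  obtain ⟨c, d, e2⟩ := h2
  exact (td_inj m (e1.symm.trans e2)).2.2

theorem unit_sq_eq_one {v : Fˣ} (h : v * v = 1) : v = 1 := by
  apply Units.ext
  apply sq_inj
  rw [Units.val_one, one_pow, sq, ← Units.val_mul, h, Units.val_one]

variable (m) in
/-- the reference involution -/
def zz (F : Type*) [Field F] [Fintype F] [CharP F 2] [Hyp F m] : Cfsg.Sz F m := tG m 0 1

theorem zz_ne : zz m F ≠ 1 := tG0_ne_one m one_ne_zero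
theorem zz_sq : zz m F * zz m F = 1 := tG0_sq m 1
theorem zz_inv : (zz m F)⁻¹ = zz m F := inv_eq_of_mul_eq_one_left zz_sq
theorem zz_fix : zz m F • (Pinf : PP F) = Pinf := tG_smul_Pinf m 0 1

theorem zz_fix_only {p : PP F} (hp : p ∈ Cfsg.suzukiOvoid F m) (h : zz m F • p = p) : p = Pinf :=
  t_fix m hp zz_ne h

theorem inv_not_bor {c : Cfsg.Sz F m} (h4 : c ^ 4 ≠ 1) (hinv : zz m F * c * (zz m F)⁻¹ = c⁻¹) :
    c • (Pinf : PP F) ≠ Pinf := by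
  intro hfix
  obtain ⟨a, b, v, rfl⟩ := nf_inf m c hfix
  have h1 : IsTD m (tG m a b * dG m v) v := ⟨a, b, rfl⟩
  have h2 : IsTD m (zz m F) 1 := isTD_t m 0 1
  have h3 := (h2.mul m h1).mul m (h2.inv m)
  rw [hinv] at h3
  have h5 := isTD_unique h3 (h1.inv m)
  rw [one_mul, inv_one, mul_one] at h5
  have hv : v = 1 := unit_sq_eq_one (by
    nth_rewrite 1 [h5]
    exact inv_mul_cancel v)
  subst hv
  rw [dG_one, mul_one] at h4
  exact h4 (tG_pow_four m a b)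

theorem cen_bor_trivial {c e : Cfsg.Sz F m} (h4 : c ^ 4 ≠ 1) (hz : zz m F ∈ Nor c)
    (he : e ∈ Cen m c) (hfix : e • (Pinf : PP F) = Pinf) : e = 1 := by
  by_contra he1
  exact inv_not_bor (cen_pow_ne h4 he he1) (invol_inverts h4 hz zz_ne zz_sq he) hfix

/-- the part of the torus normaliser inside the Borel subgroup -/
abbrev SB (c : Cfsg.Sz F m) : Subgroup (Cfsg.Sz F m) := Nor c ⊓ Bor (F := F) m

theorem mem_SB {c s : Cfsg.Sz F m} : s ∈ SB c ↔ s ∈ Nor c ∧ s • (Pinf : PP F) = Pinf := by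
  rw [Subgroup.mem_inf, MulAction.mem_stabilizer_iff]

theorem conj_invol_props {z h : Cfsg.Sz F m} (hz1 : z ≠ 1) (hzz : z * z = 1) :
    h * z * h⁻¹ ≠ 1 ∧ (h * z * h⁻¹) * (h * z * h⁻¹) = 1 := by
  refine ⟨fun h0 => hz1 (eq_one_of_conj h0), ?_⟩
  calc h * z * h⁻¹ * (h * z * h⁻¹) = h * (z * z) * h⁻¹ := by group
    _ = 1 := by rw [hzz]; group

theorem exists_cen_factor {c h : Cfsg.Sz F m} (h4 : c ^ 4 ≠ 1) (hz : zz m F ∈ Nor c)
    (hh : h ∈ Nor c) : ∃ e ∈ Cen m c, e • (Pinf : PP F) = h • (Pinf : PP F) := by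
  obtain ⟨a1, a2⟩ := conj_invol_props (h := h) (zz_ne (F := F) (m := m)) zz_sq
  have hz1 : h * zz m F * h⁻¹ ∈ Nor c := mul_mem (mul_mem hh hz) (inv_mem hh)
  obtain ⟨e, he, e1⟩ := conj_invol h4 hz zz_ne zz_sq hz1 a1 a2
  refine ⟨e, he, ?_⟩
  have a4 : (h * zz m F * h⁻¹) ^ 4 = 1 := by
    have e4 : (h * zz m F * h⁻¹) ^ 4 =
        (h * zz m F * h⁻¹ * (h * zz m F * h⁻¹)) * (h * zz m F * h⁻¹ * (h * zz m F * h⁻¹)) := by
      rw [← pow_two (h * zz m F * h⁻¹), ← pow_add]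
    rw [e4, a2, one_mul]
  apply t_unique_fix m a1 a4 (smul_mem_ovoid m _ (Pinf_mem m)) (smul_mem_ovoid m _ (Pinf_mem m))
  · rw [← e1, mul_smul, mul_smul, inv_smul_smul, zz_fix]
  · rw [mul_smul, mul_smul, inv_smul_smul, zz_fix]

theorem card_nor_eq {c : Cfsg.Sz F m} (h4 : c ^ 4 ≠ 1) (hz : zz m F ∈ Nor c) :
    Nat.card (Nor c) = Nat.card (Cen m c) * Nat.card (SB c) := by
  rw [← Nat.card_prod]
  symm
  apply Nat.card_congr
  refine Equiv.ofBijective (fun p : Cen m c × SB c =>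
    (⟨p.1.1 * p.2.1, mul_mem (cen_le_nor c p.1.2) (mem_SB.1 p.2.2).1⟩ : Nor c)) ⟨?_, ?_⟩
  · rintro ⟨⟨e, he⟩, ⟨s, hs⟩⟩ ⟨⟨e', he'⟩, ⟨s', hs'⟩⟩ h
    have h1 : e * s = e' * s' := congrArg Subtype.val h
    have h2 : e'⁻¹ * e = s' * s⁻¹ := by
      calc e'⁻¹ * e = e'⁻¹ * (e * s) * s⁻¹ := by group
        _ = e'⁻¹ * (e' * s') * s⁻¹ := by rw [h1]
        _ = _ := by group
    have h3 : e'⁻¹ * e = 1 := by
      apply cen_bor_trivial h4 hz (mul_mem (inv_mem he') he)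
      rw [h2, mul_smul, inv_smul_eq_iff.2 (mem_SB.1 hs).2.symm, (mem_SB.1 hs').2]
    have h4' : e = e' := by
      rw [inv_mul_eq_one] at h3; exact h3.symm
    subst h4'
    have h5 : s = s' := mul_left_cancel h1
    subst h5
    rfl
  · rintro ⟨h, hh⟩
    obtain ⟨e, he, e1⟩ := exists_cen_factor h4 hz hh
    refine ⟨⟨⟨e, he⟩, ⟨e⁻¹ * h, mem_SB.2 ⟨mul_mem (inv_mem (cen_le_nor c he)) hh, ?_⟩⟩⟩, ?_⟩
    · rw [mul_smul, ← e1, inv_smul_smul]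
    · apply Subtype.ext
      show e * (e⁻¹ * h) = h
      group

theorem card_SB_ff {c : Cfsg.Sz F m} (hc : FF m c) (h4 : c ^ 4 ≠ 1) (hz : zz m F ∈ Nor c) :
    Nat.card (SB c) = 4 := by
  have h1 := card_nor_eq h4 hz
  rw [((tori_main (F := F) m).1 c hc).2, mul_comm] at h1
  exact (Nat.eq_of_mul_eq_mul_left Nat.card_pos h1).symm

end Cfsg.Agent.Lib.Helper19.Suz
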