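import Cfsg.Agent.Lib.Helper19.SolB

/-!
# Solubilizers in Suzuki groups, part C: decomposition of the solubilizer of a 2-element
-/

set_option autoImplicit false
set_option linter.style.haveILetI false
set_option linter.unusedSimpArgs false
set_option linter.unusedSectionVars false
open scoped Pointwise
open Matrix Polynomial

namespace Cfsg.Agent.Lib.Helper19.Suz

variable {F : Type*} [Field F] [Fintype F] [CharP F 2] {m : ℕ} [Hyp F m]

theorem nor_d {v : Fˣ} (hv : v ≠ 1) {s : Cfsg.Sz F m} (hs : s ∈ Nor (dG m v)) :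
    (s • (Pinf : PP F) = Pinf ∧ s • P (sg F m) 0 0 = P (sg F m) 0 0) ∨
    (s • (Pinf : PP F) = P (sg F m) 0 0 ∧ s • P (sg F m) 0 0 = Pinf) := by
  have h1 := nor_conj_mem hs (self_mem_Cen (dG m v))
  rw [cen_d m hv] at h1
  obtain ⟨t, ht⟩ := h1
  have ht' : dG m t = s * dG m v * s⁻¹ := ht
  have ht1 : t ≠ 1 := by
    rintro rfl
    rw [dG_one] at ht'
    exact dG_ne_one m hv (eq_one_of_conj ht'.symm)
  have f1 : dG m t • (s • (Pinf : PP F)) = s • (Pinf : PP F) := by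
    rw [ht', mul_smul, mul_smul, inv_smul_smul, dG_smul_Pinf]
  have f2 : dG m t • (s • P (sg F m) 0 0) = s • P (sg F m) 0 0 := by
    rw [ht', mul_smul, mul_smul, inv_smul_smul, dG_smul_P_zero]
  have g1 := d_fix' m ht1 (smul_mem_ovoid m s (Pinf_mem m)) f1
  have g2 := d_fix' m ht1 (smul_mem_ovoid m s (P_mem m 0 0)) f2
  have hne : s • (Pinf : PP F) ≠ s • P (sg F m) 0 0 := fun h =>
    (P_ne_Pinf _ _ _).symm (smul_left_cancel s h)
  rcases g1 with g1 | g1 <;> rcases g2 with g2 | g2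
  · exact absurd (g1.trans g2.symm) hne
  · exact Or.inl ⟨g1, g2⟩
  · exact Or.inr ⟨g1, g2⟩
  · exact absurd (g1.trans g2.symm) hne

theorem nor_perm {c k : Cfsg.Sz F m} {v : Fˣ} (hv : v ≠ 1) (e : k * c * k⁻¹ = dG m v)
    {s : Cfsg.Sz F m} (hs : s ∈ Nor c) :
    (s • (k⁻¹ • (Pinf : PP F)) = k⁻¹ • (Pinf : PP F) ∧
      s • (k⁻¹ • P (sg F m) 0 0) = k⁻¹ • P (sg F m) 0 0) ∨
    (s • (k⁻¹ • (Pinf : PP F)) = k⁻¹ • P (sg F m) 0 0 ∧
      s • (k⁻¹ • P (sg F m) 0 0) = k⁻¹ • (Pinf : PP F)) := by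
  have h := nor_d hv (e ▸ conj_mem_Nor (k := k) hs)
  simp only [mul_smul, smul_eq_iff_eq_inv_smul k] at h
  exact h

/-- the elements inverted by the reference involution -/
def InC (c : Cfsg.Sz F m) : Prop := c ^ 4 ≠ 1 ∧ zz m F * c * (zz m F)⁻¹ = c⁻¹

theorem InC.zz_mem {c : Cfsg.Sz F m} (h : InC c) : zz m F ∈ Nor c :=
  ss_ti m h.1 _ (by rw [h.2]; exact inv_mem (self_mem_Cen c))

theorem InC.not_bor {c : Cfsg.Sz F m} (h : InC c) : c • (Pinf : PP F) ≠ Pinf :=
  inv_not_bor h.1 h.2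

theorem SB_d {c : Cfsg.Sz F m} (hc : InC c) (hnf : ¬ FF m c) {s : Cfsg.Sz F m} (hs : s ∈ SB c) :
    s = 1 ∨ s = zz m F := by
  rcases ss_cases m hc.1 with ⟨k, v, hv, e⟩ | hFF
  swap
  · exact absurd hFF hnf
  have hce : c = k⁻¹ * dG m v * k := by rw [← e]; group
  have ca : c • (k⁻¹ • (Pinf : PP F)) = k⁻¹ • (Pinf : PP F) := by
    rw [hce, mul_smul, mul_smul, smul_inv_smul, dG_smul_Pinf]
  have cb : c • (k⁻¹ • P (sg F m) 0 0) = k⁻¹ • P (sg F m) 0 0 := by
    rw [hce, mul_smul, mul_smul, smul_inv_smul, dG_smul_P_zero]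
  have haO : k⁻¹ • (Pinf : PP F) ∈ Cfsg.suzukiOvoid F m := smul_mem_ovoid m _ (Pinf_mem m)
  have hbO : k⁻¹ • P (sg F m) 0 0 ∈ Cfsg.suzukiOvoid F m := smul_mem_ovoid m _ (P_mem m 0 0)
  have ha : k⁻¹ • (Pinf : PP F) ≠ Pinf := fun h => hc.not_bor (by rw [h] at ca; exact ca)
  have hb : k⁻¹ • P (sg F m) 0 0 ≠ Pinf := fun h => hc.not_bor (by rw [h] at cb; exact cb)
  have hab : k⁻¹ • (Pinf : PP F) ≠ k⁻¹ • P (sg F m) 0 0 := fun h =>
    (P_ne_Pinf _ _ _).symm (smul_left_cancel _ h)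
  rcases nor_perm hv e hc.zz_mem with ⟨z1, -⟩ | ⟨z1, z2⟩
  · exact absurd (zz_fix_only haO z1) ha
  rcases nor_perm hv e (mem_SB.1 hs).1 with ⟨s1, s2⟩ | ⟨s1, s2⟩
  · left
    exact three_fix m s haO hbO (Pinf_mem m) hab hb ha s1 s2 (mem_SB.1 hs).2
  · right
    have h1 : zz m F * s = 1 := by
      apply three_fix m _ haO hbO (Pinf_mem m) hab hb ha
      · rw [mul_smul, s1, z2]
      · rw [mul_smul, s2, z1]
      · rw [mul_smul, (mem_SB.1 hs).2, zz_fix]
    rw [← zz_inv]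
    exact eq_inv_of_mul_eq_one_right h1

theorem card_SB_d {c : Cfsg.Sz F m} (hc : InC c) (hnf : ¬ FF m c) : Nat.card (SB c) = 2 := by
  rw [Nat.card_eq_two_iff]
  refine ⟨1, ⟨zz m F, mem_SB.2 ⟨hc.zz_mem, zz_fix⟩⟩, ?_, ?_⟩
  · intro h
    exact zz_ne (F := F) (m := m) (congrArg Subtype.val h).symm
  · ext s
    simp only [Set.mem_insert_iff, Set.mem_singleton_iff, Set.mem_univ, iff_true]
    rcases SB_d hc hnf s.2 with h | h
    · left; exact Subtype.ext h
    · right; exact Subtype.ext h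

/-- the 2-elements treated uniformly -/
structure GoodX (x : Cfsg.Sz F m) : Prop where
  fix : x • (Pinf : PP F) = Pinf
  only : ∀ p ∈ Cfsg.suzukiOvoid F m, x • p = p → p = Pinf
  zmem : ∀ u : Cfsg.Sz F m, x ∈ Nor u → zz m F ∈ Nor u

theorem sol_decomp {x : Cfsg.Sz F m} (hx : GoodX x) (y : Cfsg.Sz F m) :
    (CF m x y ∨ CT m x y) ↔
      (y • (Pinf : PP F) = Pinf ∨ ∃ c, (InC c ∧ x ∈ Nor c) ∧ c⁻¹ * y ∈ SB c) := by
  constructor
  · rintro (⟨p, hp, h1, h2⟩ | ⟨u, h4, h1, h2⟩)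
    · left
      rw [hx.only p hp h1] at h2
      exact h2
    · by_cases hy : y • (Pinf : PP F) = Pinf
      · exact Or.inl hy
      · right
        have hz := hx.zmem u h1
        obtain ⟨e, he, e1⟩ := exists_cen_factor h4 hz h2
        have he1 : e ≠ 1 := by
          rintro rfl
          rw [one_smul] at e1
          exact hy e1.symm
        have hcen := (ss_props m h4).2.2 e he he1
        have hnor : Nor e = Nor u := nor_eq_of_cen_eq hcen
        refine ⟨e, ⟨⟨cen_pow_ne h4 he he1, invol_inverts h4 hz zz_ne zz_sq he⟩, ?_⟩, ?_⟩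
        · rw [hnor]; exact h1
        · rw [mem_SB, hnor]
          refine ⟨mul_mem (inv_mem (cen_le_nor u he)) h2, ?_⟩
          rw [mul_smul, ← e1, inv_smul_smul]
  · rintro (h | ⟨c, ⟨hc, hxc⟩, hy⟩)
    · exact Or.inl ⟨Pinf, Pinf_mem m, hx.fix, h⟩
    · right
      refine ⟨c, hc.1, hxc, ?_⟩
      have := mul_mem (cen_le_nor c (self_mem_Cen c)) (mem_SB.1 hy).1
      rwa [mul_inv_cancel_left] at this

theorem Y_smul {c y : Cfsg.Sz F m} (h : c⁻¹ * y ∈ SB c) :
    y • (Pinf : PP F) = c • (Pinf : PP F) := by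
  have := (mem_SB.1 h).2
  rwa [mul_smul, inv_smul_eq_iff] at this

theorem Y_mem_nor {c y : Cfsg.Sz F m} (h : c⁻¹ * y ∈ SB c) : y ∈ Nor c := by
  have := mul_mem (cen_le_nor c (self_mem_Cen c)) (mem_SB.1 h).1
  rwa [mul_inv_cancel_left] at this

theorem Y_disjoint {c c' y : Cfsg.Sz F m} (hc : InC c) (hc' : InC c') (h : c⁻¹ * y ∈ SB c)
    (h' : c'⁻¹ * y ∈ SB c') : c = c' := by
  have hy : y • (Pinf : PP F) ≠ Pinf := by rw [Y_smul h]; exact hc.not_bor
  obtain ⟨a1, a2⟩ := conj_invol_props (h := y) (zz_ne (F := F) (m := m)) zz_sq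
  have hne : zz m F ≠ y * zz m F * y⁻¹ := by
    intro e
    apply hy
    apply zz_fix_only (smul_mem_ovoid m y (Pinf_mem m))
    rw [e, mul_smul, mul_smul, inv_smul_smul, zz_fix]
  have hcen : Cen m c = Cen m c' := torus_unique hc.1 hc'.1 zz_ne zz_sq a1 a2 hc.zz_mem
    (mul_mem (mul_mem (Y_mem_nor h) hc.zz_mem) (inv_mem (Y_mem_nor h))) hc'.zz_mem
    (mul_mem (mul_mem (Y_mem_nor h') hc'.zz_mem) (inv_mem (Y_mem_nor h'))) hne
  have h1 : c'⁻¹ * c = 1 := by
    apply cen_bor_trivial hc.1 hc.zz_mem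
    · exact mul_mem (inv_mem (by rw [hcen]; exact self_mem_Cen c')) (self_mem_Cen c)
    · rw [mul_smul, ← Y_smul h, Y_smul h', inv_smul_smul]
  rw [inv_mul_eq_one] at h1
  exact h1.symm

open Classical in
theorem card_sol {x : Cfsg.Sz F m} (hx : GoodX x) :
    Nat.card {y : Cfsg.Sz F m // CF m x y ∨ CT m x y} =
      Fintype.card F ^ 2 * (Fintype.card F - 1) +
        ∑ c ∈ Finset.univ.filter (fun c : Cfsg.Sz F m => InC c ∧ x ∈ Nor c), Nat.card (SB c) := by
  set A : Finset (Cfsg.Sz F m) := Finset.univ.filter (fun y => y • (Pinf : PP F) = Pinf) with hA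
  set CS : Finset (Cfsg.Sz F m) := Finset.univ.filter (fun c => InC c ∧ x ∈ Nor c) with hCS
  let Y : Cfsg.Sz F m → Finset (Cfsg.Sz F m) := fun c => Finset.univ.filter (fun y => c⁻¹ * y ∈ SB c)
  have h1 : Nat.card {y : Cfsg.Sz F m // CF m x y ∨ CT m x y} = (A ∪ CS.biUnion Y).card := by
    rw [Nat.card_eq_fintype_card, Fintype.card_subtype]
    congr 1
    ext y
    simp only [Finset.mem_filter, Finset.mem_univ, true_and, Finset.mem_union, Finset.mem_biUnion,
      hA, hCS, Y]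
    rw [sol_decomp hx]
  have h2 : Disjoint A (CS.biUnion Y) := by
    rw [Finset.disjoint_left]
    intro y hy hy'
    simp only [Finset.mem_filter, Finset.mem_univ, true_and, Finset.mem_biUnion, hA, hCS, Y]
      at hy hy'
    obtain ⟨c, ⟨hc, -⟩, hyc⟩ := hy'
    rw [Y_smul hyc] at hy
    exact hc.not_bor hy
  have h3 : (CS.biUnion Y).card = ∑ c ∈ CS, (Y c).card := by
    apply Finset.card_biUnion
    intro c hc c' hc' hne
    show Disjoint (Y c) (Y c')
    rw [Finset.disjoint_left]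
    intro y hy hy'
    have hc1 : c ∈ CS := hc
    have hc1' : c' ∈ CS := hc'
    simp only [Finset.mem_filter, Finset.mem_univ, true_and, hCS, Y] at hc1 hc1' hy hy'
    exact hne (Y_disjoint hc1.1 hc1'.1 hy hy')
  have h4 : ∀ c, (Y c).card = Nat.card (SB c) := by
    intro c
    rw [Nat.card_eq_fintype_card, ← Fintype.card_coe]
    apply Fintype.card_congr
    refine ⟨fun y => ⟨c⁻¹ * y.1, (Finset.mem_filter.1 y.2).2⟩,
      fun s => ⟨c * s.1, Finset.mem_filter.2 ⟨Finset.mem_univ _, by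
        rw [inv_mul_cancel_left]; exact s.2⟩⟩, ?_, ?_⟩
    · intro y
      apply Subtype.ext
      show c * (c⁻¹ * y.1) = y.1
      group
    · intro s
      apply Subtype.ext
      show c⁻¹ * (c * s.1) = s.1
      group
  have h5 : A.card = Fintype.card F ^ 2 * (Fintype.card F - 1) := by
    rw [← card_stab_inf m, Nat.card_eq_fintype_card, ← Fintype.card_coe]
    apply Fintype.card_congr
    exact Equiv.subtypeEquivRight (fun y => by
      simp only [Finset.mem_filter, Finset.mem_univ, true_and, hA, MulAction.mem_stabilizer_iff]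
      rfl)
  rw [h1, Finset.card_union_of_disjoint h2, h3, h5]
  simp only [h4]

end Cfsg.Agent.Lib.Helper19.Suz
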