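import Cfsg.Agent.Lib.Helper19.SolC
import Cfsg.Agent.Lib.Helper19.RepA

/-!
# Solubilizers in Suzuki groups, part D: counting the inverted elements
-/

set_option autoImplicit false
set_option linter.style.haveILetI false
set_option linter.unusedSimpArgs false
set_option linter.unusedSectionVars false
open scoped Pointwise
open Matrix Polynomial

namespace Cfsg.Agent.Lib.Helper19.Suz

variable {F : Type*} [Field F] [Fintype F] [CharP F 2] (m : ℕ) [Hyp F m]

/-- the additive map `s ↦ s + σ s` -/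
def jf : F →+ F where
  toFun s := s + sg F m s
  map_zero' := by simp
  map_add' a b := by rw [map_add]; abel

/-- its image -/
def JJ : AddSubgroup F := (jf (F := F) m).range

theorem mem_JJ {x : F} : x ∈ JJ (F := F) m ↔ ∃ s : F, s + sg F m s = x := Iff.rfl

theorem one_not_mem_JJ : (1 : F) ∉ JJ (F := F) m := by
  rintro ⟨s, hs⟩
  exact no_sol m s (by rw [add_comm]; exact hs)

theorem card_ker_jf : Nat.card (jf (F := F) m).ker = 2 := by
  rw [Nat.card_eq_two_iff]
  refine ⟨0, ⟨1, ?_⟩, ?_, ?_⟩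
  · rw [AddMonoidHom.mem_ker]
    show (1 : F) + sg F m 1 = 0
    rw [map_one, CharTwo.add_self_eq_zero]
  · intro h
    exact zero_ne_one (congrArg Subtype.val h)
  · ext s
    simp only [Set.mem_insert_iff, Set.mem_singleton_iff, Set.mem_univ, iff_true]
    have h1 : s.1 + sg F m s.1 = 0 := s.2
    have h2 : sg F m s.1 = s.1 := (CharTwo.add_eq_zero.1 h1).symm
    rcases sg_fix m h2 with h | h
    · left; exact Subtype.ext h
    · right; exact Subtype.ext h

theorem card_JJ : 2 * Nat.card (JJ (F := F) m) = Fintype.card F := by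
  have h1 := AddSubgroup.card_mul_index (jf (F := F) m).ker
  rw [AddSubgroup.index_ker, card_ker_jf, Nat.card_eq_fintype_card (α := F)] at h1
  exact h1

theorem JJ_cover (x : F) : x ∈ JJ (F := F) m ∨ x + 1 ∈ JJ (F := F) m := by
  have h1 := AddSubgroup.card_mul_index (JJ (F := F) m)
  rw [Nat.card_eq_fintype_card (α := F), ← card_JJ m, mul_comm] at h1
  have h2 : (JJ (F := F) m).index = 2 := Nat.eq_of_mul_eq_mul_right Nat.card_pos h1
  obtain ⟨a, ha⟩ := AddSubgroup.index_eq_two_iff.1 h2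
  by_cases hx : x ∈ JJ (F := F) m
  · exact Or.inl hx
  · right
    have h3 : x + a ∈ JJ (F := F) m := by
      rcases ha x with ⟨h, -⟩ | ⟨h, -⟩
      · exact h
      · exact absurd h hx
    have h4 : 1 + a ∈ JJ (F := F) m := by
      rcases ha 1 with ⟨h, -⟩ | ⟨h, -⟩
      · exact h
      · exact absurd h (one_not_mem_JJ m)
    have h5 := add_mem h3 h4
    have e : x + a + (1 + a) = x + 1 := by
      have : a + a = 0 := CharTwo.add_self_eq_zero a
      calc x + a + (1 + a) = x + 1 + (a + a) := by ring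
        _ = x + 1 := by rw [this, add_zero]
    rwa [e] at h5

variable {m}

theorem pow_four_of_sq {z : Cfsg.Sz F m} (hzz : z * z = 1) : z ^ 4 = 1 := by
  have : z ^ 4 = (z * z) * (z * z) := by
    rw [← pow_two z, ← pow_add]
  rw [this, hzz, one_mul]

theorem prod_invol_ss {z z' : Cfsg.Sz F m}
    (hz1 : z ≠ 1) (hz'1 : z' ≠ 1) (hzz : z * z = 1) (hzz' : z' * z' = 1) {p p' : PP F}
    (hp : p ∈ Cfsg.suzukiOvoid F m) (hp' : p' ∈ Cfsg.suzukiOvoid F m) (hfix : z • p = p)
    (hfix' : z' • p' = p') (hne : p ≠ p') : (z' * z) ^ 4 ≠ 1 := by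
  have hz4 := pow_four_of_sq hzz
  have hz'4 := pow_four_of_sq hzz'
  have hzi : z⁻¹ = z := inv_eq_of_mul_eq_one_left hzz
  have hzi' : z'⁻¹ = z' := inv_eq_of_mul_eq_one_left hzz'
  intro h4
  by_cases h1 : z' * z = 1
  · have e : z' = z := by rw [← hzi]; exact eq_inv_of_mul_eq_one_left h1
    rw [e] at hfix'
    exact hne (t_unique_fix m hz1 hz4 hp hp' hfix hfix')
  · obtain ⟨p0, hp0, hf0⟩ := t_exists_fix m h1 h4
    have a1 : (z' * z) • (z • p0) = z • p0 := by
      have e : z' * z * z = z * (z' * z)⁻¹ * 1 := by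
        rw [_root_.mul_inv_rev, hzi, hzi', mul_assoc z', hzz]
        calc z' * 1 = (z * z) * z' * 1 := by rw [hzz]; group
          _ = _ := by group
      rw [← mul_smul, e, mul_one, mul_smul, inv_smul_eq_iff.2 hf0.symm]
    have a2 : z • p0 = p0 := t_unique_fix m h1 h4 (smul_mem_ovoid m _ hp0) hp0 a1 hf0
    have a3 : z' • p0 = p0 := by
      have := hf0
      rw [mul_smul, a2] at this
      exact this
    exact hne ((t_unique_fix m hz1 hz4 hp hp0 hfix a2).trans
      (t_unique_fix m hz'1 hz'4 hp0 hp' a3 hfix'))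

variable (m) in
/-- the involutions not fixing the point at infinity -/
def Zi (a b e : F) : Cfsg.Sz F m := (tG m a b * wG m) * tG m 0 e * (tG m a b * wG m)⁻¹

theorem tw_smul (a b : F) : (tG m a b * wG m) • (Pinf : PP F) = P (sg F m) a b := by
  rw [mul_smul, wG_smul_Pinf, tG_smul_P]; simp

theorem Zi_fix (a b e : F) : Zi m a b e • P (sg F m) a b = P (sg F m) a b := by
  unfold Zi
  rw [← tw_smul, mul_smul, mul_smul, inv_smul_smul, tG_smul_Pinf]

theorem inC_Zi (a b : F) {e : F} (he : e ≠ 0) : InC (zz m F * Zi m a b e) := by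
  obtain ⟨a1, a2⟩ := conj_invol_props (h := tG m a b * wG m) (tG0_ne_one m he) (tG0_sq m e)
  have a1' : Zi m a b e ≠ 1 := a1
  have a2' : Zi m a b e * Zi m a b e = 1 := a2
  refine ⟨prod_invol_ss a1' zz_ne a2' zz_sq (P_mem m a b) (Pinf_mem m) (Zi_fix a b e) zz_fix
    (P_ne_Pinf _ _ _), ?_⟩
  rw [_root_.mul_inv_rev, inv_eq_of_mul_eq_one_left a2', ← mul_assoc, zz_sq, one_mul]

theorem card_InC : Nat.card {c : Cfsg.Sz F m // InC c} =
    Fintype.card F * (Fintype.card F * (Fintype.card F - 1)) := by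
  classical
  have h0 : Nat.card (F × F × {e : F // e ≠ 0}) =
      Fintype.card F * (Fintype.card F * (Fintype.card F - 1)) := by
    rw [Nat.card_prod, Nat.card_prod, Nat.card_eq_fintype_card, Nat.card_eq_fintype_card]
    congr 2
    exact Set.card_ne_eq (0 : F)
  rw [← h0]
  symm
  apply Nat.card_congr
  refine Equiv.ofBijective (fun t : F × F × {e : F // e ≠ 0} =>
    (⟨zz m F * Zi m t.1 t.2.1 t.2.2.1, inC_Zi t.1 t.2.1 t.2.2.2⟩ : {c : Cfsg.Sz F m // InC c}))
    ⟨?_, ?_⟩
  · rintro ⟨a, b, e, he⟩ ⟨a', b', e', he'⟩ h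
    have h1 : Zi m a b e = Zi m a' b' e' := mul_left_cancel (congrArg Subtype.val h)
    obtain ⟨a1, a2⟩ := conj_invol_props (h := tG m a b * wG m) (tG0_ne_one m he) (tG0_sq m e)
    have h2 : P (sg F m) a b = P (sg F m) a' b' :=
      t_unique_fix m a1 (pow_four_of_sq a2) (P_mem m a b) (P_mem m a' b') (Zi_fix a b e)
        (by
          have := Zi_fix (m := m) a' b' e'
          rw [← h1] at this
          exact this)
    obtain ⟨rfl, rfl⟩ := P_inj _ h2
    have h3 : tG m 0 e = tG m 0 e' := mul_left_cancel (mul_right_cancel h1)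
    obtain rfl := (tG_inj m h3).2
    rfl
  · rintro ⟨c, hc⟩
    have hz2 : (zz m F * c) * (zz m F * c) = 1 := by
      calc zz m F * c * (zz m F * c) = (zz m F * c * (zz m F)⁻¹) * c := by rw [zz_inv]; group
        _ = 1 := by rw [hc.2, inv_mul_cancel]
    have hz1 : zz m F * c ≠ 1 := by
      intro h
      have h2 : c = zz m F := by rw [← zz_inv]; exact eq_inv_of_mul_eq_one_right h
      exact hc.1 (by rw [h2]; exact pow_four_of_sq zz_sq)
    obtain ⟨p, hp, hfix⟩ := t_exists_fix m hz1 (pow_four_of_sq hz2)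
    have hpinf : p ≠ Pinf := by
      rintro rfl
      apply hc.not_bor
      rw [mul_smul, smul_eq_iff_eq_inv_smul, zz_inv, zz_fix] at hfix
      exact hfix
    rw [mem_ovoid_iff] at hp
    rcases hp with rfl | ⟨a, b, rfl⟩
    · exact absurd rfl hpinf
    obtain ⟨b1, b2⟩ := conj_invol_props (h := (tG m a b * wG m)⁻¹) hz1 hz2
    obtain ⟨e, he, e1⟩ := invol_inf m b1 b2 (by
      rw [mul_smul, mul_smul, inv_inv, tw_smul, hfix, ← tw_smul, inv_smul_smul])
    refine ⟨⟨a, b, e, he⟩, ?_⟩
    apply Subtype.ext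
    show zz m F * Zi m a b e = c
    unfold Zi
    rw [← e1]
    calc zz m F * (tG m a b * wG m * ((tG m a b * wG m)⁻¹ * (zz m F * c) * (tG m a b * wG m)⁻¹⁻¹) *
        (tG m a b * wG m)⁻¹) = (zz m F * zz m F) * c := by group
      _ = c := by rw [zz_sq, one_mul]

end Cfsg.Agent.Lib.Helper19.Suz
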