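import Cfsg.Agent.Lib.Helper19.SolD

/-!
# Solubilizers in Suzuki groups, part E: the split elements and the elements of order four
-/

set_option autoImplicit false
set_option linter.style.haveILetI false
set_option linter.unusedSimpArgs false
set_option linter.unusedSectionVars false
open scoped Pointwise
open Matrix Polynomial

namespace Cfsg.Agent.Lib.Helper19.Suz

variable {F : Type*} [Field F] [Fintype F] [CharP F 2] {m : ℕ} [Hyp F m]

theorem swap_inverts {w' : Cfsg.Sz F m} (h1 : w' • (Pinf : PP F) = P (sg F m) 0 0)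
    (h2 : w' • P (sg F m) 0 0 = Pinf) (v : Fˣ) : w' * dG m v * w'⁻¹ = (dG m v)⁻¹ := by
  obtain ⟨t, ht⟩ := nf_two m (w' * wG m) (by rw [mul_smul, wG_smul_Pinf, h2])
    (by rw [mul_smul, wG_smul_P_zero, h1])
  have hw : w' = dG m t * wG m := by rw [← ht, mul_assoc, wG_mul_wG, mul_one]
  rw [hw, _root_.mul_inv_rev, wG_inv, mul_assoc (dG m t), wG_mul_dG]
  calc dG m t * (dG m v⁻¹ * wG m) * (wG m * (dG m t)⁻¹)
      = dG m t * dG m v⁻¹ * (wG m * wG m) * (dG m t)⁻¹ := by group
    _ = (dG m v)⁻¹ := by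
      rw [wG_mul_wG, mul_one, dG_mul, dG_inv, dG_mul, dG_inv]
      congr 1
      rw [mul_comm t, mul_assoc, mul_inv_cancel, mul_one]

theorem zz_smul_P (a b : F) : zz m F • P (sg F m) a b = P (sg F m) a (b + 1) := by
  unfold zz
  rw [tG_smul_P]; simp

theorem exists_kk (a b : F) : ∃ k : Cfsg.Sz F m, k • P (sg F m) a b = Pinf ∧
    k • P (sg F m) a (b + 1) = P (sg F m) 0 0 :=
  exists_pair m (P_mem m a b) (P_mem m a (b + 1)) (by
    intro h
    have := (P_inj _ h).2
    simp at this)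

variable (m) in
/-- a chosen element normalising the pair `P a b`, `P a (b+1)` -/
noncomputable def kk (a b : F) : Cfsg.Sz F m := Classical.choose (exists_kk (m := m) a b)

theorem kk_one (a b : F) : kk m a b • P (sg F m) a b = Pinf :=
  (Classical.choose_spec (exists_kk (m := m) a b)).1

theorem kk_two (a b : F) : kk m a b • P (sg F m) a (b + 1) = P (sg F m) 0 0 :=
  (Classical.choose_spec (exists_kk (m := m) a b)).2

variable (m) in
/-- the split elements inverted by the reference involution -/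
noncomputable def Dc (a b : F) (v : Fˣ) : Cfsg.Sz F m := (kk m a b)⁻¹ * dG m v * kk m a b

theorem Dc_conj (a b : F) (v : Fˣ) : kk m a b * Dc m a b v * (kk m a b)⁻¹ = dG m v := by
  unfold Dc; group

theorem Dc_fix1 (a b : F) (v : Fˣ) : Dc m a b v • P (sg F m) a b = P (sg F m) a b := by
  unfold Dc
  rw [mul_smul, mul_smul, kk_one, dG_smul_Pinf, ← kk_one (m := m) a b, inv_smul_smul]

theorem Dc_fix2 (a b : F) (v : Fˣ) : Dc m a b v • P (sg F m) a (b + 1) = P (sg F m) a (b + 1) := by
  unfold Dc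
  rw [mul_smul, mul_smul, kk_two, dG_smul_P_zero, ← kk_two (m := m) a b, inv_smul_smul]

theorem Dc_ne_one (a b : F) {v : Fˣ} (hv : v ≠ 1) : Dc m a b v ≠ 1 := by
  intro h
  have := Dc_conj (m := m) a b v
  rw [h, mul_one, mul_inv_cancel] at this
  exact dG_ne_one m hv this.symm

theorem add_one_add_one (b : F) : b + 1 + 1 = b := by
  rw [add_assoc, CharTwo.add_self_eq_zero, add_zero]

theorem inC_Dc (a b : F) {v : Fˣ} (hv : v ≠ 1) : InC (Dc m a b v) ∧ ¬ FF m (Dc m a b v) := by
  refine ⟨⟨?_, ?_⟩, ?_⟩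
  · intro h4
    have h4' : Dc m a b v ^ (2 ^ 2) = 1 := h4
    exact Dc_ne_one a b hv (eq_one_of_coprime_pow (cop_of_odd (odd_pred (F := F) m) 2) h4'
      (pow_of_conj_d m (Dc_conj a b v)))
  · have h1 := swap_inverts (w' := kk m a b * zz m F * (kk m a b)⁻¹) (by
      rw [mul_smul, mul_smul, ← kk_one (m := m) a b, inv_smul_smul, zz_smul_P, kk_two]) (by
      rw [mul_smul, mul_smul, ← kk_two (m := m) a b, inv_smul_smul, zz_smul_P, add_one_add_one,
        kk_one]) v
    rw [← Dc_conj (m := m) a b v] at h1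
    have h2 : kk m a b * (zz m F * Dc m a b v * (zz m F)⁻¹) * (kk m a b)⁻¹ =
        kk m a b * (Dc m a b v)⁻¹ * (kk m a b)⁻¹ := by
      refine Eq.trans ?_ (h1.trans ?_) <;> group
    exact mul_left_cancel (mul_right_cancel h2)
  · intro h
    exact h _ (P_mem m a b) (Dc_fix1 a b v)

theorem inC_fix_zz {c : Cfsg.Sz F m} (hc : InC c) {p : PP F} (h : c • p = p) :
    c • (zz m F • p) = zz m F • p := by
  have h1 : zz m F * c = c⁻¹ * zz m F := by
    rw [← hc.2]; group
  have h2 : c⁻¹ • (zz m F • p) = zz m F • p := by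
    rw [← mul_smul, ← h1, mul_smul, h]
  rw [inv_smul_eq_iff] at h2
  exact h2.symm

theorem card_InC_d : Nat.card {c : Cfsg.Sz F m // InC c ∧ ¬ FF m c} =
    Fintype.card F * (Nat.card (JJ (F := F) m) * (Fintype.card F - 2)) := by
  classical
  have h0 : Nat.card (F × JJ (F := F) m × {v : Fˣ // v ≠ 1}) =
      Fintype.card F * (Nat.card (JJ (F := F) m) * (Fintype.card F - 2)) := by
    rw [Nat.card_prod, Nat.card_prod, Nat.card_eq_fintype_card (α := F)]
    congr 2
    rw [Nat.card_eq_fintype_card]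
    have := Set.card_ne_eq (1 : Fˣ)
    rw [Fintype.card_units] at this
    rw [show Fintype.card F - 2 = Fintype.card F - 1 - 1 by omega, ← this]
    rfl
  rw [← h0]
  symm
  apply Nat.card_congr
  refine Equiv.ofBijective (fun t : F × JJ (F := F) m × {v : Fˣ // v ≠ 1} =>
    (⟨Dc m t.1 t.2.1.1 t.2.2.1, inC_Dc t.1 t.2.1.1 t.2.2.2⟩ :
      {c : Cfsg.Sz F m // InC c ∧ ¬ FF m c})) ⟨?_, ?_⟩
  · rintro ⟨a, ⟨b, hb⟩, v, hv⟩ ⟨a', ⟨b', hb'⟩, v', hv'⟩ h
    have h1 : Dc m a b v = Dc m a' b' v' := congrArg Subtype.val h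
    have hab : a = a' ∧ b = b' := by
      by_contra hne
      have n1 : P (sg F m) a b ≠ P (sg F m) a (b + 1) := by
        intro h
        have := (P_inj _ h).2
        simp at this
      have n2 : P (sg F m) a (b + 1) ≠ P (sg F m) a' b' := by
        intro h
        obtain ⟨e1, e2⟩ := P_inj _ h
        apply one_not_mem_JJ (F := F) m
        have h5 := add_mem hb hb'
        rw [← e2] at h5
        have e3 : b + (b + 1) = 1 := by
          rw [← add_assoc, CharTwo.add_self_eq_zero, zero_add]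
        rwa [e3] at h5
      have n3 : P (sg F m) a b ≠ P (sg F m) a' b' := fun h => hne (P_inj _ h)
      apply Dc_ne_one (m := m) a b hv
      apply three_fix m _ (P_mem m a b) (P_mem m a (b + 1)) (P_mem m a' b') n1 n2 n3
        (Dc_fix1 a b v) (Dc_fix2 a b v)
      rw [h1]; exact Dc_fix1 a' b' v'
    obtain ⟨rfl, rfl⟩ := hab
    have h2 : dG m v = dG m v' := by
      rw [← Dc_conj (m := m) a b v, h1, Dc_conj]
    obtain rfl := dG_inj m h2
    rfl
  · rintro ⟨c, hc, hnf⟩
    unfold FF at hnf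
    push Not at hnf
    obtain ⟨p, hp, hfix⟩ := hnf
    have hpinf : p ≠ Pinf := by
      rintro rfl
      exact hc.not_bor hfix
    rw [mem_ovoid_iff] at hp
    rcases hp with rfl | ⟨a, b, rfl⟩
    · exact absurd rfl hpinf
    have hfix2 := inC_fix_zz hc hfix
    rw [zz_smul_P] at hfix2
    obtain ⟨b0, hb0, f1, f2⟩ : ∃ b0 ∈ JJ (F := F) m, c • P (sg F m) a b0 = P (sg F m) a b0 ∧
        c • P (sg F m) a (b0 + 1) = P (sg F m) a (b0 + 1) := by
      rcases JJ_cover m b with h | h
      · exact ⟨b, h, hfix, hfix2⟩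
      · exact ⟨b + 1, h, hfix2, by rw [add_one_add_one]; exact hfix⟩
    obtain ⟨v, hv⟩ := nf_two m (kk m a b0 * c * (kk m a b0)⁻¹) (by
      rw [mul_smul, mul_smul, ← kk_one (m := m) a b0, inv_smul_smul, f1]) (by
      rw [mul_smul, mul_smul, ← kk_two (m := m) a b0, inv_smul_smul, f2])
    have hv1 : v ≠ 1 := by
      rintro rfl
      rw [dG_one] at hv
      have := eq_one_of_conj hv
      exact hc.1 (by rw [this, one_pow])
    refine ⟨⟨a, ⟨b0, hb0⟩, v, hv1⟩, ?_⟩
    apply Subtype.ext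
    show Dc m a b0 v = c
    unfold Dc
    rw [← hv]; group

end Cfsg.Agent.Lib.Helper19.Suz
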