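import Cfsg.Agent.Lib.Helper19.SolE

/-!
# Solubilizers in Suzuki groups, part F: tori normalised by an element of order four
-/

set_option autoImplicit false
set_option linter.style.haveILetI false
set_option linter.unusedSimpArgs false
set_option linter.unusedSectionVars false
open scoped Pointwise
open Matrix Polynomial

namespace Cfsg.Agent.Lib.Helper19.Suz

variable {F : Type*} [Field F] [Fintype F] [CharP F 2] {m : ℕ} [Hyp F m]

theorem invol_SB {c : Cfsg.Sz F m} (hc : InC c) {e : F} (he : tG m 0 e ∈ Nor c) (h0 : e ≠ 0) :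
    e = 1 := by
  have h1 := prod_invol_mem hc.1 hc.zz_mem zz_ne zz_sq he (tG0_ne_one m h0) (tG0_sq m e)
  have h2 := cen_bor_trivial hc.1 hc.zz_mem h1 (by rw [mul_smul, tG_smul_Pinf, zz_fix])
  unfold zz at h2
  rw [tG_zero_mul, tG_eq_one_iff] at h2
  exact (CharTwo.add_eq_zero.1 h2.2).symm

theorem t1_inv (β : F) : (tG m 1 β)⁻¹ = tG m 1 (β + 1) := by
  rw [tG_inv]; simp

theorem t1_sq (β : F) : tG m 1 β * tG m 1 β = zz m F := by
  rw [tG_sq]; simp [zz]

theorem t1_ne (β : F) : tG m (1 : F) β ≠ 1 := by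
  rw [tG_ne_one_iff]
  rintro ⟨h, -⟩
  exact one_ne_zero h

theorem ff_of_t1 {c : Cfsg.Sz F m} (hc : InC c) {β : F} (h : tG m 1 β ∈ Nor c) : FF m c := by
  by_contra hnf
  rcases SB_d hc hnf (mem_SB.2 ⟨h, tG_smul_Pinf m 1 β⟩) with h1 | h1
  · exact t1_ne β h1
  · have := (tG_inj m h1).1
    exact one_ne_zero this

theorem t1_unique {c : Cfsg.Sz F m} (hc : InC c) {β β' : F} (hβ : β ∈ JJ (F := F) m)
    (hβ' : β' ∈ JJ (F := F) m) (h : tG m 1 β ∈ Nor c) (h' : tG m 1 β' ∈ Nor c) : β = β' := by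
  by_contra hne
  have h1 := mul_mem h (inv_mem h')
  rw [t1_inv, tG_mul] at h1
  have e1 : (1 : F) + 1 = 0 := CharTwo.add_self_eq_zero 1
  have e2 : β + (β' + 1) + sg F m 1 * 1 = β + β' := by
    rw [map_one, mul_one, ← add_assoc, add_one_add_one]
  rw [e1, e2] at h1
  have h2 := invol_SB hc h1 (fun h0 => hne (CharTwo.add_eq_zero.1 h0))
  apply one_not_mem_JJ (F := F) m
  rw [← h2]
  exact add_mem hβ hβ'

theorem t1_exists {c : Cfsg.Sz F m} (hc : InC c) (hFF : FF m c) :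
    ∃ β ∈ JJ (F := F) m, tG m 1 β ∈ Nor c := by
  classical
  have h4 := card_SB_ff hFF hc.1 hc.zz_mem
  obtain ⟨e, he, he1, hez⟩ : ∃ e ∈ SB c, e ≠ 1 ∧ e ≠ zz m F := by
    by_contra hcon
    push Not at hcon
    have hle : Nat.card (SB c) ≤ Nat.card Bool := by
      apply Nat.card_le_card_of_injective (fun s : SB c => decide (s.1 = 1))
      intro s s' hss
      simp only [decide_eq_decide] at hss
      apply Subtype.ext
      by_cases h1 : s.1 = 1
      · rw [h1, hss.1 h1]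
      · have h1' : s'.1 ≠ 1 := fun h => h1 (hss.2 h)
        rw [hcon s.1 s.2 h1, hcon s'.1 s'.2 h1']
    rw [h4] at hle
    simp at hle
  have hp4 : e ^ 4 = 1 := by
    have := pow_card_of_mem he
    rwa [h4] at this
  obtain ⟨a, b, v, rfl⟩ := nf_inf m e (mem_SB.1 he).2
  have hv : v = 1 := by
    have t1 : IsTD m (tG m a b * dG m v) v := ⟨a, b, rfl⟩
    have t2 := (t1.mul m t1).mul m (t1.mul m t1)
    have e4 : (tG m a b * dG m v) ^ 4 = (tG m a b * dG m v * (tG m a b * dG m v)) *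
        (tG m a b * dG m v * (tG m a b * dG m v)) := by
      rw [← pow_two (tG m a b * dG m v), ← pow_add]
    rw [← e4, hp4] at t2
    have t3 : IsTD m (1 : Cfsg.Sz F m) 1 := ⟨0, 0, by rw [tG_zero, dG_one, one_mul]⟩
    have t4 := isTD_unique t2 t3
    exact unit_sq_eq_one (unit_sq_eq_one t4)
  subst hv
  rw [dG_one, mul_one] at he he1 hez
  have hN := (mem_SB.1 he).1
  have ha0 : a ≠ 0 := by
    rintro rfl
    have hb0 : b ≠ 0 := by
      rintro rfl
      exact he1 (tG_zero m)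
    have := invol_SB hc hN hb0
    subst this
    exact hez rfl
  have hsq := mul_mem hN hN
  rw [tG_sq] at hsq
  have hs0 : sg F m a * a ≠ 0 := mul_ne_zero (by simpa using ha0) ha0
  have h5 := invol_SB hc hsq hs0
  have ha1 : a = 1 := mul_sg_eq_one m (by rw [mul_comm]; exact h5)
  subst ha1
  rcases JJ_cover m b with h | h
  · exact ⟨b, h, hN⟩
  · refine ⟨b + 1, h, ?_⟩
    rw [← t1_inv]
    exact inv_mem hN

/-- the number of inverted elements whose torus is normalised by `t(1, β)` -/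
noncomputable def NN (m : ℕ) (F : Type*) [Field F] [Fintype F] [CharP F 2] [Hyp F m] (β : F) : ℕ :=
  Nat.card {c : Cfsg.Sz F m // InC c ∧ tG m 1 β ∈ Nor c}

theorem conj_t1 (s β : F) : tG m s 0 * tG m 1 β * (tG m s 0)⁻¹ = tG m 1 (β + (s + sg F m s)) := by
  rw [tG_inv, tG_mul, tG_mul]
  congr 1
  · grind
  · simp only [map_add, map_one]
    grind

theorem inC_conj {c : Cfsg.Sz F m} (hc : InC c) (a b : F) :
    InC (tG m a b * c * (tG m a b)⁻¹) := by
  refine ⟨?_, ?_⟩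
  · rw [conj_pow]
    exact fun h => hc.1 (eq_one_of_conj h)
  · have hcomm : zz m F * tG m a b = tG m a b * zz m F := by
      unfold zz
      rw [tG_mul, tG_mul]
      congr 1
      · rw [add_comm]
      · simp [add_comm]
    have hcomm2 : (tG m a b)⁻¹ * (zz m F)⁻¹ = (zz m F)⁻¹ * (tG m a b)⁻¹ := by
      rw [← _root_.mul_inv_rev, ← _root_.mul_inv_rev, hcomm]
    calc zz m F * (tG m a b * c * (tG m a b)⁻¹) * (zz m F)⁻¹
        = (zz m F * tG m a b) * c * ((tG m a b)⁻¹ * (zz m F)⁻¹) := by group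
      _ = tG m a b * (zz m F * c * (zz m F)⁻¹) * (tG m a b)⁻¹ := by rw [hcomm, hcomm2]; group
      _ = _ := by rw [hc.2]; group

theorem NN_le {β β' : F} (h : β + β' ∈ JJ (F := F) m) : NN m F β ≤ NN m F β' := by
  obtain ⟨s, hs⟩ := h
  have hs' : s + sg F m s = β + β' := hs
  unfold NN
  apply Nat.card_le_card_of_injective (fun c : {c : Cfsg.Sz F m // InC c ∧ tG m 1 β ∈ Nor c} =>
    (⟨tG m s 0 * c.1 * (tG m s 0)⁻¹, inC_conj c.2.1 s 0, by
      have h1 := conj_mem_Nor (k := tG m s 0) c.2.2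
      rw [conj_t1, hs', ← add_assoc, CharTwo.add_self_eq_zero, zero_add] at h1
      exact h1⟩ : {c : Cfsg.Sz F m // InC c ∧ tG m 1 β' ∈ Nor c}))
  intro c c' hcc
  have h1 : tG m s 0 * c.1 * (tG m s 0)⁻¹ = tG m s 0 * c'.1 * (tG m s 0)⁻¹ :=
    congrArg Subtype.val hcc
  exact Subtype.ext (mul_left_cancel (mul_right_cancel h1))

theorem NN_eq {β β' : F} (h : β + β' ∈ JJ (F := F) m) : NN m F β = NN m F β' :=
  le_antisymm (NN_le h) (NN_le (by rw [add_comm]; exact h))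

theorem NN_add_one (β : F) : NN m F (β + 1) = NN m F β := by
  unfold NN
  apply Nat.card_congr
  apply Equiv.subtypeEquivRight
  intro c
  rw [← t1_inv, inv_mem_iff]

theorem NN_eq_zero (β : F) : NN m F β = NN m F 0 := by
  rcases JJ_cover m β with h | h
  · exact NN_eq (by rw [add_zero]; exact h)
  · rw [← NN_add_one β]
    exact NN_eq (by rw [add_zero]; exact h)

theorem card_InC_ff : Nat.card {c : Cfsg.Sz F m // InC c ∧ FF m c} =
    Nat.card (JJ (F := F) m) * NN m F 0 := by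
  classical
  have h1 : Nat.card (Σ β : JJ (F := F) m, {c : Cfsg.Sz F m // InC c ∧ tG m 1 β.1 ∈ Nor c}) =
      Nat.card (JJ (F := F) m) * NN m F 0 := by
    rw [Nat.card_sigma]
    have : ∀ β : JJ (F := F) m, Nat.card {c : Cfsg.Sz F m // InC c ∧ tG m 1 β.1 ∈ Nor c} =
        NN m F 0 := fun β => NN_eq_zero β.1
    simp only [this, Finset.sum_const, Finset.card_univ, smul_eq_mul, Nat.card_eq_fintype_card]
  rw [← h1]
  symm
  apply Nat.card_congr
  refine Equiv.ofBijective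
    (fun t : (Σ β : JJ (F := F) m, {c : Cfsg.Sz F m // InC c ∧ tG m 1 β.1 ∈ Nor c}) =>
      (⟨t.2.1, t.2.2.1, ff_of_t1 t.2.2.1 t.2.2.2⟩ : {c : Cfsg.Sz F m // InC c ∧ FF m c})) ⟨?_, ?_⟩
  · rintro ⟨⟨β, hβ⟩, c, hc, h⟩ ⟨⟨β', hβ'⟩, c', hc', h'⟩ hcc
    have h2 : c = c' := congrArg Subtype.val hcc
    subst h2
    obtain rfl := t1_unique hc hβ hβ' h h'
    rfl
  · rintro ⟨c, hc, hFF⟩
    obtain ⟨β, hβ, h⟩ := t1_exists hc hFF
    exact ⟨⟨⟨β, hβ⟩, c, hc, h⟩, rfl⟩

end Cfsg.Agent.Lib.Helper19.Suz
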