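import Cfsg.Agent.Lib.Helper19.SolF

/-!
# Solubilizers in Suzuki groups, part G: semisimple elements
-/

set_option autoImplicit false
set_option linter.style.haveILetI false
set_option linter.unusedSimpArgs false
set_option linter.unusedSectionVars false
open scoped Pointwise
open Matrix Polynomial

namespace Cfsg.Agent.Lib.Helper19.Suz

variable {F : Type*} [Field F] [Fintype F] [CharP F 2] {m : ℕ} [Hyp F m]

theorem FF.pow_four_ne {x : Cfsg.Sz F m} (hx : FF m x) : x ^ 4 ≠ 1 := by
  intro h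
  have h' : x ^ (2 ^ 2) = 1 := h
  exact hx.ne_one (eq_one_of_coprime_pow (cop_of_odd (not_two_dvd (F := F) m) 2) h' hx.pow)

theorem pow_four_mem_cen {u x : Cfsg.Sz F m} (hu : FF m u) (hx : x ∈ Nor u) : x ^ 4 ∈ Cen m u := by
  haveI : ((Cen m u).subgroupOf (Nor u)).Normal := Subgroup.normal_in_normalizer
  have h1 := Subgroup.card_mul_index ((Cen m u).subgroupOf (Nor u))
  have h2 : Nat.card ((Cen m u).subgroupOf (Nor u)) = Nat.card (Cen m u) :=
    Nat.card_congr (Subgroup.subgroupOfEquivOfLe (cen_le_nor u)).toEquiv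
  rw [h2, ((tori_main (F := F) m).1 u hu).2, mul_comm 4] at h1
  have h3 : ((Cen m u).subgroupOf (Nor u)).index = 4 := Nat.eq_of_mul_eq_mul_left Nat.card_pos h1
  have h4 := ((Cen m u).subgroupOf (Nor u)).pow_index_mem ⟨x, hx⟩
  rw [h3] at h4
  exact h4

theorem sol_ff {x : Cfsg.Sz F m} (hx : FF m x) (y : Cfsg.Sz F m) :
    (CF m x y ∨ CT m x y) ↔ y ∈ Nor x := by
  constructor
  · rintro (⟨p, hp, h1, -⟩ | ⟨u, h4, h1, h2⟩)
    · exact absurd h1 (hx p hp)
    · rcases ss_cases m h4 with ⟨k, v, hv, e⟩ | hu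
      · exfalso
        have haO : k⁻¹ • (Pinf : PP F) ∈ Cfsg.suzukiOvoid F m := smul_mem_ovoid m _ (Pinf_mem m)
        rcases nor_perm hv e h1 with ⟨s1, -⟩ | ⟨s1, s2⟩
        · exact hx _ haO s1
        · have hxx : x * x ≠ 1 := by
            intro h
            have h' : x ^ (2 ^ 1) = 1 := by rw [pow_one, sq]; exact h
            exact hx.ne_one (eq_one_of_coprime_pow (cop_of_odd (not_two_dvd (F := F) m) 1) h' hx.pow)
          have h5 := hx.of_mem (mul_mem (self_mem_Cen x) (self_mem_Cen x)) hxx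
          exact h5 _ haO (by rw [mul_smul, s1, s2])
      · have h5 := pow_four_mem_cen hu h1
        have h6 := hu.cen_eq h5 hx.pow_four_ne
        have h7 := hx.cen_eq (pow_mem (self_mem_Cen x) 4) hx.pow_four_ne
        rw [nor_eq_of_cen_eq (h7.symm.trans h6)]
        exact h2
  · intro hy
    exact Or.inr ⟨x, hx.pow_four_ne, cen_le_nor x (self_mem_Cen x), hy⟩

theorem card_sol_ff {x : Cfsg.Sz F m} (hx : FF m x) :
    Nat.card {y : Cfsg.Sz F m // CF m x y ∨ CT m x y} = 4 * Nat.card (Cen m x) := by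
  rw [← ((tori_main (F := F) m).1 x hx).2]
  apply Nat.card_congr
  exact Equiv.subtypeEquivRight (fun y => sol_ff hx y)

theorem ff_of_pow {x : Cfsg.Sz F m} (hx1 : x ≠ 1) (h : x ^ (Fintype.card F ^ 2 + 1) = 1) :
    FF m x := by
  intro p hp hfix
  rcases classify_fixed m hp hfix with ⟨k, a, b, e⟩ | ⟨k, u, -, e⟩
  · have h4 : x ^ (2 ^ 2) = 1 := pow_of_conj_t m e
    exact hx1 (eq_one_of_coprime_pow (cop_of_odd (not_two_dvd (F := F) m) 2) h4 h)
  · exact hx1 (eq_one_of_coprime_pow (cop_a (F := F) m) (pow_of_conj_d m e) h)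

theorem card_cen_plus {x : Cfsg.Sz F m} (hx1 : x ≠ 1)
    (h : x ^ (Fintype.card F + 2 ^ (m + 1) + 1) = 1) :
    FF m x ∧ Nat.card (Cen m x) = Fintype.card F + 2 ^ (m + 1) + 1 := by
  have hFF : FF m x := ff_of_pow hx1 (by
    rw [← tor_mul (F := F) m, pow_mul, h, one_pow])
  refine ⟨hFF, ?_⟩
  rcases ((tori_main (F := F) m).1 x hFF).1 with e | e
  · exact e
  · exfalso
    have h2 := pow_card_of_mem (self_mem_Cen x)
    rw [e] at h2
    exact hx1 (eq_one_of_coprime_pow (cop_pm (F := F) m) h h2)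

theorem card_cen_minus {x : Cfsg.Sz F m} (hx1 : x ≠ 1)
    (h : x ^ (Fintype.card F - 2 ^ (m + 1) + 1) = 1) :
    FF m x ∧ Nat.card (Cen m x) = Fintype.card F - 2 ^ (m + 1) + 1 := by
  have hFF : FF m x := ff_of_pow hx1 (by
    rw [← tor_mul (F := F) m, mul_comm, pow_mul, h, one_pow])
  refine ⟨hFF, ?_⟩
  rcases ((tori_main (F := F) m).1 x hFF).1 with e | e
  · exfalso
    have h2 := pow_card_of_mem (self_mem_Cen x)
    rw [e] at h2
    exact hx1 (eq_one_of_coprime_pow (cop_pm (F := F) m) h2 h)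
  · exact e

theorem dG_pow_four_ne {u : Fˣ} (hu : u ≠ 1) : dG m u ^ 4 ≠ 1 := by
  intro h
  have h' : dG m u ^ (2 ^ 2) = 1 := h
  exact dG_ne_one m hu (eq_one_of_coprime_pow (cop_of_odd (odd_pred (F := F) m) 2) h'
    (dG_pow_card u))

theorem sol_d {u0 : Fˣ} (hu0 : u0 ≠ 1) (y : Cfsg.Sz F m) :
    (CF m (dG m u0) y ∨ CT m (dG m u0) y) ↔
      (y • (Pinf : PP F) = Pinf ∨ y • P (sg F m) 0 0 = P (sg F m) 0 0 ∨
        (y • (Pinf : PP F) = P (sg F m) 0 0 ∧ y • P (sg F m) 0 0 = Pinf)) := by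
  constructor
  · rintro (⟨p, hp, h1, h2⟩ | ⟨u, h4, h1, h2⟩)
    · rcases d_fix' m hu0 hp h1 with rfl | rfl
      · exact Or.inl h2
      · exact Or.inr (Or.inl h2)
    · rcases ss_cases m h4 with ⟨k, v, hv, e⟩ | hu
      · have haO : k⁻¹ • (Pinf : PP F) ∈ Cfsg.suzukiOvoid F m := smul_mem_ovoid m _ (Pinf_mem m)
        have hbO : k⁻¹ • P (sg F m) 0 0 ∈ Cfsg.suzukiOvoid F m := smul_mem_ovoid m _ (P_mem m 0 0)
        have hab : k⁻¹ • (Pinf : PP F) ≠ k⁻¹ • P (sg F m) 0 0 := fun h =>
          (P_ne_Pinf _ _ _).symm (smul_left_cancel _ h)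
        have hfix : dG m u0 • (k⁻¹ • (Pinf : PP F)) = k⁻¹ • (Pinf : PP F) ∧
            dG m u0 • (k⁻¹ • P (sg F m) 0 0) = k⁻¹ • P (sg F m) 0 0 := by
          rcases nor_perm hv e h1 with h | ⟨s1, s2⟩
          · exact h
          · exfalso
            have hu2 : u0 * u0 ≠ 1 := fun h => hu0 (unit_sq_eq_one h)
            have f1 : dG m (u0 * u0) • (k⁻¹ • (Pinf : PP F)) = k⁻¹ • (Pinf : PP F) := by
              rw [← dG_mul, mul_smul, s1, s2]
            rcases d_fix' m hu2 haO f1 with g | g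
            · rw [g, dG_smul_Pinf] at s1
              exact hab (g.trans s1)
            · rw [g, dG_smul_P_zero] at s1
              exact hab (g.trans s1)
        have ga := d_fix' m hu0 haO hfix.1
        have gb := d_fix' m hu0 hbO hfix.2
        have hy := nor_perm hv e h2
        rcases ga with ga | ga <;> rcases gb with gb | gb
        · exact absurd (ga.trans gb.symm) hab
        · rw [ga, gb] at hy
          rcases hy with ⟨y1, -⟩ | hy
          · exact Or.inl y1
          · exact Or.inr (Or.inr hy)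
        · rw [ga, gb] at hy
          rcases hy with ⟨y1, -⟩ | ⟨y1, y2⟩
          · exact Or.inr (Or.inl y1)
          · exact Or.inr (Or.inr ⟨y2, y1⟩)
        · exact absurd (ga.trans gb.symm) hab
      · exfalso
        have h5 := pow_card_of_mem h1
        rw [((tori_main (F := F) m).1 u hu).2] at h5
        have c1 : Nat.Coprime (4 * Nat.card (Cen m u)) (Fintype.card F - 1) := by
          apply Nat.Coprime.mul_left
          · exact cop_of_odd (odd_pred (F := F) m) 2
          · exact (Nat.Coprime.coprime_dvd_right hu.card_dvd (cop_a (F := F) m)).symm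
        exact dG_ne_one m hu0 (eq_one_of_coprime_pow c1 h5 (dG_pow_card u0))
  · rintro (h | h | ⟨h1, h2⟩)
    · exact Or.inl ⟨Pinf, Pinf_mem m, dG_smul_Pinf m u0, h⟩
    · exact Or.inl ⟨_, P_mem m 0 0, dG_smul_P_zero m u0, h⟩
    · right
      refine ⟨dG m u0, dG_pow_four_ne hu0, cen_le_nor _ (self_mem_Cen _), ?_⟩
      apply ss_ti m (dG_pow_four_ne hu0)
      rw [swap_inverts h1 h2]
      exact inv_mem (self_mem_Cen _)

open Classical in
theorem card_sol_d {u0 : Fˣ} (hu0 : u0 ≠ 1) :
    Nat.card {y : Cfsg.Sz F m // CF m (dG m u0) y ∨ CT m (dG m u0) y} =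
      2 * (Fintype.card F ^ 2 * (Fintype.card F - 1)) := by
  set A : Finset (Cfsg.Sz F m) := Finset.univ.filter (fun y => y • (Pinf : PP F) = Pinf) with hA
  set B : Finset (Cfsg.Sz F m) :=
    Finset.univ.filter (fun y => y • P (sg F m) 0 0 = P (sg F m) 0 0) with hB
  set C : Finset (Cfsg.Sz F m) := Finset.univ.filter
    (fun y => y • (Pinf : PP F) = P (sg F m) 0 0 ∧ y • P (sg F m) 0 0 = Pinf) with hC
  have h1 : Nat.card {y : Cfsg.Sz F m // CF m (dG m u0) y ∨ CT m (dG m u0) y} =
      ((A ∪ B) ∪ C).card := by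
    rw [Nat.card_eq_fintype_card, Fintype.card_subtype]
    congr 1
    ext y
    simp only [Finset.mem_filter, Finset.mem_univ, true_and, Finset.mem_union, hA, hB, hC]
    rw [sol_d hu0, or_assoc]
  have h2 : Disjoint (A ∪ B) C := by
    rw [Finset.disjoint_left]
    intro y hy hy'
    simp only [Finset.mem_filter, Finset.mem_univ, true_and, Finset.mem_union, hA, hB, hC]
      at hy hy'
    rcases hy with hy | hy
    · exact P_ne_Pinf _ _ _ (hy'.1.symm.trans hy)
    · exact P_ne_Pinf _ _ _ (hy.symm.trans hy'.2)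
  have h3 : (A ∩ B).card = C.card := by
    apply Finset.card_bij (fun y _ => y * wG m)
    · intro y hy
      simp only [Finset.mem_filter, Finset.mem_univ, true_and, Finset.mem_inter, hA, hB, hC]
        at hy ⊢
      rw [mul_smul, mul_smul, wG_smul_Pinf, wG_smul_P_zero]
      exact ⟨hy.2, hy.1⟩
    · intro y _ y' _ h
      exact mul_right_cancel h
    · intro y hy
      simp only [Finset.mem_filter, Finset.mem_univ, true_and, Finset.mem_inter, hA, hB, hC]
        at hy ⊢
      refine ⟨y * wG m, ?_, ?_⟩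
      · rw [mul_smul, mul_smul, wG_smul_Pinf, wG_smul_P_zero]
        exact ⟨hy.2, hy.1⟩
      · rw [mul_assoc, wG_mul_wG, mul_one]
  have h4 : B.card = A.card := by
    apply Finset.card_bij (fun y _ => wG m * y * wG m)
    · intro y hy
      simp only [Finset.mem_filter, Finset.mem_univ, true_and, hA, hB] at hy ⊢
      rw [mul_smul, mul_smul, wG_smul_Pinf, hy, wG_smul_P_zero]
    · intro y _ y' _ h
      exact mul_left_cancel (mul_right_cancel h)
    · intro y hy
      simp only [Finset.mem_filter, Finset.mem_univ, true_and, hA, hB] at hy ⊢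
      refine ⟨wG m * y * wG m, ?_, ?_⟩
      · rw [mul_smul, mul_smul, wG_smul_P_zero, hy, wG_smul_Pinf]
      · calc wG m * (wG m * y * wG m) * wG m = (wG m * wG m) * y * (wG m * wG m) := by group
          _ = y := by rw [wG_mul_wG, one_mul, mul_one]
  have h5 : A.card = Fintype.card F ^ 2 * (Fintype.card F - 1) := by
    rw [← card_stab_inf m, Nat.card_eq_fintype_card, ← Fintype.card_coe]
    apply Fintype.card_congr
    exact Equiv.subtypeEquivRight (fun y => by
      simp only [Finset.mem_filter, Finset.mem_univ, true_and, hA, MulAction.mem_stabilizer_iff]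
      rfl)
  have h6 := Finset.card_union_add_card_inter A B
  rw [h1, Finset.card_union_of_disjoint h2, ← h3, h6, h4, h5, two_mul]

end Cfsg.Agent.Lib.Helper19.Suz
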