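import Cfsg.Agent.Lib.Helper19.SolG

/-!
# Solubilizers in Suzuki groups, part H: the 2-elements and the main theorem
-/

set_option autoImplicit false
set_option linter.style.haveILetI false
set_option linter.unusedSimpArgs false
set_option linter.unusedSectionVars false
open scoped Pointwise
open Matrix Polynomial

namespace Cfsg.Agent.Lib.Helper19.Suz

variable {F : Type*} [Field F] [Fintype F] [CharP F 2] {m : ℕ} [Hyp F m]

theorem goodX_zz : GoodX (zz m F) :=
  ⟨zz_fix, fun _ hp h => zz_fix_only hp h, fun _ h => h⟩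

theorem goodX_t1 (β : F) : GoodX (tG m 1 β) :=
  ⟨tG_smul_Pinf m 1 β, fun _ hp h => t_fix m hp (t1_ne β) h, fun _ h => by
    rw [← t1_sq β]; exact mul_mem h h⟩

theorem card_InC_split : Nat.card {c : Cfsg.Sz F m // InC c} =
    Nat.card {c : Cfsg.Sz F m // InC c ∧ FF m c} + Nat.card {c : Cfsg.Sz F m // InC c ∧ ¬ FF m c} := by
  classical
  rw [Nat.card_eq_fintype_card, Nat.card_eq_fintype_card, Nat.card_eq_fintype_card,
    Fintype.card_subtype, Fintype.card_subtype, Fintype.card_subtype,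
    ← Finset.filter_filter, ← Finset.filter_filter]
  exact (Finset.card_filter_add_card_filter_not _).symm

/-- the arithmetic behind the count -/
theorem arith_NN {q j A D Ff N : ℕ} (hj : 2 * j = q) (hq : 8 ≤ q) (hA : A = q * (q * (q - 1)))
    (hD : D = q * (j * (q - 2))) (hF : Ff = j * N) (hs : A = Ff + D) :
    N = q ^ 2 ∧ q ^ 2 * (q - 1) + (4 * Ff + 2 * D) = q ^ 2 * (4 * q - 3) := by
  obtain ⟨i, rfl⟩ : ∃ i, j = i + 1 := ⟨j - 1, by omega⟩
  subst hj
  have e1 : 2 * (i + 1) - 1 = 2 * i + 1 := by omega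
  have e2 : 2 * (i + 1) - 2 = 2 * i := by omega
  have e3 : 4 * (2 * (i + 1)) - 3 = 8 * i + 5 := by omega
  rw [e1] at hA
  rw [e2] at hD
  rw [e1, e3]
  have hN : (i + 1) * N = (i + 1) * (2 * (i + 1)) ^ 2 := by
    have : (i + 1) * N + D = (i + 1) * (2 * (i + 1)) ^ 2 + D := by
      rw [← hF, ← hs, hA, hD]; ring
    exact Nat.add_right_cancel this
  have hN' : N = (2 * (i + 1)) ^ 2 := Nat.eq_of_mul_eq_mul_left (Nat.succ_pos i) hN
  refine ⟨hN', ?_⟩
  rw [hF, hD, hN']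
  ring

theorem NN_and_sum :
    NN m F 0 = Fintype.card F ^ 2 ∧
    Fintype.card F ^ 2 * (Fintype.card F - 1) +
      (4 * Nat.card {c : Cfsg.Sz F m // InC c ∧ FF m c} +
        2 * Nat.card {c : Cfsg.Sz F m // InC c ∧ ¬ FF m c}) =
      Fintype.card F ^ 2 * (4 * Fintype.card F - 3) :=
  arith_NN (card_JJ (F := F) m) (card_ge (F := F) m) card_InC card_InC_d card_InC_ff card_InC_split

open Classical in
theorem card_sol_zz : Nat.card {y : Cfsg.Sz F m // CF m (zz m F) y ∨ CT m (zz m F) y} =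
    Fintype.card F ^ 2 * (4 * Fintype.card F - 3) := by
  rw [card_sol goodX_zz, ← (NN_and_sum (F := F) (m := m)).2]
  congr 1
  rw [← Finset.sum_filter_add_sum_filter_not _ (fun c => FF m c)]
  congr 1
  · rw [Finset.sum_congr rfl (g := fun _ => 4), Finset.sum_const, smul_eq_mul, mul_comm,
      Nat.card_eq_fintype_card, Fintype.card_subtype]
    · congr 2
      rw [Finset.filter_filter]
      apply Finset.filter_congr
      intro c _
      exact ⟨fun h => ⟨h.1.1, h.2⟩, fun h => ⟨⟨h.1, h.1.zz_mem⟩, h.2⟩⟩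
    · intro c hc
      simp only [Finset.mem_filter, Finset.mem_univ, true_and] at hc
      exact card_SB_ff hc.2 hc.1.1.1 hc.1.2
  · rw [Finset.sum_congr rfl (g := fun _ => 2), Finset.sum_const, smul_eq_mul, mul_comm,
      Nat.card_eq_fintype_card, Fintype.card_subtype]
    · congr 2
      rw [Finset.filter_filter]
      apply Finset.filter_congr
      intro c _
      exact ⟨fun h => ⟨h.1.1, h.2⟩, fun h => ⟨⟨h.1, h.1.zz_mem⟩, h.2⟩⟩
    · intro c hc
      simp only [Finset.mem_filter, Finset.mem_univ, true_and] at hc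
      exact card_SB_d hc.1.1 hc.2

open Classical in
theorem card_sol_t1 (β : F) : Nat.card {y : Cfsg.Sz F m // CF m (tG m 1 β) y ∨ CT m (tG m 1 β) y} =
    Fintype.card F ^ 2 * (Fintype.card F + 3) := by
  rw [card_sol (goodX_t1 β)]
  rw [Finset.sum_congr rfl (g := fun _ => 4), Finset.sum_const, smul_eq_mul]
  · have h1 : (Finset.univ.filter (fun c : Cfsg.Sz F m => InC c ∧ tG m 1 β ∈ Nor c)).card =
        NN m F β := by
      unfold NN
      rw [Nat.card_eq_fintype_card, Fintype.card_subtype]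
    rw [h1, NN_eq_zero, (NN_and_sum (F := F) (m := m)).1]
    have hq : 8 ≤ Fintype.card F := card_ge (F := F) m
    obtain ⟨i, hi⟩ : ∃ i, Fintype.card F = i + 1 := ⟨Fintype.card F - 1, by omega⟩
    rw [hi, Nat.add_sub_cancel]
    ring
  · intro c hc
    simp only [Finset.mem_filter, Finset.mem_univ, true_and] at hc
    exact card_SB_ff (ff_of_t1 hc.1 hc.2) hc.1.1 hc.1.zz_mem

/-- the solubilizer -/
noncomputable abbrev SolC (x : Cfsg.Sz F m) : ℕ :=
  Nat.card {y : Cfsg.Sz F m // Group.IsSolvable (Subgroup.closure ({x, y} : Set (Cfsg.Sz F m)))}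

theorem SolC_eq (hp : (2 * m + 1).Prime) (x : Cfsg.Sz F m) :
    SolC x = Nat.card {y : Cfsg.Sz F m // CF m x y ∨ CT m x y} :=
  Nat.card_congr (Equiv.subtypeEquivRight (fun y => sol_iff m hp x y))

theorem SolC_conj (g x : Cfsg.Sz F m) : SolC (g * x * g⁻¹) = SolC x :=
  card_sol_congr (MulAut.conj g) x

theorem exists_conj_zz {x : Cfsg.Sz F m} (hx1 : x ≠ 1) (hxx : x * x = 1) :
    ∃ g, g * x * g⁻¹ = zz m F := by
  obtain ⟨p, hp, hfix⟩ := t_exists_fix m hx1 (pow_four_of_sq hxx)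
  obtain ⟨k, hk⟩ := exists_smul_eq_Pinf m hp
  obtain ⟨a1, a2⟩ := conj_invol_props (h := k) hx1 hxx
  obtain ⟨c1, hc1, e1⟩ := invol_inf m a1 a2 (by
    rw [mul_smul, mul_smul, ← hk, inv_smul_smul, hfix])
  obtain ⟨t, ht⟩ := exists_lam m (inv_ne_zero hc1)
  refine ⟨dG m t * k, ?_⟩
  calc (dG m t * k) * x * (dG m t * k)⁻¹ = dG m t * (k * x * k⁻¹) * (dG m t)⁻¹ := by group
    _ = _ := by rw [e1, conj_d_t0, ht, inv_mul_cancel₀ hc1]; rfl

theorem exists_conj_t1 {x : Cfsg.Sz F m} (hx4 : x ^ 4 = 1) (hxx : x * x ≠ 1) :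
    ∃ g β, g * x * g⁻¹ = tG m 1 β := by
  have hx1 : x ≠ 1 := by rintro rfl; simp at hxx
  obtain ⟨k, a, b, e⟩ := t_type m hx1 hx4
  have ha : a ≠ 0 := by
    rintro rfl
    apply hxx
    have h1 : (k * x * k⁻¹) * (k * x * k⁻¹) = 1 := by rw [e, tG0_sq]
    have h2 : k * (x * x) * k⁻¹ = 1 := by rw [← h1]; group
    exact eq_one_of_conj h2
  obtain ⟨t0, ht0⟩ := sg_surjective m a⁻¹
  have ht00 : t0 ≠ 0 := by
    rintro rfl
    rw [map_zero] at ht0
    exact inv_ne_zero ha ht0.symm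
  refine ⟨dG m (Units.mk0 t0 ht00) * k, t0 ^ 2 * a⁻¹ * b, ?_⟩
  calc (dG m (Units.mk0 t0 ht00) * k) * x * (dG m (Units.mk0 t0 ht00) * k)⁻¹
      = dG m (Units.mk0 t0 ht00) * (k * x * k⁻¹) * (dG m (Units.mk0 t0 ht00))⁻¹ := by group
    _ = _ := by
      rw [e, conj_d_t, Units.val_mk0, ht0, inv_mul_cancel₀ ha]

theorem sol_main (hp : (2 * m + 1).Prime) (x : Cfsg.Sz F m) :
    (orderOf x = 2 → SolC x = Fintype.card F ^ 2 * (4 * Fintype.card F - 3)) ∧
    (orderOf x = 4 → SolC x = Fintype.card F ^ 2 * (Fintype.card F + 3)) ∧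
    (x ≠ 1 → orderOf x ∣ Fintype.card F - 1 →
      SolC x = 2 * Fintype.card F ^ 2 * (Fintype.card F - 1)) ∧
    (x ≠ 1 → orderOf x ∣ Fintype.card F + 2 ^ (m + 1) + 1 →
      SolC x = 4 * (Fintype.card F + 2 ^ (m + 1) + 1)) ∧
    (x ≠ 1 → orderOf x ∣ Fintype.card F - 2 ^ (m + 1) + 1 →
      SolC x = 4 * (Fintype.card F - 2 ^ (m + 1) + 1)) := by
  refine ⟨?_, ?_, ?_, ?_, ?_⟩
  · intro ho
    have hx1 : x ≠ 1 := by
      rintro rfl
      rw [orderOf_one] at ho
      omega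
    have hxx : x * x = 1 := by rw [← sq, ← ho]; exact pow_orderOf_eq_one x
    obtain ⟨g, hg⟩ := exists_conj_zz hx1 hxx
    rw [← SolC_conj g x, hg, SolC_eq hp, card_sol_zz]
  · intro ho
    have hx4 : x ^ 4 = 1 := by
      have := pow_orderOf_eq_one x
      rwa [ho] at this
    have hxx : x * x ≠ 1 := by
      intro h
      have h2 : orderOf x ∣ 2 := orderOf_dvd_of_pow_eq_one (by rw [sq]; exact h)
      rw [ho] at h2
      omega
    obtain ⟨g, β, hg⟩ := exists_conj_t1 hx4 hxx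
    rw [← SolC_conj g x, hg, SolC_eq hp, card_sol_t1]
  · intro hx1 ho
    have hpw : x ^ (Fintype.card F - 1) = 1 := orderOf_dvd_iff_pow_eq_one.1 ho
    have h4 : x ^ 4 ≠ 1 := by
      intro h
      have h' : x ^ (2 ^ 2) = 1 := h
      exact hx1 (eq_one_of_coprime_pow (cop_of_odd (odd_pred (F := F) m) 2) h' hpw)
    rcases ss_cases m h4 with ⟨k, u, hu, e⟩ | hFF
    · rw [← SolC_conj k x, e, SolC_eq hp, card_sol_d hu, mul_assoc]
    · exact absurd (eq_one_of_coprime_pow (cop_a (F := F) m) hpw hFF.pow) hx1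
  · intro hx1 ho
    obtain ⟨hFF, hc⟩ := card_cen_plus hx1 (orderOf_dvd_iff_pow_eq_one.1 ho)
    rw [SolC_eq hp, card_sol_ff hFF, hc]
  · intro hx1 ho
    obtain ⟨hFF, hc⟩ := card_cen_minus hx1 (orderOf_dvd_iff_pow_eq_one.1 ho)
    rw [SolC_eq hp, card_sol_ff hFF, hc]

end Cfsg.Agent.Lib.Helper19.Suz
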