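import Cfsg.Agent.Lib.Helper19.TorE
import Cfsg.Agent.Lib.Helper19.SuzH

/-!
# Suzuki groups: transitive actions of fixity two
-/

set_option autoImplicit false
set_option linter.style.haveILetI false
set_option linter.unusedSimpArgs false
set_option linter.unusedSectionVars false
open scoped Pointwise
open Matrix Polynomial

namespace Cfsg.Agent.Lib.Helper19.Suz

section Abstract

variable {S Ω : Type*} [Group S] [MulAction S Ω]

/-- at most two fixed points -/
def Fix2 (S Ω : Type*) [Group S] [MulAction S Ω] : Prop :=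
  ∀ g : S, g ≠ 1 → ∀ a b c : Ω, g • a = a → g • b = b → g • c = c → a = b ∨ a = c ∨ b = c

theorem Fix2.norm_fix (Zs : Set S) {α : Ω} (hα : ∀ z ∈ Zs, z • α = α) {n : S}
    (hn : ∀ z ∈ Zs, n⁻¹ * z * n ∈ Zs) : ∀ z ∈ Zs, z • n • α = n • α := by
  intro z hz
  have := hα _ (hn z hz)
  rw [mul_smul, mul_smul, inv_smul_eq_iff] at this
  exact this

theorem Fix2.three (h : Fix2 S Ω) (Zs : Set S) {z0 : S} (hz0 : z0 ∈ Zs) (hz1 : z0 ≠ 1) {α : Ω}
    (hα : ∀ z ∈ Zs, z • α = α) {a b c : S} (ha : ∀ z ∈ Zs, a⁻¹ * z * a ∈ Zs)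
    (hb : ∀ z ∈ Zs, b⁻¹ * z * b ∈ Zs) (hc : ∀ z ∈ Zs, c⁻¹ * z * c ∈ Zs) :
    a • α = b • α ∨ a • α = c • α ∨ b • α = c • α :=
  h z0 hz1 _ _ _ (Fix2.norm_fix Zs hα ha z0 hz0) (Fix2.norm_fix Zs hα hb z0 hz0)
    (Fix2.norm_fix Zs hα hc z0 hz0)

theorem Fix2.sq (h : Fix2 S Ω) (Zs : Set S) {z0 : S} (hz0 : z0 ∈ Zs) (hz1 : z0 ≠ 1) {α : Ω}
    (hα : ∀ z ∈ Zs, z • α = α) {n : S} (hn : ∀ z ∈ Zs, n⁻¹ * z * n ∈ Zs) :
    (n * n) • α = α := by
  have h1 : ∀ z ∈ Zs, (1 : S)⁻¹ * z * 1 ∈ Zs := by intro z hz; simpa using hz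
  have h2 : ∀ z ∈ Zs, (n * n)⁻¹ * z * (n * n) ∈ Zs := by
    intro z hz
    have := hn _ (hn z hz)
    have e : (n * n)⁻¹ * z * (n * n) = n⁻¹ * (n⁻¹ * z * n) * n := by group
    rw [e]; exact this
  rcases h.three Zs hz0 hz1 hα h1 hn h2 with e | e | e
  · rw [one_smul] at e
    rw [mul_smul, ← e, ← e]
  · rw [one_smul] at e
    exact e.symm
  · rw [mul_smul] at e
    have := smul_left_cancel n e
    rw [mul_smul, ← this, ← this]

theorem Fix2.sq_comm (h : Fix2 S Ω) {z c : S} (hz1 : z ≠ 1) {α : Ω} (hα : z • α = α)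
    (hc : Commute c z) : (c * c) • α = α := by
  apply h.sq {z} rfl hz1
  · intro z' hz'; rw [Set.mem_singleton_iff.1 hz']; exact hα
  · intro z' hz'
    rw [Set.mem_singleton_iff.1 hz', Set.mem_singleton_iff]
    rw [mul_assoc, ← hc.eq]; group

theorem Fix2.odd_comm (h : Fix2 S Ω) {z c : S} (hz1 : z ≠ 1) {α : Ω} (hα : z • α = α)
    (hc : Commute c z) {n : ℕ} (hn : ¬ 2 ∣ n) (hcn : c ^ n = 1) : c • α = α := by
  obtain ⟨k, hk⟩ : ∃ k, n + 1 = 2 * k := ⟨(n + 1) / 2, by omega⟩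
  have h1 := h.sq_comm hz1 hα (hc.pow_left k)
  have e : c ^ k * c ^ k = c := by
    rw [← pow_add, ← two_mul, ← hk, pow_succ, hcn, one_mul]
  rwa [e] at h1

end Abstract

variable {F : Type*} [Field F] [Fintype F] [CharP F 2] (m : ℕ) [Hyp F m]
variable {Ω : Type*} [MulAction (Cfsg.Sz F m) Ω]

/-- the even case: a point stabiliser containing a translation is the Borel subgroup -/
theorem fix_even (h : Fix2 (Cfsg.Sz F m) Ω) {α : Ω} {a b : F} (hne : tG m a b ≠ 1)
    (hfix : tG m a b • α = α) (htop : MulAction.stabilizer (Cfsg.Sz F m) α ≠ ⊤) :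
    MulAction.stabilizer (Cfsg.Sz F m) α = Bor (F := F) m := by
  -- a central involution
  obtain ⟨b', hb', hz⟩ : ∃ b' : F, b' ≠ 0 ∧ tG m 0 b' • α = α := by
    by_cases ha : a = 0
    · subst ha
      refine ⟨b, ?_, hfix⟩
      rintro rfl
      exact hne (tG_zero m)
    · refine ⟨sg F m a * a, ?_, ?_⟩
      · simpa using ha
      · rw [← tG_sq m a b, mul_smul, hfix, hfix]
  have hz1 : tG m 0 b' ≠ 1 := by
    rw [tG_ne_one_iff]
    rintro ⟨-, h0⟩
    exact hb' h0
  -- the whole centre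
  have hZ : ∀ c : F, tG m 0 c • α = α := by
    intro c
    obtain ⟨a', ha'⟩ := (mul_sg_bijective (F := F) m).2 c
    have h1 := h.sq_comm hz1 hz (c := tG m a' 0) (by
      show tG m a' 0 * tG m 0 b' = tG m 0 b' * tG m a' 0
      rw [tG_mul, tG_mul]
      congr 1 <;> simp [add_comm])
    rw [tG_sq] at h1
    have e : sg F m a' * a' = c := by rw [← ha']; ring
    rwa [e] at h1
  -- squares of Borel elements
  have hB : ∀ n ∈ Bor (F := F) m, (n * n) • α = α := by
    intro n hn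
    apply h.sq {z | ∃ c, z = tG m 0 c} ⟨b', rfl⟩ hz1
    · rintro _ ⟨c, rfl⟩; exact hZ c
    · rintro _ ⟨c, rfl⟩
      have hn' : n⁻¹ ∈ Bor (F := F) m := inv_mem hn
      obtain ⟨c', d', u, e⟩ := (mem_Bor m).1 hn'
      have e2 : n⁻¹ * tG m 0 c * n = n⁻¹ * tG m 0 c * n⁻¹⁻¹ := by rw [inv_inv]
      rw [e2, e, conj_td_zero]
      exact ⟨_, rfl⟩
  have hD : ∀ u : Fˣ, dG m u ∈ MulAction.stabilizer (Cfsg.Sz F m) α := by
    intro u
    obtain ⟨v, hv⟩ := exists_sq (F := F) u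
    rw [MulAction.mem_stabilizer_iff, ← hv, ← dG_mul]
    exact hB _ ((mem_Bor m).2 ⟨0, 0, v, by rw [tG_zero, one_mul]⟩)
  obtain ⟨u, hu⟩ := exists_unit_ne_one (F := F) m
  obtain ⟨v, hv⟩ := exists_sq (F := F) u
  have hT : tG m 1 0 * dG m u * (tG m 1 0)⁻¹ ∈ MulAction.stabilizer (Cfsg.Sz F m) α := by
    have h1 := hB (tG m 1 0 * dG m v * (tG m 1 0)⁻¹) (by
      apply mul_mem (mul_mem _ _) (inv_mem _)
      · exact Q_le_Bor m ⟨_, _, rfl⟩
      · exact (mem_Bor m).2 ⟨0, 0, v, by rw [tG_zero, one_mul]⟩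
      · exact Q_le_Bor m ⟨_, _, rfl⟩)
    have e : tG m 1 0 * dG m v * (tG m 1 0)⁻¹ * (tG m 1 0 * dG m v * (tG m 1 0)⁻¹) =
        tG m 1 0 * dG m u * (tG m (1 : F) 0)⁻¹ := by
      rw [← hv, ← dG_mul]; group
    rw [e] at h1
    exact h1
  have hT2 : tG m (1 + sg F m u) ((u : F) ^ 2 * sg F m u + sg F m 1 * (sg F m u * 1)) ∈
      MulAction.stabilizer (Cfsg.Sz F m) α := by
    have h1 := mul_mem hT (inv_mem (hD u))
    have e : tG m 1 0 * dG m u * (tG m (1 : F) 0)⁻¹ * (dG m u)⁻¹ =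
        tG m (1 + sg F m u) ((u : F) ^ 2 * sg F m u + sg F m 1 * (sg F m u * 1)) := by
      rw [tG_inv, mul_assoc (tG m 1 0), dG_mul_tG, ← mul_assoc, tG_mul, mul_assoc, mul_inv_cancel,
        mul_one]
      congr 1 <;> simp
    rwa [e] at h1
  have hQ : Q (F := F) m ≤ MulAction.stabilizer (Cfsg.Sz F m) α := by
    apply Q_le_of_torus m hD _ hT2
    intro h0
    apply hu
    apply Units.ext
    exact sg_eq_one m (CharTwo.add_eq_zero.mp h0).symm
  have hle : Bor (F := F) m ≤ MulAction.stabilizer (Cfsg.Sz F m) α := by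
    intro g hg
    obtain ⟨c, d, w, rfl⟩ := (mem_Bor m).1 hg
    exact mul_mem (hQ ⟨_, _, rfl⟩) (hD w)
  rcases eq_or_lt_of_le hle with e | e
  · exact e.symm
  · exact absurd ((Bor_isCoatom (F := F) m).2 _ e) htop

/-- the odd case -/
theorem fix_odd (h : Fix2 (Cfsg.Sz F m) Ω)
    (hev : ∀ (α : Ω) (t : Cfsg.Sz F m), t ≠ 1 → t ^ 4 = 1 → t • α ≠ α) {α : Ω}
    (hH : ∃ g : Cfsg.Sz F m, g ≠ 1 ∧ g • α = α) :
    Nat.card (MulAction.stabilizer (Cfsg.Sz F m) α) = Fintype.card F - 1 := by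
  classical
  haveI : Fact (Nat.Prime 2) := ⟨Nat.prime_two⟩
  have claim1 : ∀ x : Cfsg.Sz F m, x ≠ 1 → x • α = α → ¬ FF m x := by
    intro x hx1 hxα hFF
    have hA : ∀ c ∈ ((Cen m x : Subgroup (Cfsg.Sz F m)) : Set (Cfsg.Sz F m)), c • α = α :=
      fun c hc => h.odd_comm hx1 hxα (mem_Cen.1 hc)
        (fun h2 => not_two_dvd (F := F) m (h2.trans hFF.card_dvd)) (pow_card_of_mem hc)
    have hN : Nat.card (Nor x) = 4 * Nat.card (Cen m x) := ((tori_main (F := F) m).1 x hFF).2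
    obtain ⟨K, hK⟩ := Sylow.exists_subgroup_card_pow_prime 2 (n := 2) (G := Nor x)
      (by rw [hN]; exact Dvd.intro _ rfl)
    have h2 : 2 < Fintype.card K := by rw [← Nat.card_eq_fintype_card, hK]; norm_num
    obtain ⟨a, b, c, hab, hac, hbc⟩ := Fintype.two_lt_card_iff.1 h2
    have norm : ∀ n : K, ∀ z ∈ ((Cen m x : Subgroup (Cfsg.Sz F m)) : Set (Cfsg.Sz F m)),
        n.1.1⁻¹ * z * n.1.1 ∈ ((Cen m x : Subgroup (Cfsg.Sz F m)) : Set (Cfsg.Sz F m)) := by
      intro n z hz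
      have hn : n.1.1⁻¹ ∈ Nor x := inv_mem n.1.2
      have := (Subgroup.mem_normalizer_iff.1 hn z).1 hz
      rwa [inv_inv] at this
    have aux : ∀ a b : K, a ≠ b → a.1.1 • α ≠ b.1.1 • α := by
      intro a b hab e
      apply hev α (b.1.1⁻¹ * a.1.1)
      · intro h0
        apply hab
        apply Subtype.ext
        apply Subtype.ext
        exact (inv_mul_eq_one.1 h0).symm
      · have h4 : (b⁻¹ * a) ^ Nat.card K = 1 := pow_card_eq_one'
        rw [hK] at h4
        have := congrArg (fun k : K => k.1.1) h4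
        simpa using this
      · rw [mul_smul, e, inv_smul_smul]
    rcases h.three _ (self_mem_Cen x) hx1 hA (norm a) (norm b) (norm c) with e | e | e
    · exact aux a b hab e
    · exact aux a c hac e
    · exact aux b c hbc e
  have claim2 : ∀ x : Cfsg.Sz F m, x ≠ 1 → x • α = α →
      ∃ (k : Cfsg.Sz F m) (u : Fˣ), u ≠ 1 ∧ k * x * k⁻¹ = dG m u := by
    intro x hx1 hxα
    have hnf := claim1 x hx1 hxα
    unfold FF at hnf
    push Not at hnf
    obtain ⟨p, hp, hfix⟩ := hnf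
    rcases classify_fixed m hp hfix with ⟨k, a, b, e⟩ | h2
    · exact absurd hxα (hev α x hx1 (pow_of_conj_t m e))
    · exact h2
  obtain ⟨g, hg1, hgα⟩ := hH
  obtain ⟨k, u, hu, e⟩ := claim2 g hg1 hgα
  obtain ⟨-, hcard⟩ := type_d m hu e
  have hle : Cen m g ≤ MulAction.stabilizer (Cfsg.Sz F m) α := by
    intro c hc
    have := pow_card_of_mem hc
    rw [hcard] at this
    exact h.odd_comm hg1 hgα (mem_Cen.1 hc) (odd_pred (F := F) m) this
  have hcop : Nat.Coprime (Nat.card (MulAction.stabilizer (Cfsg.Sz F m) α))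
      (Fintype.card F ^ 2 * (Fintype.card F ^ 2 + 1)) := by
    apply Nat.coprime_of_dvd
    intro r hr h1 h2
    haveI := Fact.mk hr
    obtain ⟨x, hx⟩ := exists_prime_orderOf_dvd_card' r h1
    rw [← Subgroup.orderOf_coe] at hx
    have hx1 : x.1 ≠ 1 := by
      intro h0
      rw [h0, orderOf_one] at hx
      exact hr.one_lt.ne hx
    obtain ⟨k', u', -, e'⟩ := claim2 x.1 hx1 x.2
    have hr1 : r ∣ Fintype.card F - 1 := by
      rw [← hx]; exact orderOf_dvd_of_pow_eq_one (pow_of_conj_d m e')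
    rcases (hr.dvd_mul).1 h2 with h3 | h3
    · have h4 := hr.dvd_of_dvd_pow h3
      rw [Hyp.hF (F := F) (m := m)] at h4
      have h5 := (Nat.prime_dvd_prime_iff_eq hr Nat.prime_two).mp (hr.dvd_of_dvd_pow h4)
      subst h5
      exact odd_pred (F := F) m hr1
    · have := Nat.dvd_gcd hr1 h3
      rw [cop_a (F := F) m] at this
      exact hr.one_lt.ne' (Nat.dvd_one.1 this)
  have hdvd : Nat.card (MulAction.stabilizer (Cfsg.Sz F m) α) ∣
      Fintype.card F ^ 2 * (Fintype.card F ^ 2 + 1) * (Fintype.card F - 1) := by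
    rw [← card_G m]
    exact Subgroup.card_subgroup_dvd_card _
  have hd2 := hcop.dvd_of_dvd_mul_left hdvd
  have hq := card_ge (F := F) m
  apply le_antisymm
  · exact Nat.le_of_dvd (by omega) hd2
  · rw [← hcard]
    exact Nat.le_of_dvd Nat.card_pos (Subgroup.card_dvd_of_le hle)

theorem fixity_main [Finite Ω] (htr : MulAction.IsPretransitive (Cfsg.Sz F m) Ω)
    (h : Fix2 (Cfsg.Sz F m) Ω)
    (hex : ∃ g : Cfsg.Sz F m, g ≠ 1 ∧ ∃ a b : Ω, a ≠ b ∧ g • a = a ∧ g • b = b) :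
    (Nat.card Ω = Fintype.card F ^ 2 + 1 ∧ MulAction.IsMultiplyPretransitive (Cfsg.Sz F m) Ω 2) ∨
    (Nat.card Ω = Fintype.card F ^ 2 * (Fintype.card F ^ 2 + 1) ∧
      ∀ α : Ω, Nat.card (MulAction.stabilizer (Cfsg.Sz F m) α) = Fintype.card F - 1) := by
  have hq := card_ge (F := F) m
  obtain ⟨g, hg1, a0, b0, hab0, hga, hgb⟩ := hex
  have hidx : ∀ α : Ω, Nat.card Ω * Nat.card (MulAction.stabilizer (Cfsg.Sz F m) α) =
      Fintype.card F ^ 2 * (Fintype.card F ^ 2 + 1) * (Fintype.card F - 1) := by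
    intro α
    rw [← MulAction.index_stabilizer_of_transitive (Cfsg.Sz F m) α, Subgroup.index_mul_card, card_G]
  by_cases hev : ∀ (α : Ω) (t : Cfsg.Sz F m), t ≠ 1 → t ^ 4 = 1 → t • α ≠ α
  · right
    have hall : ∀ α : Ω, Nat.card (MulAction.stabilizer (Cfsg.Sz F m) α) = Fintype.card F - 1 := by
      intro α
      apply fix_odd m h hev
      obtain ⟨k, hk⟩ := htr.exists_smul_eq α a0
      refine ⟨k⁻¹ * g * k, ?_, ?_⟩
      · intro h0
        apply hg1
        have e : g = k * (k⁻¹ * g * k) * k⁻¹ := by group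
        rw [e, h0]; group
      · rw [mul_smul, mul_smul, hk, hga, ← hk, inv_smul_smul]
    refine ⟨?_, hall⟩
    have := hidx a0
    rw [hall] at this
    exact Nat.eq_of_mul_eq_mul_right (by omega) this
  · left
    push Not at hev
    obtain ⟨α, t, ht1, ht4, htα⟩ := hev
    have ht4' : t ^ (2 ^ 2) = 1 := ht4
    obtain ⟨k, a, b, e⟩ : ∃ k a b, k * t * k⁻¹ = tG m a b := by
      by_cases hFF : FF m t
      · exact absurd (eq_one_of_coprime_pow (cop_of_odd (not_two_dvd (F := F) m) 2) ht4' hFF.pow) ht1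
      · unfold FF at hFF
        push Not at hFF
        obtain ⟨p, hp, hfix⟩ := hFF
        rcases classify_fixed m hp hfix with h2 | ⟨k, u, hu, e⟩
        · exact h2
        · exact absurd (eq_one_of_coprime_pow (cop_of_odd (odd_pred (F := F) m) 2) ht4'
            (pow_of_conj_d m e)) ht1
    have hne : tG m a b ≠ 1 := by
      rw [← e]
      exact fun h0 => ht1 (eq_one_of_conj h0)
    have hfix : tG m a b • (k • α) = k • α := by
      rw [← e, mul_smul, mul_smul, inv_smul_smul, htα]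
    have htop : MulAction.stabilizer (Cfsg.Sz F m) (k • α) ≠ ⊤ := by
      intro h0
      have hall : ∀ ω : Ω, ω = k • α := by
        intro ω
        obtain ⟨j, hj⟩ := htr.exists_smul_eq (k • α) ω
        have : j ∈ MulAction.stabilizer (Cfsg.Sz F m) (k • α) := by rw [h0]; trivial
        rw [← hj]; exact this
      exact hab0 ((hall a0).trans (hall b0).symm)
    have hst := fix_even m h hne hfix htop
    set β := k • α with hβ
    have hmem : ∀ j : Cfsg.Sz F m, j • β = β ↔ j • (Pinf : PP F) = Pinf := by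
      intro j
      rw [← MulAction.mem_stabilizer_iff, hst, MulAction.mem_stabilizer_iff]
    constructor
    · have := hidx β
      rw [hst] at this
      have hB : Nat.card (Bor (F := F) m) = Fintype.card F ^ 2 * (Fintype.card F - 1) :=
        card_stab_inf m
      rw [hB] at this
      have h0 : 0 < Fintype.card F ^ 2 * (Fintype.card F - 1) := by
        have : 0 < Fintype.card F - 1 := by omega
        positivity
      apply Nat.eq_of_mul_eq_mul_right h0
      rw [this]; ring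
    · rw [MulAction.is_two_pretransitive_iff]
      intro a b c d hab hcd
      obtain ⟨ga, rfl⟩ := htr.exists_smul_eq β a
      obtain ⟨gb, rfl⟩ := htr.exists_smul_eq β b
      obtain ⟨gc, rfl⟩ := htr.exists_smul_eq β c
      obtain ⟨gd, rfl⟩ := htr.exists_smul_eq β d
      have tr : ∀ x y : Cfsg.Sz F m, x • β = y • β ↔ x • (Pinf : PP F) = y • Pinf := by
        intro x y
        rw [← inv_smul_eq_iff, ← mul_smul, hmem, mul_smul, inv_smul_eq_iff]
      obtain ⟨k1, k1a, k1b⟩ := exists_pair m (smul_mem_ovoid m ga (Pinf_mem m))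
        (smul_mem_ovoid m gb (Pinf_mem m)) (fun h0 => hab ((tr _ _).2 h0))
      obtain ⟨k2, k2a, k2b⟩ := exists_pair m (smul_mem_ovoid m gc (Pinf_mem m))
        (smul_mem_ovoid m gd (Pinf_mem m)) (fun h0 => hcd ((tr _ _).2 h0))
      refine ⟨k2⁻¹ * k1, ?_, ?_⟩
      · rw [← mul_smul, tr, mul_smul, mul_smul, k1a, inv_smul_eq_iff, k2a]
      · rw [← mul_smul, tr, mul_smul, mul_smul, k1b, inv_smul_eq_iff, k2b]

end Cfsg.Agent.Lib.Helper19.Suz
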